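import Mathlib
import Cfsg.Prelude.Def_Local
import Cfsg.Agent.Lib.Helper6.PSolv3
import Cfsg.Agent.Lib.Helper14.Cores

set_option autoImplicit false

/-!
Basic theory of the upper `p`-series and the `p`-length: monotonicity, behaviour under
surjections, subgroups and extensions.
-/

namespace Cfsg.Agent.Lib.Helper23

open Cfsg
open Cfsg.Agent.Lib.Helper6 Cfsg.Agent.Lib.Helper14

universe u v

section ups

variable {G : Type u} [Group G] {p : ℕ}

theorem ups_mono (m : ℕ) : (upperPSeries p G m).1 ≤ (upperPSeries p G (m + 1)).1 := by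
  by_cases hm : Even m
  · rw [upperPSeries_succ_even m hm]
    intro x hx
    rw [Subgroup.mem_comap]
    have h1 : QuotientGroup.mk' (upperPSeries p G m).1 x = 1 := (QuotientGroup.eq_one_iff x).mpr hx
    rw [h1]
    exact Subgroup.one_mem _
  · rw [upperPSeries_succ_odd m hm]
    intro x hx
    rw [Subgroup.mem_comap]
    have h1 : QuotientGroup.mk' (upperPSeries p G m).1 x = 1 := (QuotientGroup.eq_one_iff x).mpr hx
    rw [h1]
    exact Subgroup.one_mem _

theorem ups_mono' {m n : ℕ} (h : m ≤ n) :
    (upperPSeries p G m).1 ≤ (upperPSeries p G n).1 := by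
  induction n, h using Nat.le_induction with
  | base => exact le_rfl
  | succ n hmn ih => exact ih.trans (ups_mono n)

theorem relIndex_comap_mk (N : Subgroup G) [N.Normal] (X : Subgroup (G ⧸ N)) :
    N.relIndex (X.comap (QuotientGroup.mk' N)) = Nat.card X := by
  have h := Subgroup.relIndex_ker (QuotientGroup.mk' N) (K := X.comap (QuotientGroup.mk' N))
  rw [QuotientGroup.ker_mk',
    Subgroup.map_comap_eq_self_of_surjective (QuotientGroup.mk'_surjective _)] at h
  exact h

theorem ups_relIndex_even [Finite G] {m : ℕ} (hm : Even m) :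
    ((upperPSeries p G m).1.relIndex (upperPSeries p G (m + 1)).1).Coprime p := by
  rw [upperPSeries_succ_even m hm, relIndex_comap_mk]
  exact pPrimeCore_coprime p

theorem ups_relIndex_odd [Finite G] [hp : Fact p.Prime] {m : ℕ} (hm : ¬ Even m) :
    ∃ k : ℕ, (upperPSeries p G m).1.relIndex (upperPSeries p G (m + 1)).1 = p ^ k := by
  rw [upperPSeries_succ_odd m hm, relIndex_comap_mk]
  exact IsPGroup.iff_card.mp (pCore_isPGroup p)

theorem ups_step_even [Finite G] {A B : Subgroup G} (hB : B.Normal) {m : ℕ}
    (hm : Even m) (hA : A ≤ (upperPSeries p G m).1) (hc : (A.relIndex B).Coprime p) :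
    B ≤ (upperPSeries p G (m + 1)).1 := by
  rw [upperPSeries_succ_even m hm, ← Subgroup.map_le_iff_le_comap]
  apply le_pPrimeCore p (hB.map _ (QuotientGroup.mk'_surjective _))
  have h1 : Nat.card (B.map (QuotientGroup.mk' (upperPSeries p G m).1)) =
      (upperPSeries p G m).1.relIndex B := by
    rw [← Subgroup.relIndex_ker, QuotientGroup.ker_mk']
  rw [h1]
  exact Nat.Coprime.coprime_dvd_left (Subgroup.relIndex_dvd_of_le_left B hA) hc

theorem ups_step_odd [Finite G] [hp : Fact p.Prime] {A B : Subgroup G} (hB : B.Normal) {m : ℕ}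
    (hm : ¬ Even m) (hA : A ≤ (upperPSeries p G m).1) (hc : ∃ k : ℕ, A.relIndex B = p ^ k) :
    B ≤ (upperPSeries p G (m + 1)).1 := by
  rw [upperPSeries_succ_odd m hm, ← Subgroup.map_le_iff_le_comap]
  apply le_pCore p (hB.map _ (QuotientGroup.mk'_surjective _))
  have h1 : Nat.card (B.map (QuotientGroup.mk' (upperPSeries p G m).1)) =
      (upperPSeries p G m).1.relIndex B := by
    rw [← Subgroup.relIndex_ker, QuotientGroup.ker_mk']
  obtain ⟨k, hk⟩ := hc
  have h2 : (upperPSeries p G m).1.relIndex B ∣ p ^ k :=
    hk ▸ Subgroup.relIndex_dvd_of_le_left B hA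
  obtain ⟨j, -, hj⟩ := (Nat.dvd_prime_pow hp.out).mp h2
  exact IsPGroup.of_card (h1.trans hj)

/-- A `p'`-step starting inside an odd term stays inside that term. -/
theorem ups_step_merge [Finite G] {A B : Subgroup G} (hB : B.Normal) {m : ℕ}
    (hm : Even m) (hA : A ≤ (upperPSeries p G (m + 1)).1) (hc : (A.relIndex B).Coprime p) :
    B ≤ (upperPSeries p G (m + 1)).1 := by
  apply ups_step_even hB hm le_rfl
  have h1 := Subgroup.relIndex_inf_mul_relIndex (upperPSeries p G m).1
    (upperPSeries p G (m + 1)).1 B
  rw [inf_eq_left.mpr (ups_mono m)] at h1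
  rw [← h1]
  apply Nat.Coprime.mul_left
  · have h2 : (upperPSeries p G m).1.relIndex ((upperPSeries p G (m + 1)).1 ⊓ B) ∣
        (upperPSeries p G m).1.relIndex (upperPSeries p G (m + 1)).1 :=
      relIndex_dvd_of_le_right' _ _ _ inf_le_left
    exact Nat.Coprime.coprime_dvd_left h2 (ups_relIndex_even hm)
  · exact Nat.Coprime.coprime_dvd_left (Subgroup.relIndex_dvd_of_le_left B hA) hc

end ups

section iso

variable {p : ℕ}

theorem ups_comap_mulEquiv {A B : Type u} [Group A] [Group B] (e : A ≃* B) (i : ℕ) :
    (upperPSeries p B i).1.comap e.toMonoidHom = (upperPSeries p A i).1 := by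
  induction i with
  | zero =>
    rw [upperPSeries_zero, upperPSeries_zero, MonoidHom.comap_bot]
    exact (MonoidHom.ker_eq_bot_iff _).mpr e.injective
  | succ i ih =>
    have hker : ((QuotientGroup.mk' (upperPSeries p B i).1).comp e.toMonoidHom).ker =
        (upperPSeries p A i).1 := by
      rw [← MonoidHom.comap_ker, QuotientGroup.ker_mk', ih]
    have hsurj : Function.Surjective
        ((QuotientGroup.mk' (upperPSeries p B i).1).comp e.toMonoidHom) :=
      (QuotientGroup.mk'_surjective _).comp e.surjective
    by_cases hi : Even i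
    · rw [upperPSeries_succ_even i hi, upperPSeries_succ_even i hi, Subgroup.comap_comap]
      exact comap_core_of_surjective (fun X _ => pPrimeCore p X)
        (fun X Y _ _ e => pPrimeCore_comap_mulEquiv e) _ hsurj _ hker
    · rw [upperPSeries_succ_odd i hi, upperPSeries_succ_odd i hi, Subgroup.comap_comap]
      exact comap_core_of_surjective (fun X _ => pCore p X)
        (fun X Y _ _ e => pCore_comap_mulEquiv e) _ hsurj _ hker

theorem ups_map_subtype_normal {G : Type u} [Group G] (N : Subgroup G) [hN : N.Normal] (i : ℕ) :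
    ((upperPSeries p ↥N i).1.map N.subtype).Normal := by
  constructor
  rintro n ⟨h, hh, rfl⟩ g
  have h1 := ups_comap_mulEquiv (p := p) (MulAut.conjNormal (H := N) g) i
  have h2 : h ∈ (upperPSeries p ↥N i).1.comap (MulAut.conjNormal (H := N) g).toMonoidHom := by
    rw [h1]
    exact hh
  rw [Subgroup.mem_comap] at h2
  exact ⟨_, h2, rfl⟩

end iso

section plen

variable {G : Type u} [Group G] [Finite G] {p : ℕ} [hp : Fact p.Prime]

theorem ups_map_subtype_le (N : Subgroup G) [hN : N.Normal] (i : ℕ) :
    (upperPSeries p ↥N i).1.map N.subtype ≤ (upperPSeries p G i).1 := by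
  induction i with
  | zero => rw [upperPSeries_zero, Subgroup.map_bot]; exact bot_le
  | succ i ih =>
    have hrel : ((upperPSeries p ↥N i).1.map N.subtype).relIndex
        ((upperPSeries p ↥N (i + 1)).1.map N.subtype) =
        (upperPSeries p ↥N i).1.relIndex (upperPSeries p ↥N (i + 1)).1 :=
      Subgroup.relIndex_map_map_of_injective _ _ N.subtype_injective
    by_cases hi : Even i
    · apply ups_step_even (ups_map_subtype_normal N (i + 1)) hi ih
      rw [hrel]
      exact ups_relIndex_even hi
    · apply ups_step_odd (ups_map_subtype_normal N (i + 1)) hi ih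
      rw [hrel]
      exact ups_relIndex_odd hi

theorem ups_map_le_of_surjective {H : Type v} [Group H] [Finite H] (f : G →* H)
    (hf : Function.Surjective f) (i : ℕ) :
    (upperPSeries p G i).1.map f ≤ (upperPSeries p H i).1 := by
  induction i with
  | zero => rw [upperPSeries_zero, Subgroup.map_bot]; exact bot_le
  | succ i ih =>
    have hdvd : ((upperPSeries p G i).1.map f).relIndex ((upperPSeries p G (i + 1)).1.map f) ∣
        (upperPSeries p G i).1.relIndex (upperPSeries p G (i + 1)).1 :=
      relIndex_map_dvd f _ _ (ups_mono i)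
    have hn : ((upperPSeries p G (i + 1)).1.map f).Normal :=
      (upperPSeries p G (i + 1)).2.map f hf
    by_cases hi : Even i
    · apply ups_step_even hn hi ih
      exact Nat.Coprime.coprime_dvd_left hdvd (ups_relIndex_even hi)
    · apply ups_step_odd hn hi ih
      obtain ⟨k, hk⟩ := ups_relIndex_odd (p := p) (G := G) hi
      rw [hk] at hdvd
      obtain ⟨j, -, hj⟩ := (Nat.dvd_prime_pow hp.out).mp hdvd
      exact ⟨j, hj⟩

theorem ups_subgroupOf_le (N : Subgroup G) (i : ℕ) :
    (upperPSeries p G i).1.subgroupOf N ≤ (upperPSeries p ↥N i).1 := by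
  induction i with
  | zero =>
    rw [upperPSeries_zero, upperPSeries_zero, Subgroup.bot_subgroupOf]
  | succ i ih =>
    have hdvd : ((upperPSeries p G i).1.subgroupOf N).relIndex
        ((upperPSeries p G (i + 1)).1.subgroupOf N) ∣
        (upperPSeries p G i).1.relIndex (upperPSeries p G (i + 1)).1 := by
      rw [← Subgroup.inf_subgroupOf_right (upperPSeries p G (i + 1)).1 N,
        Subgroup.relIndex_subgroupOf inf_le_right]
      exact relIndex_dvd_of_le_right' _ _ _ inf_le_left
    have hn : ((upperPSeries p G (i + 1)).1.subgroupOf N).Normal :=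
      (upperPSeries p G (i + 1)).2.subgroupOf N
    by_cases hi : Even i
    · apply ups_step_even hn hi ih
      exact Nat.Coprime.coprime_dvd_left hdvd (ups_relIndex_even hi)
    · apply ups_step_odd hn hi ih
      obtain ⟨k, hk⟩ := ups_relIndex_odd (p := p) (G := G) hi
      rw [hk] at hdvd
      obtain ⟨j, -, hj⟩ := (Nat.dvd_prime_pow hp.out).mp hdvd
      exact ⟨j, hj⟩

omit [Finite G] hp in
theorem plen_mono {a b : ℕ} (h : PLengthLE p a G) (hab : a ≤ b) : PLengthLE p b G := by
  unfold PLengthLE at h ⊢
  exact top_le_iff.mp (h ▸ ups_mono' (by omega))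

theorem plen_of_surjective {H : Type v} [Group H] [Finite H] (f : G →* H)
    (hf : Function.Surjective f) {n : ℕ} (h : PLengthLE p n G) : PLengthLE p n H := by
  unfold PLengthLE at h ⊢
  have h1 := ups_map_le_of_surjective (p := p) f hf (2 * n + 1)
  rw [h, ← MonoidHom.range_eq_map, MonoidHom.range_eq_top.mpr hf] at h1
  exact top_le_iff.mp h1

theorem plen_subgroup (N : Subgroup G) {n : ℕ} (h : PLengthLE p n G) : PLengthLE p n ↥N := by
  unfold PLengthLE at h ⊢
  have h1 := ups_subgroupOf_le (p := p) N (2 * n + 1)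
  rw [h, Subgroup.top_subgroupOf] at h1
  exact top_le_iff.mp h1

omit hp in
theorem plen_zero_of_coprime (h : (Nat.card G).Coprime p) : PLengthLE p 0 G := by
  unfold PLengthLE
  apply top_le_iff.mp
  apply ups_step_even (A := ⊥) (inferInstance : (⊤ : Subgroup G).Normal) (m := 0) (by decide)
    bot_le
  rw [Subgroup.relIndex_bot_left, Subgroup.card_top]
  exact h

theorem plen_one_of_isPGroup (h : IsPGroup p G) : PLengthLE p 1 G := by
  unfold PLengthLE
  apply top_le_iff.mp
  refine le_trans ?_ (ups_mono 2)
  apply ups_step_odd (A := ⊥) (inferInstance : (⊤ : Subgroup G).Normal) (m := 1) (by decide)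
    bot_le
  rw [Subgroup.relIndex_bot_left, Subgroup.card_top]
  exact IsPGroup.iff_card.mp h

omit [Finite G] hp in
theorem plen_quotient_two {k : ℕ} (h : PLengthLE p (k + 1) G) :
    PLengthLE p k (G ⧸ (upperPSeries p G 2).1) := by
  unfold PLengthLE at h ⊢
  have h1 := upperPSeries_quotient (p := p) (G := G) 2 (by decide) (2 * k + 1)
  have e : 2 * k + 1 + 2 = 2 * (k + 1) + 1 := by omega
  rw [e, h] at h1
  apply top_le_iff.mp
  intro y _
  obtain ⟨x, rfl⟩ := QuotientGroup.mk'_surjective (upperPSeries p G 2).1 y
  have h2 : x ∈ (⊤ : Subgroup G) := Subgroup.mem_top x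
  rw [h1] at h2
  exact h2

theorem plen_ext (N : Subgroup G) [hN : N.Normal] {a b : ℕ} (ha : PLengthLE p a ↥N)
    (hb : PLengthLE p b (G ⧸ N)) : PLengthLE p (a + b) G := by
  unfold PLengthLE at ha hb ⊢
  have hN1 : N ≤ (upperPSeries p G (2 * a + 1)).1 := by
    have h1 := ups_map_subtype_le (p := p) N (2 * a + 1)
    rw [ha, ← MonoidHom.range_eq_map, Subgroup.range_subtype] at h1
    exact h1
  have key : ∀ j : ℕ, (upperPSeries p (G ⧸ N) (j + 1)).1.comap (QuotientGroup.mk' N) ≤
      (upperPSeries p G (2 * a + j + 1)).1 := by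
    intro j
    induction j with
    | zero =>
      apply ups_step_merge (A := N) inferInstance (m := 2 * a) (by simp) hN1
      rw [relIndex_comap_mk]
      have h2 := ups_relIndex_even (p := p) (G := G ⧸ N) (m := 0) (by decide)
      rw [upperPSeries_zero, Subgroup.relIndex_bot_left] at h2
      exact h2
    | succ j ih =>
      have hrel : ((upperPSeries p (G ⧸ N) (j + 1)).1.comap (QuotientGroup.mk' N)).relIndex
          ((upperPSeries p (G ⧸ N) (j + 1 + 1)).1.comap (QuotientGroup.mk' N)) =
          (upperPSeries p (G ⧸ N) (j + 1)).1.relIndex (upperPSeries p (G ⧸ N) (j + 1 + 1)).1 := by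
        rw [Subgroup.relIndex_comap,
          Subgroup.map_comap_eq_self_of_surjective (QuotientGroup.mk'_surjective _)]
      have e : 2 * a + (j + 1) + 1 = (2 * a + j + 1) + 1 := by omega
      rw [e]
      by_cases hj : Even (j + 1)
      · have hj' : Even (2 * a + j + 1) := by
          have : 2 * a + j + 1 = 2 * a + (j + 1) := by omega
          rw [this]
          exact (even_two_mul a).add hj
        apply ups_step_even inferInstance hj' ih
        rw [hrel]
        exact ups_relIndex_even hj
      · have hj' : ¬ Even (2 * a + j + 1) := by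
          intro h
          apply hj
          have : 2 * a + j + 1 = 2 * a + (j + 1) := by omega
          rw [this] at h
          exact (Nat.even_add.mp h).mp (even_two_mul a)
        apply ups_step_odd inferInstance hj' ih
        rw [hrel]
        exact ups_relIndex_odd hj
  have h3 := key (2 * b)
  rw [hb, Subgroup.comap_top] at h3
  have e : 2 * (a + b) + 1 = 2 * a + 2 * b + 1 := by omega
  rw [e]
  exact top_le_iff.mp h3

end plen

end Cfsg.Agent.Lib.Helper23
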