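import Mathlib

set_option autoImplicit false

/-!
The wreath product `GL_2(F) ≀ S_m` inside `GL_{2m}(F)`: block diagonal matrices and block
permutation matrices, with the determinant formulas.
-/

namespace Cfsg.Agent.Lib.Helper23

open Matrix

section

variable {F : Type*} [Field F] (m : ℕ)

/-- The block diagonal matrix. -/
def ggIotaMat (g : Fin m → GL (Fin 2) F) : Matrix (Fin 2 × Fin m) (Fin 2 × Fin m) F :=
  Matrix.blockDiagonal fun i => ((g i : GL (Fin 2) F) : Matrix (Fin 2) (Fin 2) F)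

theorem ggIotaMat_apply (g : Fin m → GL (Fin 2) F) (a b : Fin 2) (k l : Fin m) :
    ggIotaMat m g (a, k) (b, l) =
      if k = l then ((g k : GL (Fin 2) F) : Matrix (Fin 2) (Fin 2) F) a b else 0 := by
  simp [ggIotaMat, Matrix.blockDiagonal_apply]

theorem ggIotaMat_det (g : Fin m → GL (Fin 2) F) :
    (ggIotaMat m g).det = ∏ i, ((g i : GL (Fin 2) F) : Matrix (Fin 2) (Fin 2) F).det := by
  rw [ggIotaMat, Matrix.det_blockDiagonal]

/-- The base homomorphism, with values in matrices. -/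
def ggIotaM : (Fin m → GL (Fin 2) F) →* Matrix (Fin 2 × Fin m) (Fin 2 × Fin m) F where
  toFun g := ggIotaMat m g
  map_one' := by
    have : (fun i : Fin m => (((1 : Fin m → GL (Fin 2) F) i : GL (Fin 2) F) :
        Matrix (Fin 2) (Fin 2) F)) = 1 := by
      funext i
      simp
    rw [ggIotaMat, this, Matrix.blockDiagonal_one]
  map_mul' g h := by
    rw [ggIotaMat, ggIotaMat, ggIotaMat, ← Matrix.blockDiagonal_mul]
    simp

/-- The permutation of the index type induced by a permutation of the blocks. -/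
def ggPsi (σ : Equiv.Perm (Fin m)) : Equiv.Perm (Fin 2 × Fin m) :=
  Equiv.prodCongrRight fun _ : Fin 2 => σ

theorem ggPsi_apply (σ : Equiv.Perm (Fin m)) (a : Fin 2) (i : Fin m) :
    ggPsi m σ (a, i) = (a, σ i) := rfl

theorem ggPsi_mul (σ τ : Equiv.Perm (Fin m)) : ggPsi m (σ * τ) = ggPsi m σ * ggPsi m τ := by
  ext x
  · rcases x with ⟨a, i⟩
    rw [Equiv.Perm.mul_apply, ggPsi_apply, ggPsi_apply, ggPsi_apply]
  · rcases x with ⟨a, i⟩
    rw [Equiv.Perm.mul_apply, ggPsi_apply, ggPsi_apply, ggPsi_apply, Equiv.Perm.mul_apply]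

theorem ggPsi_one : ggPsi m (1 : Equiv.Perm (Fin m)) = 1 := by
  ext x
  · rcases x with ⟨a, i⟩
    rw [ggPsi_apply]; rfl
  · rcases x with ⟨a, i⟩
    rw [ggPsi_apply]; rfl

theorem ggPsi_inv (σ : Equiv.Perm (Fin m)) : ggPsi m σ⁻¹ = (ggPsi m σ)⁻¹ := by
  apply eq_inv_of_mul_eq_one_left
  rw [← ggPsi_mul, inv_mul_cancel, ggPsi_one]

theorem ggPsi_sign (σ : Equiv.Perm (Fin m)) : Equiv.Perm.sign (ggPsi m σ) = 1 := by
  rw [ggPsi, Equiv.Perm.sign_prodCongrRight]
  simp

/-- The block permutation matrix. -/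
def ggPiMat (σ : Equiv.Perm (Fin m)) : Matrix (Fin 2 × Fin m) (Fin 2 × Fin m) F :=
  (1 : Matrix (Fin 2 × Fin m) (Fin 2 × Fin m) F).submatrix (ggPsi m σ⁻¹) id

theorem ggPiMat_apply (σ : Equiv.Perm (Fin m)) (i j : Fin 2 × Fin m) :
    ggPiMat (F := F) m σ i j = if ggPsi m σ⁻¹ i = j then 1 else 0 := by
  simp [ggPiMat, Matrix.one_apply]

theorem ggPiMat_det (σ : Equiv.Perm (Fin m)) : (ggPiMat (F := F) m σ).det = 1 := by
  rw [ggPiMat, Matrix.det_permute, ggPsi_sign]
  simp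

theorem ggPiMat_mul_apply (σ : Equiv.Perm (Fin m))
    (A : Matrix (Fin 2 × Fin m) (Fin 2 × Fin m) F) (i j : Fin 2 × Fin m) :
    (ggPiMat (F := F) m σ * A : Matrix (Fin 2 × Fin m) (Fin 2 × Fin m) F) i j =
      A (ggPsi m σ⁻¹ i) j := by
  simp [Matrix.mul_apply, ggPiMat_apply]

theorem ggMul_piMat_apply (σ : Equiv.Perm (Fin m))
    (A : Matrix (Fin 2 × Fin m) (Fin 2 × Fin m) F) (i j : Fin 2 × Fin m) :
    (A * ggPiMat (F := F) m σ : Matrix (Fin 2 × Fin m) (Fin 2 × Fin m) F) i j =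
      A i (ggPsi m σ j) := by
  rw [Matrix.mul_apply]
  rw [Finset.sum_eq_single (ggPsi m σ j)]
  · rw [ggPiMat_apply, ggPsi_inv]
    simp
  · intro k _ hk
    rw [ggPiMat_apply, ggPsi_inv, if_neg, mul_zero]
    intro h
    apply hk
    rw [← h]
    simp
  · intro h
    exact absurd (Finset.mem_univ _) h

/-- The top homomorphism, with values in matrices. -/
def ggPiM : Equiv.Perm (Fin m) →* Matrix (Fin 2 × Fin m) (Fin 2 × Fin m) F where
  toFun σ := ggPiMat m σ
  map_one' := by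
    ext i j
    rw [ggPiMat_apply, inv_one, ggPsi_one, Matrix.one_apply]
    rfl
  map_mul' σ τ := by
    ext i j
    rw [ggPiMat_mul_apply, ggPiMat_apply, ggPiMat_apply, _root_.mul_inv_rev, ggPsi_mul,
      Equiv.Perm.mul_apply]

theorem gg_star (σ : Equiv.Perm (Fin m)) (g : Fin m → GL (Fin 2) F) :
    (ggPiMat (F := F) m σ * ggIotaMat m g : Matrix (Fin 2 × Fin m) (Fin 2 × Fin m) F) =
      ggIotaMat m (fun i => g (σ⁻¹ i)) * ggPiMat (F := F) m σ := by
  ext i j
  rw [ggPiMat_mul_apply, ggMul_piMat_apply]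
  rcases i with ⟨a, k⟩
  rcases j with ⟨b, l⟩
  rw [ggPsi_apply, ggPsi_apply, ggIotaMat_apply, ggIotaMat_apply]
  by_cases h : k = σ l
  · subst h
    simp
  · have h' : ¬ σ⁻¹ k = l := by
      intro h2
      apply h
      rw [← h2]
      simp
    rw [if_neg h, if_neg h']

theorem gg_injective (g g' : Fin m → GL (Fin 2) F) (σ σ' : Equiv.Perm (Fin m))
    (hmat : (ggIotaMat m g * ggPiMat (F := F) m σ : Matrix (Fin 2 × Fin m) (Fin 2 × Fin m) F) =
      ggIotaMat m g' * ggPiMat (F := F) m σ') : g = g' ∧ σ = σ' := by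
  have key : ∀ (a b : Fin 2) (k l : Fin m),
      (if k = σ l then ((g k : GL (Fin 2) F) : Matrix (Fin 2) (Fin 2) F) a b else 0) =
      (if k = σ' l then ((g' k : GL (Fin 2) F) : Matrix (Fin 2) (Fin 2) F) a b else 0) := by
    intro a b k l
    have h1 := congrFun (congrFun hmat (a, k)) (b, l)
    rw [ggMul_piMat_apply, ggMul_piMat_apply, ggPsi_apply, ggPsi_apply, ggIotaMat_apply,
      ggIotaMat_apply] at h1
    exact h1
  have hσ : σ = σ' := by
    ext l
    by_contra hne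
    have hne' : σ l ≠ σ' l := fun h2 => hne (by rw [h2])
    have hz : ((g (σ l) : GL (Fin 2) F) : Matrix (Fin 2) (Fin 2) F) = 0 := by
      ext a b
      have := key a b (σ l) l
      rw [if_pos rfl, if_neg hne'] at this
      simpa using this
    have hu : IsUnit ((g (σ l) : GL (Fin 2) F) : Matrix (Fin 2) (Fin 2) F).det :=
      (Matrix.isUnit_iff_isUnit_det _).mp (Units.isUnit (g (σ l)))
    rw [hz, Matrix.det_zero] at hu
    exact not_isUnit_zero hu
  subst hσ
  refine ⟨?_, rfl⟩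
  funext k
  apply Units.ext
  ext a b
  have := key a b k (σ⁻¹ k)
  rw [show σ (σ⁻¹ k) = k by simp, if_pos rfl, if_pos rfl] at this
  exact this

end

/-- `GL_2(F) ≀ S_m` inside `GL_{2m}(F)`, with the determinant formulas. -/
theorem exists_gl2_wreath_in_gl {F : Type*} [Field F] (m : ℕ) :
    ∃ (ι : (Fin m → Matrix.GeneralLinearGroup (Fin 2) F) →*
        Matrix.GeneralLinearGroup (Fin (2 * m)) F)
      (π : Equiv.Perm (Fin m) →* Matrix.GeneralLinearGroup (Fin (2 * m)) F),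
      (∀ (σ : Equiv.Perm (Fin m)) (g : Fin m → Matrix.GeneralLinearGroup (Fin 2) F),
        π σ * ι g = ι (fun i => g (σ⁻¹ i)) * π σ) ∧
      Function.Injective (fun p : (Fin m → Matrix.GeneralLinearGroup (Fin 2) F) ×
        Equiv.Perm (Fin m) => ι p.1 * π p.2) ∧
      (∀ g : Fin m → Matrix.GeneralLinearGroup (Fin 2) F,
        Matrix.GeneralLinearGroup.det (ι g) = ∏ i, Matrix.GeneralLinearGroup.det (g i)) ∧
      (∀ σ : Equiv.Perm (Fin m), Matrix.GeneralLinearGroup.det (π σ) = 1) := by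
  have hcard : Fintype.card (Fin 2 × Fin m) = 2 * m := by simp
  let e : Fin 2 × Fin m ≃ Fin (2 * m) := Fintype.equivFinOfCardEq hcard
  let R : Matrix (Fin 2 × Fin m) (Fin 2 × Fin m) F →* Matrix (Fin (2 * m)) (Fin (2 * m)) F :=
    ((Matrix.reindexAlgEquiv F F e : Matrix (Fin 2 × Fin m) (Fin 2 × Fin m) F ≃ₐ[F]
      Matrix (Fin (2 * m)) (Fin (2 * m)) F) : Matrix (Fin 2 × Fin m) (Fin 2 × Fin m) F →*
      Matrix (Fin (2 * m)) (Fin (2 * m)) F)
  have hR : Function.Injective R := (Matrix.reindexAlgEquiv F F e).injective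
  have hRdet : ∀ A : Matrix (Fin 2 × Fin m) (Fin 2 × Fin m) F, (R A).det = A.det :=
    fun A => Matrix.det_reindexAlgEquiv F F e A
  refine ⟨(R.comp (ggIotaM m)).toHomUnits, (R.comp (ggPiM m)).toHomUnits, ?_, ?_, ?_, ?_⟩
  · intro σ g
    apply Units.ext
    show R (ggPiMat m σ) * R (ggIotaMat m g) =
      R (ggIotaMat m (fun i => g (σ⁻¹ i))) * R (ggPiMat m σ)
    rw [← map_mul, ← map_mul, gg_star]
  · rintro ⟨g, σ⟩ ⟨g', σ'⟩ h
    have h1 : R (ggIotaMat m g) * R (ggPiMat m σ) = R (ggIotaMat m g') * R (ggPiMat m σ') :=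
      congrArg Units.val h
    rw [← map_mul, ← map_mul] at h1
    obtain ⟨hg, hσ⟩ := gg_injective m g g' σ σ' (hR h1)
    rw [hg, hσ]
  · intro g
    apply Units.ext
    show (R (ggIotaMat m g)).det = ((∏ i, Matrix.GeneralLinearGroup.det (g i) : Fˣ) : F)
    rw [hRdet, ggIotaMat_det, Units.coe_prod]
    rfl
  · intro σ
    apply Units.ext
    show (R (ggPiMat m σ)).det = ((1 : Fˣ) : F)
    rw [hRdet, ggPiMat_det]
    rfl

end Cfsg.Agent.Lib.Helper23
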