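import Mathlib

set_option autoImplicit false

namespace Cfsg.Agent.Lib.Helper23

open Subgroup

section basic
variable {G : Type*} [Group G]

/-- an involution whose centralizer is elementary abelian of order four -/
structure IV4 (x : G) : Prop where
  ne : x ≠ 1
  sq : x * x = 1
  card : Nat.card (centralizer ({x} : Set G)) = 4
  exp : ∀ c ∈ centralizer ({x} : Set G), c * c = 1

theorem iv_cent_conj (g m : G) :
    centralizer ({m * g * m⁻¹} : Set G)
      = (centralizer ({g} : Set G)).map (MulAut.conj m).toMonoidHom := by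
  ext c
  rw [Subgroup.mem_map, Subgroup.mem_centralizer_singleton_iff]
  constructor
  · intro hc
    refine ⟨m⁻¹ * c * m, ?_, ?_⟩
    · rw [Subgroup.mem_centralizer_singleton_iff]
      have h1 : m⁻¹ * c * m * g = m⁻¹ * (c * (m * g * m⁻¹)) * m := by group
      have h2 : g * (m⁻¹ * c * m) = m⁻¹ * ((m * g * m⁻¹) * c) * m := by group
      rw [h1, h2, hc]
    · show m * (m⁻¹ * c * m) * m⁻¹ = c
      group
  · rintro ⟨d, hd, rfl⟩
    rw [Subgroup.mem_centralizer_singleton_iff] at hd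
    show m * d * m⁻¹ * (m * g * m⁻¹) = m * g * m⁻¹ * (m * d * m⁻¹)
    have h1 : m * d * m⁻¹ * (m * g * m⁻¹) = m * (d * g) * m⁻¹ := by group
    have h2 : m * g * m⁻¹ * (m * d * m⁻¹) = m * (g * d) * m⁻¹ := by group
    rw [h1, h2, hd]

theorem iv_card_cent_conj (g m : G) :
    Nat.card (centralizer ({m * g * m⁻¹} : Set G)) = Nat.card (centralizer ({g} : Set G)) := by
  rw [iv_cent_conj, Subgroup.card_map_of_injective (MulAut.conj m).injective]

theorem iv_mem_cent_conj {g m c : G} :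
    c ∈ centralizer ({m * g * m⁻¹} : Set G) ↔ m⁻¹ * c * m ∈ centralizer ({g} : Set G) := by
  rw [Subgroup.mem_centralizer_singleton_iff, Subgroup.mem_centralizer_singleton_iff]
  constructor
  · intro hc
    have h1 : m⁻¹ * c * m * g = m⁻¹ * (c * (m * g * m⁻¹)) * m := by group
    have h2 : g * (m⁻¹ * c * m) = m⁻¹ * ((m * g * m⁻¹) * c) * m := by group
    rw [h1, h2, hc]
  · intro hc
    have h1 : c * (m * g * m⁻¹) = m * ((m⁻¹ * c * m) * g) * m⁻¹ := by group
    have h2 : m * g * m⁻¹ * c = m * (g * (m⁻¹ * c * m)) * m⁻¹ := by group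
    rw [h1, h2, hc]

theorem IV4.conj {x : G} (h : IV4 x) (m : G) : IV4 (m * x * m⁻¹) := by
  refine ⟨?_, ?_, ?_, ?_⟩
  · intro e
    apply h.ne
    have h1 : x = m⁻¹ * (m * x * m⁻¹) * m := by group
    rw [h1, e]; group
  · have h1 : m * x * m⁻¹ * (m * x * m⁻¹) = m * (x * x) * m⁻¹ := by group
    rw [h1, h.sq]; group
  · rw [iv_card_cent_conj, h.card]
  · intro c hc
    have hd := h.exp _ (iv_mem_cent_conj.mp hc)
    have e : c * c = m * ((m⁻¹ * c * m) * (m⁻¹ * c * m)) * m⁻¹ := by group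
    rw [e, hd]; group

theorem IV4.inv_eq {x : G} (h : IV4 x) : x⁻¹ = x := inv_eq_of_mul_eq_one_left h.sq

/-- a fixed-point-free involutory action on a finite subgroup is inversion -/
theorem iv_fpf_inv [Finite G] (A : Subgroup G) (t : G) (ht : t * t = 1)
    (hn : ∀ a ∈ A, t * a * t⁻¹ ∈ A) (hf : ∀ a ∈ A, t * a * t⁻¹ = a → a = 1) :
    ∀ a ∈ A, t * a * t⁻¹ = a⁻¹ := by
  classical
  have hti : t⁻¹ = t := inv_eq_of_mul_eq_one_left ht
  let f : A → A := fun a => ⟨(a : G)⁻¹ * (t * a * t⁻¹), A.mul_mem (A.inv_mem a.2) (hn a a.2)⟩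
  have hinj : Function.Injective f := by
    intro a b hab
    have h1 : (a : G)⁻¹ * (t * a * t⁻¹) = (b : G)⁻¹ * (t * b * t⁻¹) := congrArg Subtype.val hab
    have h2 : t * ((b : G) * (a : G)⁻¹) * t⁻¹ = (b : G) * (a : G)⁻¹ := by
      have e1 : t * ((b : G) * (a : G)⁻¹) * t⁻¹ = (t * b * t⁻¹) * (t * a * t⁻¹)⁻¹ := by group
      have h3 : t * b * t⁻¹ = (b : G) * ((a : G)⁻¹ * (t * a * t⁻¹)) := by rw [h1]; group
      rw [e1, h3]; group
    have h4 := hf _ (A.mul_mem b.2 (A.inv_mem a.2)) h2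
    apply Subtype.ext
    exact (mul_inv_eq_one.mp h4).symm
  have hsurj : Function.Surjective f := Finite.surjective_of_injective hinj
  intro a ha
  obtain ⟨b, hb⟩ := hsurj ⟨a, ha⟩
  have hb' : (b : G)⁻¹ * (t * b * t⁻¹) = a := congrArg Subtype.val hb
  rw [← hb']
  have e1 : t * ((b : G)⁻¹ * (t * b * t⁻¹)) * t⁻¹
      = (t * (b : G)⁻¹ * t⁻¹) * ((t * t) * b * (t⁻¹ * t⁻¹)) := by group
  have e2 : t⁻¹ * t⁻¹ = 1 := by rw [hti, ht]
  rw [e1, ht, e2]
  group

theorem iv_sqrt [Finite G] (A : Subgroup G) (hodd : ¬ 2 ∣ Nat.card A) (c : G) (hc : c ∈ A) :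
    ∃ b ∈ A, b * b = c := by
  obtain ⟨m, hm⟩ : ∃ m, Nat.card A = 2 * m + 1 := ⟨Nat.card A / 2, by omega⟩
  refine ⟨c ^ (m + 1), A.pow_mem hc _, ?_⟩
  have h1 : c ^ Nat.card A = 1 := by
    have h2 := pow_card_eq_one' (G := A) (x := ⟨c, hc⟩)
    have h3 := congrArg Subtype.val h2
    simpa only [Subgroup.coe_pow, Subgroup.coe_one, Subgroup.coe_mk] using h3
  rw [← pow_add]
  have e : m + 1 + (m + 1) = Nat.card A + 1 := by omega
  rw [e, pow_add, h1, one_mul, pow_one]

/-- the centralizer is `{1, x, z, x z}` -/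
theorem iv_cent_elems [Finite G] {x : G} (hx : IV4 x) {z : G}
    (hz : z ∈ centralizer ({x} : Set G)) (hz1 : z ≠ 1) (hzx : z ≠ x) :
    ∀ v ∈ centralizer ({x} : Set G), v = 1 ∨ v = x ∨ v = z ∨ v = x * z := by
  classical
  have d1 : (1 : G) ≠ x := fun h => hx.ne h.symm
  have d2 : (1 : G) ≠ z := fun h => hz1 h.symm
  have d3 : (1 : G) ≠ x * z := by
    intro h
    apply hzx
    have h1 : z = x⁻¹ := eq_inv_of_mul_eq_one_right h.symm
    rw [h1, hx.inv_eq]
  have d4 : x ≠ z := fun h => hzx h.symm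
  have d5 : x ≠ x * z := by
    intro h
    apply hz1
    have h1 : x * z = x * 1 := by rw [mul_one]; exact h.symm
    exact mul_left_cancel h1
  have d6 : z ≠ x * z := by
    intro h
    apply hx.ne
    have h1 : x * z = 1 * z := by rw [one_mul]; exact h.symm
    exact mul_right_cancel h1
  have hxV : x ∈ centralizer ({x} : Set G) := by rw [mem_centralizer_singleton_iff]
  have hcard : ({1, x, z, x * z} : Finset G).card = 4 := by
    rw [Finset.card_insert_of_notMem (by simp [d1, d2, d3]),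
      Finset.card_insert_of_notMem (by simp [d4, d5]),
      Finset.card_insert_of_notMem (by simp [d6]), Finset.card_singleton]
  have hsub : ((({1, x, z, x * z} : Finset G)) : Set G) ⊆ (centralizer ({x} : Set G) : Set G) := by
    intro v hv
    simp only [Finset.coe_insert, Finset.coe_singleton, Set.mem_insert_iff,
      Set.mem_singleton_iff] at hv
    rcases hv with rfl | rfl | rfl | rfl
    · exact one_mem _
    · exact hxV
    · exact hz
    · exact mul_mem hxV hz
  have hV : ((centralizer ({x} : Set G) : Subgroup G) : Set G).ncard = 4 := by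
    rw [← hx.card]; exact (Nat.card_coe_set_eq _).symm
  have heq := Set.eq_of_subset_of_ncard_le hsub
    (by rw [hV, Set.ncard_coe_finset, hcard]) (Set.toFinite _)
  intro v hv
  have hv' : v ∈ ((({1, x, z, x * z} : Finset G)) : Set G) := by rw [heq]; exact hv
  simpa using hv'

end basic

set_option linter.unusedSectionVars false

section part1
variable {G : Type*} [Group G] [Finite G]

/-- elements inverted by `x` outside its centralizer -/
def ivR (x : G) : Set G := {g | x * g * x⁻¹ = g⁻¹ ∧ g ∉ centralizer ({x} : Set G)}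

theorem iv_no_inv {x : G} (hall : ∀ s : G, s ≠ 1 → s * s = 1 → IV4 s) {g : G} (hg : g ∈ ivR x)
    {u : G} (hu1 : u ≠ 1) (hu2 : u * u = 1) : u * g ≠ g * u := by
  intro hcomm
  have hu := hall u hu1 hu2
  have hgu : g ∈ centralizer ({u} : Set G) := by
    rw [mem_centralizer_singleton_iff]; exact hcomm.symm
  have hgg := hu.exp g hgu
  apply hg.2
  rw [mem_centralizer_singleton_iff]
  have h1 : x * g * x⁻¹ = g := by rw [hg.1]; exact inv_eq_of_mul_eq_one_left hgg
  have h2 : g * x = (x * g * x⁻¹) * x := by rw [h1]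
  rw [h2]; group

theorem iv_cent_inv {x : G} (hx : IV4 x) (hall : ∀ s : G, s ≠ 1 → s * s = 1 → IV4 s)
    {g : G} (hg : g ∈ ivR x) :
    ∀ a ∈ centralizer ({g} : Set G), x * a * x⁻¹ = a⁻¹ := by
  apply iv_fpf_inv _ x hx.sq
  · intro a ha
    rw [mem_centralizer_singleton_iff] at ha ⊢
    have hxi : x⁻¹ = x := hx.inv_eq
    have h1 : x⁻¹ * g * x = g⁻¹ := by
      have h0 := hg.1
      rw [hxi] at h0 ⊢; exact h0
    have h2 : x * a * x⁻¹ * g = x * (a * (x⁻¹ * g * x)) * x⁻¹ := by group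
    have h3 : g * (x * a * x⁻¹) = x * ((x⁻¹ * g * x) * a) * x⁻¹ := by group
    have h4 : a * g⁻¹ = g⁻¹ * a := by
      have e : a * g⁻¹ = g⁻¹ * (g * a) * g⁻¹ := by group
      rw [e, ← ha]; group
    rw [h2, h3, h1, h4]
  · intro a ha hfix
    by_contra ha1
    have haV : a ∈ centralizer ({x} : Set G) := by
      rw [mem_centralizer_singleton_iff]
      have e : a * x = (x * a * x⁻¹) * x := by rw [hfix]
      rw [e]; group
    have haa := hx.exp a haV
    rw [mem_centralizer_singleton_iff] at ha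
    exact iv_no_inv hall hg ha1 haa ha

theorem iv_cent_comm {x : G} (hx : IV4 x) (hall : ∀ s : G, s ≠ 1 → s * s = 1 → IV4 s)
    {g : G} (hg : g ∈ ivR x) :
    ∀ a ∈ centralizer ({g} : Set G), ∀ b ∈ centralizer ({g} : Set G), a * b = b * a := by
  intro a ha b hb
  have h1 := iv_cent_inv hx hall hg a ha
  have h2 := iv_cent_inv hx hall hg b hb
  have h3 := iv_cent_inv hx hall hg (a * b) (mul_mem ha hb)
  have h4 : x * (a * b) * x⁻¹ = (x * a * x⁻¹) * (x * b * x⁻¹) := by group
  rw [h4, h1, h2] at h3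
  have h5 : (a⁻¹ * b⁻¹)⁻¹ = ((a * b)⁻¹)⁻¹ := by rw [h3]
  rw [inv_inv, mul_inv_rev, inv_inv, inv_inv] at h5
  exact h5.symm

theorem iv_cent_odd {x : G} (hall : ∀ s : G, s ≠ 1 → s * s = 1 → IV4 s)
    {g : G} (hg : g ∈ ivR x) : ¬ 2 ∣ Nat.card (centralizer ({g} : Set G)) := by
  intro h2
  have : Fact (Nat.Prime 2) := ⟨Nat.prime_two⟩
  obtain ⟨u, hu⟩ := exists_prime_orderOf_dvd_card' 2 h2
  have hu1 : (u : G) ≠ 1 := by
    intro h
    have h3 : u = 1 := Subtype.ext h
    rw [h3, orderOf_one] at hu; omega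
  have hu2 : (u : G) * u = 1 := by
    have h3 := pow_orderOf_eq_one u
    rw [hu, pow_two] at h3
    exact congrArg Subtype.val h3
  have h4 := u.2
  rw [mem_centralizer_singleton_iff] at h4
  exact iv_no_inv hall hg hu1 hu2 h4

theorem iv_ne_one {x : G} {g : G} (hg : g ∈ ivR x) : g ≠ 1 := by
  intro h
  apply hg.2
  rw [h]; exact one_mem _

theorem iv_mem_R {x : G} (hx : IV4 x) (hall : ∀ s : G, s ≠ 1 → s * s = 1 → IV4 s)
    {g : G} (hg : g ∈ ivR x) {a : G} (ha : a ∈ centralizer ({g} : Set G)) (ha1 : a ≠ 1) :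
    a ∈ ivR x := by
  refine ⟨iv_cent_inv hx hall hg a ha, ?_⟩
  intro haV
  have haa := hx.exp a haV
  rw [mem_centralizer_singleton_iff] at ha
  exact iv_no_inv hall hg ha1 haa ha

theorem iv_cent_eq_cent {x : G} (hx : IV4 x) (hall : ∀ s : G, s ≠ 1 → s * s = 1 → IV4 s)
    {g : G} (hg : g ∈ ivR x) {a : G} (ha : a ∈ centralizer ({g} : Set G)) (ha1 : a ≠ 1) :
    centralizer ({a} : Set G) = centralizer ({g} : Set G) := by
  have haR := iv_mem_R hx hall hg ha ha1
  have hga : g ∈ centralizer ({a} : Set G) := by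
    rw [mem_centralizer_singleton_iff] at ha ⊢; exact ha.symm
  apply le_antisymm
  · intro b hb
    rw [mem_centralizer_singleton_iff]
    exact iv_cent_comm hx hall haR b hb g hga
  · intro b hb
    rw [mem_centralizer_singleton_iff]
    exact iv_cent_comm hx hall hg b hb a ha

theorem iv_self_mem (g : G) : g ∈ centralizer ({g} : Set G) := by
  rw [mem_centralizer_singleton_iff]

theorem iv_conj_mem_R {x : G} {z : G} (hz : z ∈ centralizer ({x} : Set G))
    {g : G} (hg : g ∈ ivR x) : z * g * z⁻¹ ∈ ivR x := by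
  rw [mem_centralizer_singleton_iff] at hz
  have h3 : z⁻¹ * x * z = x := by
    have e : z⁻¹ * x * z = z⁻¹ * (x * z) := by group
    rw [e, ← hz]; group
  constructor
  · have h1 : x * (z * g * z⁻¹) * x⁻¹ = (x * z) * g * (x * z)⁻¹ := by group
    have h2 : (x * z) * g * (x * z)⁻¹ = z * (x * g * x⁻¹) * z⁻¹ := by rw [← hz]; group
    rw [h1, h2, hg.1]; group
  · intro hmem
    apply hg.2
    rw [mem_centralizer_singleton_iff] at hmem ⊢
    have e1 : g * x = z⁻¹ * ((z * g * z⁻¹) * x) * z := by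
      have e : z⁻¹ * ((z * g * z⁻¹) * x) * z = g * (z⁻¹ * x * z) := by group
      rw [e, h3]
    have e2 : x * g = z⁻¹ * (x * (z * g * z⁻¹)) * z := by
      have e : z⁻¹ * (x * (z * g * z⁻¹)) * z = (z⁻¹ * x * z) * g := by group
      rw [e, h3]
    rw [e1, e2, hmem]

theorem iv_xz {x : G} (hx : IV4 x) {z : G} (hz : z ∈ centralizer ({x} : Set G))
    (hzx : z ≠ x) : x * z ≠ 1 ∧ (x * z) * (x * z) = 1 := by
  have hzz := hx.exp z hz
  constructor
  · intro h
    apply hzx
    have h1 : z = x⁻¹ := eq_inv_of_mul_eq_one_right h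
    rw [h1]; exact hx.inv_eq
  · rw [mem_centralizer_singleton_iff] at hz
    have e : (x * z) * (x * z) = x * (z * x) * z := by group
    rw [e, hz]
    have e2 : x * (x * z) * z = (x * x) * (z * z) := by group
    rw [e2, hx.sq, hzz, one_mul]

/-- a noncentral... element `z ≠ 1, x` of `C(x)` moves the centralizer of `g ∈ R` -/
theorem iv_conj_cent_ne {x : G} (hx : IV4 x) (hall : ∀ s : G, s ≠ 1 → s * s = 1 → IV4 s)
    {z : G} (hz : z ∈ centralizer ({x} : Set G)) (hz1 : z ≠ 1) (hzx : z ≠ x)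
    {g : G} (hg : g ∈ ivR x) :
    centralizer ({z * g * z⁻¹} : Set G) ≠ centralizer ({g} : Set G) := by
  intro heq
  have hzz := hx.exp z hz
  have hzIV := hall z hz1 hzz
  have hinv : ∀ a ∈ centralizer ({g} : Set G), z * a * z⁻¹ = a⁻¹ := by
    apply iv_fpf_inv _ z hzz
    · intro a ha
      rw [← heq]
      rw [mem_centralizer_singleton_iff] at ha ⊢
      have h1 : z * a * z⁻¹ * (z * g * z⁻¹) = z * (a * g) * z⁻¹ := by group
      have h2 : z * g * z⁻¹ * (z * a * z⁻¹) = z * (g * a) * z⁻¹ := by group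
      rw [h1, h2, ha]
    · intro a ha hfix
      by_contra ha1
      have haV : a ∈ centralizer ({z} : Set G) := by
        rw [mem_centralizer_singleton_iff]
        have e : a * z = (z * a * z⁻¹) * z := by rw [hfix]
        rw [e]; group
      have haa := hzIV.exp a haV
      rw [mem_centralizer_singleton_iff] at ha
      exact iv_no_inv hall hg ha1 haa ha
  have h1 := hinv g (iv_self_mem g)
  have h2 := hg.1
  have h3 : (x * z) * g = g * (x * z) := by
    have e : (x * z) * g = x * (z * g * z⁻¹) * x⁻¹ * (x * z) := by group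
    rw [e, h1]
    have e2 : x * g⁻¹ * x⁻¹ = (x * g * x⁻¹)⁻¹ := by group
    rw [e2, h2, inv_inv]
  obtain ⟨hxz1, hxz2⟩ := iv_xz hx hz hzx
  exact iv_no_inv hall hg hxz1 hxz2 h3

/-- an element of `C(x)` normalizing `C(g)` is `1` or `x` -/
theorem iv_norm_cent {x : G} (hx : IV4 x) (hall : ∀ s : G, s ≠ 1 → s * s = 1 → IV4 s)
    {g : G} (hg : g ∈ ivR x) {v : G} (hv : v ∈ centralizer ({x} : Set G))
    (hvn : v ∈ normalizer ((centralizer ({g} : Set G) : Subgroup G) : Set G)) :
    v = 1 ∨ v = x := by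
  by_contra hcon
  push Not at hcon
  apply iv_conj_cent_ne hx hall hv hcon.1 hcon.2 hg
  ext a
  rw [iv_mem_cent_conj]
  rw [mem_normalizer_iff''] at hvn
  exact (hvn a).symm

/-- an involution of the form `m x m⁻¹` inverting `C(g)` elementwise is `b x b⁻¹`, `b ∈ C(g)` -/
theorem iv_inv_conj {x : G} (hx : IV4 x) (hall : ∀ s : G, s ≠ 1 → s * s = 1 → IV4 s)
    {g : G} (hg : g ∈ ivR x) {s : G} (hs2 : s * s = 1)
    (hs : ∀ a ∈ centralizer ({g} : Set G), s * a * s⁻¹ = a⁻¹) :
    ∃ b ∈ centralizer ({g} : Set G), b * x * b⁻¹ = s := by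
  have hsi : s⁻¹ = s := inv_eq_of_mul_eq_one_left hs2
  have hxi : x⁻¹ = x := hx.inv_eq
  have hc : x * s ∈ centralizer ({g} : Set G) := by
    rw [mem_centralizer_singleton_iff]
    have e : (x * s) * g = x * (s * g * s⁻¹) * x⁻¹ * (x * s) := by group
    rw [e, hs g (iv_self_mem g)]
    have e2 : x * g⁻¹ * x⁻¹ = (x * g * x⁻¹)⁻¹ := by group
    rw [e2, hg.1, inv_inv]
  obtain ⟨b, hb, hbb⟩ := iv_sqrt _ (iv_cent_odd hall hg) (x * s)⁻¹ (inv_mem hc)
  refine ⟨b, hb, ?_⟩
  have h1 : x * b⁻¹ * x⁻¹ = b := by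
    have h0 := iv_cent_inv hx hall hg b⁻¹ (inv_mem hb)
    rw [inv_inv] at h0; exact h0
  have e : b * x * b⁻¹ = b * (x * b⁻¹ * x⁻¹) * x := by group
  rw [e, h1, hbb]
  rw [mul_inv_rev, hsi, hxi, mul_assoc, hx.sq, mul_one]

theorem iv_normalizer_sub {x : G} (hx : IV4 x) (hall : ∀ s : G, s ≠ 1 → s * s = 1 → IV4 s)
    {g : G} (hg : g ∈ ivR x) {m : G}
    (hm : m ∈ normalizer ((centralizer ({g} : Set G) : Subgroup G) : Set G)) :
    m ∈ centralizer ({g} : Set G) ∨ m * x ∈ centralizer ({g} : Set G) := by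
  have hxi : x⁻¹ = x := hx.inv_eq
  have hsIV := hx.conj m
  have hm' := hm
  rw [mem_normalizer_iff''] at hm'
  have hm2 := hm
  rw [mem_normalizer_iff] at hm2
  have hsinv : ∀ a ∈ centralizer ({g} : Set G), (m * x * m⁻¹) * a * (m * x * m⁻¹)⁻¹ = a⁻¹ := by
    apply iv_fpf_inv _ _ hsIV.sq
    · intro a ha
      have h1 : m⁻¹ * a * m ∈ centralizer ({g} : Set G) := (hm' a).mp ha
      have h2 := iv_cent_inv hx hall hg _ h1
      have h3 : (m⁻¹ * a * m)⁻¹ ∈ centralizer ({g} : Set G) := inv_mem h1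
      rw [← h2] at h3
      have h4 := (hm2 _).mp h3
      have e : m * x * m⁻¹ * a * (m * x * m⁻¹)⁻¹ = m * (x * (m⁻¹ * a * m) * x⁻¹) * m⁻¹ := by
        group
      rw [e]; exact h4
    · intro a ha hfix
      by_contra ha1
      have haV : a ∈ centralizer ({m * x * m⁻¹} : Set G) := by
        rw [mem_centralizer_singleton_iff]
        have e : a * (m * x * m⁻¹) = ((m * x * m⁻¹) * a * (m * x * m⁻¹)⁻¹) * (m * x * m⁻¹) := by
          rw [hfix]
        rw [e]; group
      have haa := hsIV.exp a haV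
      rw [mem_centralizer_singleton_iff] at ha
      exact iv_no_inv hall hg ha1 haa ha
  obtain ⟨b, hb, hbs⟩ := iv_inv_conj hx hall hg hsIV.sq hsinv
  have hwV : b⁻¹ * m ∈ centralizer ({x} : Set G) := by
    rw [mem_centralizer_singleton_iff]
    have e1 : b⁻¹ * m * x = b⁻¹ * (m * x * m⁻¹) * m := by group
    rw [e1, ← hbs]; group
  have hwN : b⁻¹ * m ∈ normalizer ((centralizer ({g} : Set G) : Subgroup G) : Set G) :=
    mul_mem (le_normalizer (inv_mem hb)) hm
  rcases iv_norm_cent hx hall hg hwV hwN with h | h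
  · left
    have e : m = b * (b⁻¹ * m) := by group
    rw [e, h, mul_one]; exact hb
  · right
    have e : m * x = b * ((b⁻¹ * m) * x) := by group
    rw [e, h, hx.sq, mul_one]; exact hb

theorem iv_x_normalizes {x : G} (hx : IV4 x) (hall : ∀ s : G, s ≠ 1 → s * s = 1 → IV4 s)
    {g : G} (hg : g ∈ ivR x) :
    x ∈ normalizer ((centralizer ({g} : Set G) : Subgroup G) : Set G) := by
  rw [mem_normalizer_iff]
  intro a
  constructor
  · intro ha
    rw [iv_cent_inv hx hall hg a ha]; exact inv_mem ha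
  · intro ha
    have h1 := iv_cent_inv hx hall hg _ ha
    have e : x * (x * a * x⁻¹) * x⁻¹ = (x * x) * a * (x * x)⁻¹ := by group
    rw [e, hx.sq] at h1
    have h2 : a = ((x * a * x⁻¹)⁻¹) := by rw [← h1]; group
    rw [h2]; exact inv_mem ha

theorem iv_card_normalizer {x : G} (hx : IV4 x) (hall : ∀ s : G, s ≠ 1 → s * s = 1 → IV4 s)
    {g : G} (hg : g ∈ ivR x) :
    Nat.card (normalizer ((centralizer ({g} : Set G) : Subgroup G) : Set G))
      = 2 * Nat.card (centralizer ({g} : Set G)) := by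
  classical
  have hxi : x⁻¹ = x := hx.inv_eq
  have hle : Nat.card (normalizer ((centralizer ({g} : Set G) : Subgroup G) : Set G))
      ≤ 2 * Nat.card (centralizer ({g} : Set G)) := by
    have hsub : ((normalizer ((centralizer ({g} : Set G) : Subgroup G) : Set G) : Subgroup G) : Set G)
        ⊆ ((centralizer ({g} : Set G) : Subgroup G) : Set G)
          ∪ (fun b => b * x) '' ((centralizer ({g} : Set G) : Subgroup G) : Set G) := by
      intro m hm
      rcases iv_normalizer_sub hx hall hg hm with h | h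
      · left; exact h
      · right
        refine ⟨m * x, h, ?_⟩
        show m * x * x = m
        rw [mul_assoc, hx.sq, mul_one]
    have h1 := Set.ncard_le_ncard hsub (Set.toFinite _)
    have h2 := Set.ncard_union_le ((centralizer ({g} : Set G) : Subgroup G) : Set G)
      ((fun b => b * x) '' ((centralizer ({g} : Set G) : Subgroup G) : Set G))
    have h3 := Set.ncard_image_le (f := fun b => b * x)
      (s := ((centralizer ({g} : Set G) : Subgroup G) : Set G)) (Set.toFinite _)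
    have eN : Nat.card (normalizer ((centralizer ({g} : Set G) : Subgroup G) : Set G))
        = ((normalizer ((centralizer ({g} : Set G) : Subgroup G) : Set G) : Subgroup G) : Set G).ncard :=
      Nat.card_coe_set_eq _
    have eA : Nat.card (centralizer ({g} : Set G))
        = ((centralizer ({g} : Set G) : Subgroup G) : Set G).ncard := Nat.card_coe_set_eq _
    omega
  have hdvd : Nat.card (centralizer ({g} : Set G))
      ∣ Nat.card (normalizer ((centralizer ({g} : Set G) : Subgroup G) : Set G)) :=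
    Subgroup.card_dvd_of_le le_normalizer
  obtain ⟨k, hk⟩ := hdvd
  have hpos : 0 < Nat.card (centralizer ({g} : Set G)) := Nat.card_pos
  have hk1 : k ≠ 1 := by
    intro h
    rw [h, mul_one] at hk
    have heq : centralizer ({g} : Set G)
        = normalizer ((centralizer ({g} : Set G) : Subgroup G) : Set G) :=
      Subgroup.eq_of_le_of_card_ge le_normalizer (le_of_eq hk)
    have hxA : x ∈ centralizer ({g} : Set G) := by
      rw [heq]; exact iv_x_normalizes hx hall hg
    apply hg.2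
    rw [mem_centralizer_singleton_iff] at hxA ⊢
    exact hxA.symm
  have hk0 : k ≠ 0 := by
    intro h
    rw [h, mul_zero] at hk
    have : 0 < Nat.card (normalizer ((centralizer ({g} : Set G) : Subgroup G) : Set G)) :=
      Nat.card_pos
    omega
  have hk2 : k ≤ 2 := by
    by_contra h
    have h3 : 3 ≤ k := by omega
    have : Nat.card (centralizer ({g} : Set G)) * 3
        ≤ Nat.card (centralizer ({g} : Set G)) * k := Nat.mul_le_mul_left _ h3
    omega
  have : k = 2 := by omega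
  rw [hk, this, mul_comm]

/-- conjugate "good" subgroups: only two possibilities -/
theorem iv_conj_good {x : G} (hx : IV4 x) (hall : ∀ s : G, s ≠ 1 → s * s = 1 → IV4 s)
    {z : G} (hz : z ∈ centralizer ({x} : Set G)) (hz1 : z ≠ 1) (hzx : z ≠ x)
    {g h : G} (hg : g ∈ ivR x) (hh : h ∈ ivR x) {a p : G}
    (ha : a ∈ centralizer ({g} : Set G)) (ha1 : a ≠ 1)
    (hpa : p * a * p⁻¹ ∈ centralizer ({h} : Set G)) :
    h ∈ centralizer ({g} : Set G) ∨ h ∈ centralizer ({z * g * z⁻¹} : Set G) := by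
  have hxi : x⁻¹ = x := hx.inv_eq
  have hb1 : p * a * p⁻¹ ≠ 1 := by
    intro e
    apply ha1
    have e2 : a = p⁻¹ * (p * a * p⁻¹) * p := by group
    rw [e2, e]; group
  have hCb := iv_cent_eq_cent hx hall hh hpa hb1
  have hCa := iv_cent_eq_cent hx hall hg ha ha1
  -- conjugation by p maps C(g) into C(h)
  have hmap : ∀ a' ∈ centralizer ({g} : Set G), p * a' * p⁻¹ ∈ centralizer ({h} : Set G) := by
    intro a' ha'
    rw [← hCb, iv_mem_cent_conj, hCa]
    have e : p⁻¹ * (p * a' * p⁻¹) * p = a' := by group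
    rw [e]; exact ha'
  have hback : p⁻¹ * h * p ∈ centralizer ({g} : Set G) := by
    rw [← hCa, ← iv_mem_cent_conj, hCb]; exact iv_self_mem h
  have hs2 : (p⁻¹ * x * p) * (p⁻¹ * x * p) = 1 := by
    have e : (p⁻¹ * x * p) * (p⁻¹ * x * p) = p⁻¹ * (x * x) * p := by group
    rw [e, hx.sq]; group
  have hsinv : ∀ a' ∈ centralizer ({g} : Set G),
      (p⁻¹ * x * p) * a' * (p⁻¹ * x * p)⁻¹ = a'⁻¹ := by
    intro a' ha'
    have h1 := iv_cent_inv hx hall hh _ (hmap a' ha')
    have e : (p⁻¹ * x * p) * a' * (p⁻¹ * x * p)⁻¹ = p⁻¹ * (x * (p * a' * p⁻¹) * x⁻¹) * p := by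
      group
    rw [e, h1]; group
  obtain ⟨b, hb, hbs⟩ := iv_inv_conj hx hall hg hs2 hsinv
  have hvV : p * b ∈ centralizer ({x} : Set G) := by
    rw [mem_centralizer_singleton_iff]
    have e1 : p * b * x = p * (b * x * b⁻¹) * b := by group
    rw [e1, hbs]; group
  have hvh : (p * b)⁻¹ * h * (p * b) ∈ centralizer ({g} : Set G) := by
    have e : (p * b)⁻¹ * h * (p * b) = b⁻¹ * (p⁻¹ * h * p) * b := by group
    rw [e]
    exact mul_mem (mul_mem (inv_mem hb) hback) hb
  rcases iv_cent_elems hx hz hz1 hzx _ hvV with hv | hv | hv | hv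
  · left
    rw [hv] at hvh
    simpa using hvh
  · left
    rw [hv] at hvh
    have e : x⁻¹ * h * x = h⁻¹ := by
      have h0 := hh.1
      rw [hxi] at h0 ⊢; exact h0
    rw [e] at hvh
    have := inv_mem hvh
    rwa [inv_inv] at this
  · right
    rw [hv] at hvh
    exact iv_mem_cent_conj.mpr hvh
  · right
    rw [hv] at hvh
    have e : (x * z)⁻¹ * h * (x * z) = z⁻¹ * (x⁻¹ * h * x) * z := by group
    have e2 : x⁻¹ * h * x = h⁻¹ := by
      have h0 := hh.1
      rw [hxi] at h0 ⊢; exact h0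
    rw [e, e2] at hvh
    have h3 := inv_mem hvh
    have e3 : (z⁻¹ * h⁻¹ * z)⁻¹ = z⁻¹ * h * z := by group
    rw [e3] at h3
    exact iv_mem_cent_conj.mpr h3

end part1

section count
variable {G : Type*} [Group G] [Finite G]

theorem iv_card_group {x : G} (hx : IV4 x)
    (hconj : ∀ s : G, s ≠ 1 → s * s = 1 → ∃ m : G, s = m * x * m⁻¹) :
    Nat.card G = 4 * Nat.card {s : G // s ≠ 1 ∧ s * s = 1} := by
  classical
  choose rep hrep using fun s : {s : G // s ≠ 1 ∧ s * s = 1} => hconj s.1 s.2.1 s.2.2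
  let f : {s : G // s ≠ 1 ∧ s * s = 1} × (centralizer ({x} : Set G)) → G :=
    fun q => rep q.1 * q.2
  have hf : Function.Bijective f := by
    constructor
    · rintro ⟨s, v⟩ ⟨s', v'⟩ h
      have h1 : rep s * (v : G) = rep s' * (v' : G) := h
      have hv := v.2
      have hv' := v'.2
      rw [mem_centralizer_singleton_iff] at hv hv'
      have e1 : (s : G) = (rep s * v) * x * (rep s * v)⁻¹ := by
        have e : rep s * ↑v * x * (rep s * ↑v)⁻¹
            = rep s * ((v : G) * x) * (v : G)⁻¹ * (rep s)⁻¹ := by group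
        rw [e, hv, hrep s]; group
      have e2 : (s' : G) = (rep s' * v') * x * (rep s' * v')⁻¹ := by
        have e : rep s' * ↑v' * x * (rep s' * ↑v')⁻¹
            = rep s' * ((v' : G) * x) * (v' : G)⁻¹ * (rep s')⁻¹ := by group
        rw [e, hv', hrep s']; group
      have hss : s = s' := by
        apply Subtype.ext
        rw [e1, e2, h1]
      subst hss
      have hvv : (v : G) = v' := mul_left_cancel h1
      rw [Subtype.ext hvv]
    · intro m
      have hs : m * x * m⁻¹ ≠ 1 ∧ (m * x * m⁻¹) * (m * x * m⁻¹) = 1 :=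
        ⟨(hx.conj m).ne, (hx.conj m).sq⟩
      obtain ⟨s, hsv⟩ : ∃ s : {s : G // s ≠ 1 ∧ s * s = 1}, (s : G) = m * x * m⁻¹ :=
        ⟨⟨_, hs⟩, rfl⟩
      have h1 : m * x * m⁻¹ = rep s * x * (rep s)⁻¹ := by rw [← hsv]; exact hrep s
      refine ⟨(s, ⟨(rep s)⁻¹ * m, ?_⟩), ?_⟩
      · rw [mem_centralizer_singleton_iff]
        have e : (rep s)⁻¹ * m * x = (rep s)⁻¹ * (m * x * m⁻¹) * m := by group
        rw [e, h1]; group
      · show rep s * ((rep s)⁻¹ * m) = m
        group
  rw [← Nat.card_congr (Equiv.ofBijective f hf), Nat.card_prod, hx.card, mul_comm]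

theorem iv_card_sq :
    ({w : G | w * w = 1}).ncard = Nat.card {s : G // s ≠ 1 ∧ s * s = 1} + 1 := by
  have e : {w : G | w * w = 1} = insert 1 {s : G | s ≠ 1 ∧ s * s = 1} := by
    ext w
    simp only [Set.mem_ofPred_eq, Set.mem_insert_iff]
    constructor
    · intro h
      by_cases hw : w = 1
      · left; exact hw
      · right; exact ⟨hw, h⟩
    · rintro (rfl | h)
      · simp
      · exact h.2
  rw [e, Set.ncard_insert_of_notMem (by simp) (Set.toFinite _)]
  rfl

theorem iv_R_sq {x : G} (hx : IV4 x) {g : G} (hg : x * g * x⁻¹ = g⁻¹) :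
    (x * g) * (x * g) = 1 := by
  have e1 : x * g * (x * g) = (x * g * x⁻¹) * (x * x) * g := by group
  rw [e1, hg, hx.sq]; group

theorem iv_card_R {x : G} (hx : IV4 x) :
    (ivR x).ncard + 3 = Nat.card {s : G // s ≠ 1 ∧ s * s = 1} := by
  classical
  have hxi := hx.inv_eq
  have h1 := iv_card_sq (G := G)
  have h2 : ({g : G | x * g * x⁻¹ = g⁻¹}).ncard = ({w : G | w * w = 1}).ncard := by
    have e : {g : G | x * g * x⁻¹ = g⁻¹} = (fun w => x * w) '' {w : G | w * w = 1} := by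
      ext g
      simp only [Set.mem_ofPred_eq, Set.mem_image]
      constructor
      · intro h
        refine ⟨x * g, iv_R_sq hx h, ?_⟩
        rw [← mul_assoc, hx.sq, one_mul]
      · rintro ⟨w, hw, rfl⟩
        have hwi : w⁻¹ = w := inv_eq_of_mul_eq_one_left hw
        have e1 : x * (x * w) * x⁻¹ = (x * x) * w * x⁻¹ := by group
        rw [e1, hx.sq, one_mul, mul_inv_rev, hwi]
    rw [e, Set.ncard_image_of_injective _ (mul_right_injective x)]
  have h3 : ({g : G | x * g * x⁻¹ = g⁻¹}).ncard = 4 + (ivR x).ncard := by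
    have e : {g : G | x * g * x⁻¹ = g⁻¹}
        = ((centralizer ({x} : Set G) : Subgroup G) : Set G) ∪ ivR x := by
      ext g
      simp only [Set.mem_ofPred_eq, Set.mem_union, SetLike.mem_coe]
      constructor
      · intro h
        by_cases hg : g ∈ centralizer ({x} : Set G)
        · left; exact hg
        · right; exact ⟨h, hg⟩
      · rintro (h | h)
        · have hgg := hx.exp g h
          rw [mem_centralizer_singleton_iff] at h
          have e1 : x * g * x⁻¹ = (g * x) * x⁻¹ := by rw [h]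
          rw [e1, mul_inv_cancel_right]
          exact (inv_eq_of_mul_eq_one_left hgg).symm
        · exact h.1
    have hdisj : Disjoint ((centralizer ({x} : Set G) : Subgroup G) : Set G) (ivR x) := by
      rw [Set.disjoint_left]
      intro g hg hgR
      exact hgR.2 hg
    rw [e, Set.ncard_union_eq hdisj (Set.toFinite _) (Set.toFinite _)]
    have h4 : ((centralizer ({x} : Set G) : Subgroup G) : Set G).ncard = 4 := by
      rw [← hx.card]; exact (Nat.card_coe_set_eq _).symm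
    rw [h4]
  omega

/-- nonidentity elements of conjugates of `C(g)` -/
def ivT (g : G) : Set G :=
  {y | ∃ m c : G, c ∈ centralizer ({g} : Set G) ∧ c ≠ 1 ∧ y = m * c * m⁻¹}

/-- nonidentity elements of `C(g)` -/
def ivB (g : G) : Set G := {c | c ∈ centralizer ({g} : Set G) ∧ c ≠ 1}

theorem iv_B_card (g : G) : (ivB g).ncard = Nat.card (centralizer ({g} : Set G)) - 1 := by
  have e : ivB g = ((centralizer ({g} : Set G) : Subgroup G) : Set G) \ {1} := by
    ext c
    simp [ivB]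
  rw [e, Set.ncard_sdiff_singleton_of_mem (one_mem _)]
  rfl

theorem iv_T_card {x : G} (hx : IV4 x) (hall : ∀ s : G, s ≠ 1 → s * s = 1 → IV4 s)
    {g : G} (hg : g ∈ ivR x) :
    Nat.card G * (Nat.card (centralizer ({g} : Set G)) - 1)
      ≤ 2 * Nat.card (centralizer ({g} : Set G)) * (ivT g).ncard := by
  classical
  have hex : ∀ y : ivT g, ∃ m c : G, c ∈ centralizer ({g} : Set G) ∧ c ≠ 1
      ∧ (y : G) = m * c * m⁻¹ := fun y => y.2
  choose rm rc hrc hrc1 hry using hex
  have key : ∀ (m : G) (c : ivB g), ∃ (y : ivT g),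
      (rm y)⁻¹ * m ∈ normalizer ((centralizer ({g} : Set G) : Subgroup G) : Set G)
        ∧ (y : G) = m * c * m⁻¹ := by
    intro m c
    have hy : m * c * m⁻¹ ∈ ivT g := ⟨m, c, c.2.1, c.2.2, rfl⟩
    obtain ⟨y, hyv⟩ : ∃ y : ivT g, (y : G) = m * c * m⁻¹ := ⟨⟨_, hy⟩, rfl⟩
    refine ⟨y, ?_, hyv⟩
    obtain ⟨p, hp⟩ : ∃ p : G, p = (rm y)⁻¹ * m := ⟨_, rfl⟩
    rw [← hp]
    have h1 : p * c * p⁻¹ = rc y := by
      have e2 : m * (c : G) * m⁻¹ = rm y * rc y * (rm y)⁻¹ := by rw [← hyv]; exact hry y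
      have e : p * c * p⁻¹ = (rm y)⁻¹ * (m * c * m⁻¹) * rm y := by
        rw [hp]; group
      rw [e, e2]; group
    have hCc := iv_cent_eq_cent hx hall hg c.2.1 c.2.2
    have hCr := iv_cent_eq_cent hx hall hg (hrc y) (hrc1 y)
    rw [mem_normalizer_iff]
    intro a
    have h2 : p * a * p⁻¹ ∈ centralizer ({p * (c : G) * p⁻¹} : Set G)
        ↔ p⁻¹ * (p * a * p⁻¹) * p ∈ centralizer ({(c : G)} : Set G) := iv_mem_cent_conj
    rw [h1, hCr, hCc] at h2
    have e : p⁻¹ * (p * a * p⁻¹) * p = a := by group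
    rw [e] at h2
    exact h2.symm
  choose ky hkyN hkyeq using key
  let ψ : G × ivB g → (ivT g) × (normalizer ((centralizer ({g} : Set G) : Subgroup G) : Set G)) :=
    fun q => (ky q.1 q.2, ⟨_, hkyN q.1 q.2⟩)
  have hinj : Function.Injective ψ := by
    rintro ⟨m, c⟩ ⟨m', c'⟩ h
    have h1 : ky m c = ky m' c' := congrArg Prod.fst h
    have h2 : (rm (ky m c))⁻¹ * m = (rm (ky m' c'))⁻¹ * m' :=
      congrArg (fun q => (q.2 : G)) h
    rw [h1] at h2
    have hm : m = m' := mul_left_cancel h2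
    subst hm
    have h3 : m * (c : G) * m⁻¹ = m * (c' : G) * m⁻¹ := by
      rw [← hkyeq m c, ← hkyeq m c', h1]
    have hc : (c : G) = c' := mul_left_cancel (mul_right_cancel h3)
    rw [Subtype.ext hc]
  have h1 := Nat.card_le_card_of_injective ψ hinj
  rw [Nat.card_prod, Nat.card_prod, iv_card_normalizer hx hall hg] at h1
  have h2 : Nat.card (ivB g) = Nat.card (centralizer ({g} : Set G)) - 1 := by
    rw [Nat.card_coe_set_eq, iv_B_card]
  have h3 : Nat.card (ivT g) = (ivT g).ncard := Nat.card_coe_set_eq _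
  rw [h2, h3] at h1
  calc Nat.card G * (Nat.card (centralizer ({g} : Set G)) - 1)
      ≤ (ivT g).ncard * (2 * Nat.card (centralizer ({g} : Set G))) := h1
    _ = 2 * Nat.card (centralizer ({g} : Set G)) * (ivT g).ncard := by ring

theorem iv_T_disjoint {x : G} (hx : IV4 x) (hall : ∀ s : G, s ≠ 1 → s * s = 1 → IV4 s)
    {z : G} (hz : z ∈ centralizer ({x} : Set G)) (hz1 : z ≠ 1) (hzx : z ≠ x)
    {g h : G} (hg : g ∈ ivR x) (hh : h ∈ ivR x)
    (h1 : h ∉ centralizer ({g} : Set G)) (h2 : h ∉ centralizer ({z * g * z⁻¹} : Set G)) :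
    Disjoint (ivT g) (ivT h) := by
  rw [Set.disjoint_left]
  rintro y ⟨m, c, hc, hc1, rfl⟩ ⟨m', c', hc', hc'1, hy⟩
  have hpa : (m'⁻¹ * m) * c * (m'⁻¹ * m)⁻¹ ∈ centralizer ({h} : Set G) := by
    have e : (m'⁻¹ * m) * c * (m'⁻¹ * m)⁻¹ = m'⁻¹ * (m * c * m⁻¹) * m' := by group
    rw [e, hy]
    have e2 : m'⁻¹ * (m' * c' * m'⁻¹) * m' = c' := by group
    rw [e2]; exact hc'
  rcases iv_conj_good hx hall hz hz1 hzx hg hh hc hc1 hpa with h3 | h3
  · exact h1 h3
  · exact h2 h3

theorem iv_T_le {x : G} (hx : IV4 x) (hall : ∀ s : G, s ≠ 1 → s * s = 1 → IV4 s)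
    {g : G} (hg : g ∈ ivR x) (hge : 3 ≤ Nat.card (centralizer ({g} : Set G))) :
    Nat.card G ≤ 3 * (ivT g).ncard := by
  have h1 := iv_T_card hx hall hg
  have h3 : Nat.card G * (2 * Nat.card (centralizer ({g} : Set G)))
      ≤ (3 * (ivT g).ncard) * (2 * Nat.card (centralizer ({g} : Set G))) := by
    calc Nat.card G * (2 * Nat.card (centralizer ({g} : Set G)))
        ≤ Nat.card G * (3 * (Nat.card (centralizer ({g} : Set G)) - 1)) :=
          Nat.mul_le_mul_left _ (by omega)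
      _ = 3 * (Nat.card G * (Nat.card (centralizer ({g} : Set G)) - 1)) := by ring
      _ ≤ 3 * (2 * Nat.card (centralizer ({g} : Set G)) * (ivT g).ncard) :=
          Nat.mul_le_mul_left _ h1
      _ = (3 * (ivT g).ncard) * (2 * Nat.card (centralizer ({g} : Set G))) := by ring
  exact Nat.le_of_mul_le_mul_right h3 (by omega)

theorem iv_arith_aux (a b n : ℕ) (ha : 3 ≤ a) (hn : n + 1 = 2 * a + 2 * b)
    (hda : a ∣ n) (hdb : b ∣ n) (hab : a < b) : n = 15 := by
  have h1 : a ∣ 2 * b - 1 := by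
    have e : 2 * b - 1 = n - 2 * a := by omega
    rw [e]; exact Nat.dvd_sub hda (dvd_mul_left a 2)
  have h2 : b ∣ 2 * a - 1 := by
    have e : 2 * a - 1 = n - 2 * b := by omega
    rw [e]; exact Nat.dvd_sub hdb (dvd_mul_left b 2)
  obtain ⟨e, he⟩ := h2
  have he2 : e < 2 := by
    have h3 : b * e < b * 2 := by rw [← he]; omega
    exact Nat.lt_of_mul_lt_mul_left h3
  have he0 : e ≠ 0 := by
    rintro rfl
    rw [mul_zero] at he; omega
  have he1 : e = 1 := by omega
  rw [he1, mul_one] at he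
  have h3 : a ∣ 3 := by
    have e3 : 2 * b - 1 + 3 = 4 * a := by omega
    have h4 : a ∣ 2 * b - 1 + 3 := by rw [e3]; exact dvd_mul_left a 4
    exact (Nat.dvd_add_right h1).mp h4
  have h5 := Nat.le_of_dvd (by norm_num) h3
  omega

theorem iv_arith (a b n : ℕ) (ha : 3 ≤ a) (hb : 3 ≤ b) (hn : n + 1 = 2 * a + 2 * b)
    (hda : a ∣ n) (hdb : b ∣ n) : n = 15 := by
  rcases Nat.lt_trichotomy a b with hab | hab | hab
  · exact iv_arith_aux a b n ha hn hda hdb hab
  · subst hab
    have h1 : a ∣ 2 * a - 1 := by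
      have e : 2 * a - 1 = n - 2 * a := by omega
      rw [e]; exact Nat.dvd_sub hda (dvd_mul_left a 2)
    have h3 : a ∣ 1 := by
      have e3 : 2 * a - 1 + 1 = 2 * a := by omega
      have h4 : a ∣ 2 * a - 1 + 1 := by rw [e3]; exact dvd_mul_left a 2
      exact (Nat.dvd_add_right h1).mp h4
    have h5 := Nat.le_of_dvd (by norm_num) h3
    omega
  · exact iv_arith_aux b a n hb (by omega) hdb hda hab

end count

section main1
variable {G : Type*} [Group G] [Finite G]

theorem iv_exists_z {x : G} (hx : IV4 x) :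
    ∃ z ∈ centralizer ({x} : Set G), z ≠ 1 ∧ z ≠ x := by
  by_contra hcon
  push Not at hcon
  have hsub : ((centralizer ({x} : Set G) : Subgroup G) : Set G) ⊆ ({1, x} : Set G) := by
    intro v hv
    by_cases h : v = 1
    · left; exact h
    · right; exact hcon v hv h
  have h1 := Set.ncard_le_ncard hsub (Set.toFinite _)
  have h2 : ({1, x} : Set G).ncard ≤ 2 :=
    (Set.ncard_insert_le 1 {x}).trans (by rw [Set.ncard_singleton])
  have h3 : ((centralizer ({x} : Set G) : Subgroup G) : Set G).ncard = 4 := by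
    rw [← hx.card]; exact (Nat.card_coe_set_eq _).symm
  omega

theorem iv_exp_comm {E : Subgroup G} (hE : ∀ a ∈ E, a * a = 1) :
    ∀ a ∈ E, ∀ b ∈ E, a * b = b * a := by
  intro a ha b hb
  have h1 := hE a ha
  have h2 := hE b hb
  have h3 := hE (a * b) (mul_mem ha hb)
  have hai : a⁻¹ = a := inv_eq_of_mul_eq_one_left h1
  have hbi : b⁻¹ = b := inv_eq_of_mul_eq_one_left h2
  have h4 : (a * b)⁻¹ = a * b := inv_eq_of_mul_eq_one_left h3
  rw [mul_inv_rev, hai, hbi] at h4
  exact h4.symm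

theorem iv_sixty {x : G} (hx : IV4 x)
    (hconj : ∀ s : G, s ≠ 1 → s * s = 1 → ∃ m : G, s = m * x * m⁻¹)
    (hne : ∀ E : Subgroup G, E.Normal → (∀ a ∈ E, ∀ b ∈ E, a * b = b * a) →
      (∀ a ∈ E, a * a = 1) → Nat.card E ≠ 4) :
    Nat.card G = 60 := by
  classical
  have hall : ∀ s : G, s ≠ 1 → s * s = 1 → IV4 s := by
    intro s hs1 hs2
    obtain ⟨m, rfl⟩ := hconj s hs1 hs2
    exact hx.conj m
  have hxi := hx.inv_eq
  obtain ⟨n, hn⟩ : ∃ n : ℕ, n = Nat.card {s : G // s ≠ 1 ∧ s * s = 1} := ⟨_, rfl⟩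
  have hG : Nat.card G = 4 * n := by rw [hn]; exact iv_card_group hx hconj
  have hR : (ivR x).ncard + 3 = n := by rw [hn]; exact iv_card_R hx
  obtain ⟨z, hz, hz1, hzx⟩ := iv_exists_z hx
  have hzz := hx.exp z hz
  have hzi : z⁻¹ = z := inv_eq_of_mul_eq_one_left hzz
  have hodd : ∀ g ∈ ivR x, ¬ 2 ∣ Nat.card (centralizer ({g} : Set G)) :=
    fun g hg => iv_cent_odd hall hg
  have hge : ∀ g ∈ ivR x, 3 ≤ Nat.card (centralizer ({g} : Set G)) := by
    intro g hg
    have h1 := hodd g hg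
    have h2 : Nat.card (centralizer ({g} : Set G)) ≠ 1 := by
      intro h
      have h3 : (centralizer ({g} : Set G)) = ⊥ := Subgroup.card_eq_one.mp h
      have hg' := iv_self_mem g
      rw [h3, Subgroup.mem_bot] at hg'
      exact iv_ne_one hg hg'
    have h3 : 0 < Nat.card (centralizer ({g} : Set G)) := Nat.card_pos
    omega
  have hdvd : ∀ g ∈ ivR x, Nat.card (centralizer ({g} : Set G)) ∣ n := by
    intro g hg
    have h1 := iv_card_normalizer hx hall hg
    have h2 : Nat.card (normalizer ((centralizer ({g} : Set G) : Subgroup G) : Set G))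
        ∣ Nat.card G := Subgroup.card_subgroup_dvd_card _
    rw [h1, hG] at h2
    have h3 : Nat.card (centralizer ({g} : Set G)) ∣ 2 * n := by
      have h4 : 2 * Nat.card (centralizer ({g} : Set G)) ∣ 2 * (2 * n) := by
        have e : 2 * (2 * n) = 4 * n := by ring
        rw [e]; exact h2
      exact (Nat.mul_dvd_mul_iff_left (by norm_num)).mp h4
    have hcop : Nat.Coprime (Nat.card (centralizer ({g} : Set G))) 2 :=
      ((Nat.Prime.coprime_iff_not_dvd Nat.prime_two).mpr (hodd g hg)).symm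
    exact hcop.dvd_of_dvd_mul_left h3
  have hBsub : ∀ g ∈ ivR x, ivB g ⊆ ivR x := by
    intro g hg c hc
    exact iv_mem_R hx hall hg hc.1 hc.2
  have hBdisj : ∀ g ∈ ivR x, ∀ h ∈ ivR x,
      centralizer ({g} : Set G) ≠ centralizer ({h} : Set G) → Disjoint (ivB g) (ivB h) := by
    intro g hg h hh hne'
    rw [Set.disjoint_left]
    intro c hc hc'
    apply hne'
    rw [← iv_cent_eq_cent hx hall hg hc.1 hc.2, ← iv_cent_eq_cent hx hall hh hc'.1 hc'.2]
  have hmemB : ∀ g c : G, c ≠ 1 → c ∉ ivB g → c ∉ centralizer ({g} : Set G) := by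
    intro g c hc1 hc hmem
    exact hc ⟨hmem, hc1⟩
  -- the case n = 3
  by_cases hn3 : n = 3
  · exfalso
    have hS : ({w : G | w * w = 1}).ncard = 4 := by
      rw [iv_card_sq, ← hn, hn3]
    have hsub : ((centralizer ({x} : Set G) : Subgroup G) : Set G) ⊆ {w : G | w * w = 1} :=
      fun v hv => hx.exp v hv
    have hV : ((centralizer ({x} : Set G) : Subgroup G) : Set G).ncard = 4 := by
      rw [← hx.card]; exact (Nat.card_coe_set_eq _).symm
    have heq := Set.eq_of_subset_of_ncard_le hsub (by rw [hS, hV]) (Set.toFinite _)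
    have hnorm : (centralizer ({x} : Set G)).Normal := by
      constructor
      intro v hv m
      have h1 : m * v * m⁻¹ ∈ {w : G | w * w = 1} := by
        show (m * v * m⁻¹) * (m * v * m⁻¹) = 1
        have e : (m * v * m⁻¹) * (m * v * m⁻¹) = m * (v * v) * m⁻¹ := by group
        rw [e, hx.exp v hv]; group
      rw [← heq] at h1
      exact h1
    exact hne _ hnorm (iv_exp_comm hx.exp) hx.exp hx.card
  have hRne : (ivR x).Nonempty := by
    apply Set.nonempty_of_ncard_ne_zero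
    omega
  obtain ⟨g₁, hg₁⟩ := hRne
  have hg₁' : z * g₁ * z⁻¹ ∈ ivR x := iv_conj_mem_R hz hg₁
  have hne₁ := iv_conj_cent_ne hx hall hz hz1 hzx hg₁
  have hc₁ : Nat.card (centralizer ({z * g₁ * z⁻¹} : Set G))
      = Nat.card (centralizer ({g₁} : Set G)) := iv_card_cent_conj g₁ z
  have hd₁ := hBdisj _ hg₁ _ hg₁' (Ne.symm hne₁)
  by_cases c1 : ivR x ⊆ ivB g₁ ∪ ivB (z * g₁ * z⁻¹)
  · exfalso
    have heq : ivR x = ivB g₁ ∪ ivB (z * g₁ * z⁻¹) :=
      Set.Subset.antisymm c1 (Set.union_subset (hBsub _ hg₁) (hBsub _ hg₁'))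
    have h1 : (ivR x).ncard = (ivB g₁).ncard + (ivB (z * g₁ * z⁻¹)).ncard := by
      rw [heq]; exact Set.ncard_union_eq hd₁ (Set.toFinite _) (Set.toFinite _)
    rw [iv_B_card, iv_B_card, hc₁] at h1
    have h2 := hge _ hg₁
    have h3 := hdvd _ hg₁
    have h4 : n = 2 * Nat.card (centralizer ({g₁} : Set G)) + 1 := by omega
    rw [h4] at h3
    have h5 : Nat.card (centralizer ({g₁} : Set G)) ∣ 1 :=
      (Nat.dvd_add_right (dvd_mul_left _ 2)).mp h3
    have h6 := Nat.le_of_dvd (by norm_num) h5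
    omega
  obtain ⟨g₂, hg₂, hg₂n⟩ := Set.not_subset.mp c1
  have hg₂1 := iv_ne_one hg₂
  have hg₂a : g₂ ∉ centralizer ({g₁} : Set G) :=
    hmemB _ _ hg₂1 (fun h => hg₂n (Or.inl h))
  have hg₂b : g₂ ∉ centralizer ({z * g₁ * z⁻¹} : Set G) :=
    hmemB _ _ hg₂1 (fun h => hg₂n (Or.inr h))
  have hg₂' : z * g₂ * z⁻¹ ∈ ivR x := iv_conj_mem_R hz hg₂
  have hne₂ := iv_conj_cent_ne hx hall hz hz1 hzx hg₂
  have hc₂ : Nat.card (centralizer ({z * g₂ * z⁻¹} : Set G))
      = Nat.card (centralizer ({g₂} : Set G)) := iv_card_cent_conj g₂ z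
  have hd₂ := hBdisj _ hg₂ _ hg₂' (Ne.symm hne₂)
  by_cases c2 : ivR x ⊆ (ivB g₁ ∪ ivB (z * g₁ * z⁻¹)) ∪ (ivB g₂ ∪ ivB (z * g₂ * z⁻¹))
  · have heq : ivR x = (ivB g₁ ∪ ivB (z * g₁ * z⁻¹)) ∪ (ivB g₂ ∪ ivB (z * g₂ * z⁻¹)) :=
      Set.Subset.antisymm c2 (Set.union_subset
        (Set.union_subset (hBsub _ hg₁) (hBsub _ hg₁'))
        (Set.union_subset (hBsub _ hg₂) (hBsub _ hg₂')))
    have e11 : centralizer ({g₁} : Set G) ≠ centralizer ({g₂} : Set G) := by
      intro e; apply hg₂a; rw [e]; exact iv_self_mem g₂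
    have e21 : centralizer ({z * g₁ * z⁻¹} : Set G) ≠ centralizer ({g₂} : Set G) := by
      intro e; apply hg₂b; rw [e]; exact iv_self_mem g₂
    have e12 : centralizer ({g₁} : Set G) ≠ centralizer ({z * g₂ * z⁻¹} : Set G) := by
      intro e
      apply hg₂b
      rw [iv_mem_cent_conj, e, iv_mem_cent_conj]
      have e' : z⁻¹ * (z⁻¹ * g₂ * z) * z = g₂ := by
        rw [hzi]
        have e'' : z * (z * g₂ * z) * z = (z * z) * g₂ * (z * z) := by group
        rw [e'', hzz, one_mul, mul_one]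
      rw [e']; exact iv_self_mem g₂
    have e22 : centralizer ({z * g₁ * z⁻¹} : Set G) ≠ centralizer ({z * g₂ * z⁻¹} : Set G) := by
      intro e
      apply hg₂a
      have h1 : z * g₂ * z⁻¹ ∈ centralizer ({z * g₁ * z⁻¹} : Set G) := by
        rw [e]; exact iv_self_mem _
      rw [iv_mem_cent_conj] at h1
      have e' : z⁻¹ * (z * g₂ * z⁻¹) * z = g₂ := by group
      rw [e'] at h1; exact h1
    have hdd : Disjoint (ivB g₁ ∪ ivB (z * g₁ * z⁻¹)) (ivB g₂ ∪ ivB (z * g₂ * z⁻¹)) := by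
      rw [Set.disjoint_union_left, Set.disjoint_union_right, Set.disjoint_union_right]
      exact ⟨⟨hBdisj _ hg₁ _ hg₂ e11, hBdisj _ hg₁ _ hg₂' e12⟩,
        ⟨hBdisj _ hg₁' _ hg₂ e21, hBdisj _ hg₁' _ hg₂' e22⟩⟩
    have h1 : (ivR x).ncard = ((ivB g₁).ncard + (ivB (z * g₁ * z⁻¹)).ncard)
        + ((ivB g₂).ncard + (ivB (z * g₂ * z⁻¹)).ncard) := by
      rw [heq, Set.ncard_union_eq hdd (Set.toFinite _) (Set.toFinite _),
        Set.ncard_union_eq hd₁ (Set.toFinite _) (Set.toFinite _),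
        Set.ncard_union_eq hd₂ (Set.toFinite _) (Set.toFinite _)]
    rw [iv_B_card, iv_B_card, iv_B_card, iv_B_card, hc₁, hc₂] at h1
    have ha := hge _ hg₁
    have hb := hge _ hg₂
    have h15 := iv_arith _ _ n ha hb (by omega) (hdvd _ hg₁) (hdvd _ hg₂)
    rw [hG, h15]
  exfalso
  obtain ⟨g₃, hg₃, hg₃n⟩ := Set.not_subset.mp c2
  have hg₃1 := iv_ne_one hg₃
  have hg₃a : g₃ ∉ centralizer ({g₁} : Set G) :=
    hmemB _ _ hg₃1 (fun h => hg₃n (Or.inl (Or.inl h)))
  have hg₃b : g₃ ∉ centralizer ({z * g₁ * z⁻¹} : Set G) :=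
    hmemB _ _ hg₃1 (fun h => hg₃n (Or.inl (Or.inr h)))
  have hg₃c : g₃ ∉ centralizer ({g₂} : Set G) :=
    hmemB _ _ hg₃1 (fun h => hg₃n (Or.inr (Or.inl h)))
  have hg₃d : g₃ ∉ centralizer ({z * g₂ * z⁻¹} : Set G) :=
    hmemB _ _ hg₃1 (fun h => hg₃n (Or.inr (Or.inr h)))
  have d12 := iv_T_disjoint hx hall hz hz1 hzx hg₁ hg₂ hg₂a hg₂b
  have d13 := iv_T_disjoint hx hall hz hz1 hzx hg₁ hg₃ hg₃a hg₃b
  have d23 := iv_T_disjoint hx hall hz hz1 hzx hg₂ hg₃ hg₃c hg₃d
  have t1 := iv_T_le hx hall hg₁ (hge _ hg₁)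
  have t2 := iv_T_le hx hall hg₂ (hge _ hg₂)
  have t3 := iv_T_le hx hall hg₃ (hge _ hg₃)
  have hsub : (ivT g₁ ∪ ivT g₂) ∪ ivT g₃ ⊆ (Set.univ : Set G) \ {1} := by
    have hT : ∀ g : G, ivT g ⊆ (Set.univ : Set G) \ {1} := by
      rintro g y ⟨m, c, hc, hc1, rfl⟩
      refine ⟨Set.mem_univ _, ?_⟩
      intro e
      apply hc1
      have e' : c = m⁻¹ * (m * c * m⁻¹) * m := by group
      rw [e', e]; group
    exact Set.union_subset (Set.union_subset (hT _) (hT _)) (hT _)
  have h1 := Set.ncard_le_ncard hsub (Set.toFinite _)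
  have hd : Disjoint (ivT g₁ ∪ ivT g₂) (ivT g₃) := by
    rw [Set.disjoint_union_left]; exact ⟨d13, d23⟩
  rw [Set.ncard_union_eq hd (Set.toFinite _) (Set.toFinite _),
    Set.ncard_union_eq d12 (Set.toFinite _) (Set.toFinite _),
    Set.ncard_sdiff_singleton_of_mem (Set.mem_univ _), Set.ncard_univ] at h1
  have hpos : 0 < Nat.card G := Nat.card_pos
  omega

theorem iv_simple {x : G} (hx : IV4 x)
    (hconj : ∀ s : G, s ≠ 1 → s * s = 1 → ∃ m : G, s = m * x * m⁻¹)
    (hcard : Nat.card G = 60) : IsSimpleGroup G := by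
  classical
  have hall : ∀ s : G, s ≠ 1 → s * s = 1 → IV4 s := by
    intro s hs1 hs2
    obtain ⟨m, rfl⟩ := hconj s hs1 hs2
    exact hx.conj m
  have hxi := hx.inv_eq
  obtain ⟨n, hn⟩ : ∃ n : ℕ, n = Nat.card {s : G // s ≠ 1 ∧ s * s = 1} := ⟨_, rfl⟩
  have hG : Nat.card G = 4 * n := by rw [hn]; exact iv_card_group hx hconj
  have hR : (ivR x).ncard + 3 = n := by rw [hn]; exact iv_card_R hx
  have hS : ({w : G | w * w = 1}).ncard = n + 1 := by rw [hn]; exact iv_card_sq
  obtain ⟨z, hz, hz1, hzx⟩ := iv_exists_z hx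
  have hzz := hx.exp z hz
  refine { exists_pair_ne := ⟨x, 1, hx.ne⟩, eq_bot_or_eq_top_of_normal := ?_ }
  intro N hN
  by_cases hinv : ∃ s ∈ N, s ≠ 1 ∧ s * s = 1
  · right
    obtain ⟨s, hsN, hs1, hs2⟩ := hinv
    have hxN : x ∈ N := by
      obtain ⟨m, rfl⟩ := hconj s hs1 hs2
      have h1 := hN.conj_mem _ hsN m⁻¹
      have e : m⁻¹ * (m * x * m⁻¹) * m⁻¹⁻¹ = x := by group
      rw [e] at h1; exact h1
    have hSN : {w : G | w * w = 1} ⊆ (N : Set G) := by
      intro w hw
      by_cases hw1 : w = 1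
      · rw [hw1]; exact one_mem N
      · obtain ⟨m, rfl⟩ := hconj w hw1 hw
        exact hN.conj_mem _ hxN m
    have hRN : ivR x ⊆ (N : Set G) := by
      intro g hg
      have h1 : x * g ∈ N := hSN (iv_R_sq hx hg.1)
      have h2 := N.mul_mem hxN h1
      rw [← mul_assoc, hx.sq, one_mul] at h2
      exact h2
    have hdisj : Disjoint {w : G | w * w = 1} (ivR x) := by
      rw [Set.disjoint_left]
      intro g hg hgR
      apply hgR.2
      rw [mem_centralizer_singleton_iff]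
      have h1 : x * g * x⁻¹ = g := by rw [hgR.1]; exact inv_eq_of_mul_eq_one_left hg
      have h2 : g * x = (x * g * x⁻¹) * x := by rw [h1]
      rw [h2]; group
    have h1 := Set.ncard_le_ncard (Set.union_subset hSN hRN) (Set.toFinite _)
    rw [Set.ncard_union_eq hdisj (Set.toFinite _) (Set.toFinite _), hS] at h1
    have h2 : Nat.card N = (N : Set G).ncard := Nat.card_coe_set_eq _
    have hVN : centralizer ({x} : Set G) ≤ N := fun v hv => hSN (hx.exp v hv)
    have h3 : 4 ∣ Nat.card N := by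
      rw [← hx.card]; exact Subgroup.card_dvd_of_le hVN
    have h4 : Nat.card N ∣ Nat.card G := Subgroup.card_subgroup_dvd_card N
    rw [hcard] at h4
    obtain ⟨k, hk⟩ := h4
    have hk0 : k ≠ 0 := by rintro rfl; omega
    have hk2 : k < 3 := by
      by_contra hk3
      have h5 : Nat.card N * 3 ≤ Nat.card N * k := Nat.mul_le_mul_left _ (by omega)
      omega
    have hk1 : k = 1 := by
      obtain ⟨j, hj⟩ := h3
      interval_cases k <;> omega
    rw [hk1, mul_one] at hk
    apply (Subgroup.card_eq_iff_eq_top N).mp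
    rw [hcard, hk]
  · left
    push Not at hinv
    have hxinv : ∀ a ∈ N, x * a * x⁻¹ = a⁻¹ := by
      apply iv_fpf_inv N x hx.sq
      · intro a ha; exact hN.conj_mem a ha x
      · intro a ha hfix
        by_contra ha1
        apply hinv a ha ha1
        apply hx.exp
        rw [mem_centralizer_singleton_iff]
        have e : a * x = (x * a * x⁻¹) * x := by rw [hfix]
        rw [e]; group
    have hzIV := hall z hz1 hzz
    have hzinv : ∀ a ∈ N, z * a * z⁻¹ = a⁻¹ := by
      apply iv_fpf_inv N z hzz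
      · intro a ha; exact hN.conj_mem a ha z
      · intro a ha hfix
        by_contra ha1
        apply hinv a ha ha1
        apply hzIV.exp
        rw [mem_centralizer_singleton_iff]
        have e : a * z = (z * a * z⁻¹) * z := by rw [hfix]
        rw [e]; group
    obtain ⟨hxz1, hxz2⟩ := iv_xz hx hz hzx
    have hxzIV := hall _ hxz1 hxz2
    rw [Subgroup.eq_bot_iff_forall]
    intro a ha
    by_contra ha1
    apply hinv a ha ha1
    apply hxzIV.exp
    rw [mem_centralizer_singleton_iff]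
    have h1 := hzinv a ha
    have h2 := hxinv a⁻¹ (inv_mem ha)
    rw [inv_inv] at h2
    have e : a * (x * z) = (x * (z * a * z⁻¹) * x⁻¹) * (x * z) := by
      rw [h1, h2]
    rw [e]; group

end main1

section part2
variable {G : Type*} [Group G] [Finite G]

theorem iv_odd_of_prod {x' z : G} (H : Subgroup G) (hx'2 : x' * x' = 1)
    (hV : ∀ u ∈ H, u * x' = x' * u → u = 1 ∨ u = z)
    {s : G} (hs : s * s = 1) (hk : x' * s ∈ H) (hnc : (x' * s) * z ≠ z * (x' * s)) :
    ¬ 2 ∣ orderOf (x' * s) := by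
  intro h2
  obtain ⟨m, hm⟩ := h2
  have hx'i : x'⁻¹ = x' := inv_eq_of_mul_eq_one_left hx'2
  have hsi : s⁻¹ = s := inv_eq_of_mul_eq_one_left hs
  have hpos : 0 < orderOf (x' * s) := orderOf_pos _
  have hu1 : (x' * s) ^ m ≠ 1 := pow_ne_one_of_lt_orderOf (by omega) (by omega)
  have hu2 : (x' * s) ^ m * (x' * s) ^ m = 1 := by
    rw [← pow_add]
    have e : m + m = orderOf (x' * s) := by omega
    rw [e, pow_orderOf_eq_one]
  have hkinv : x' * (x' * s) * x'⁻¹ = (x' * s)⁻¹ := by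
    rw [mul_inv_rev, hsi, hx'i, ← mul_assoc, hx'2, one_mul]
  have hconj : x' * (x' * s) ^ m * x'⁻¹ = ((x' * s) ^ m)⁻¹ := by
    rw [← conj_pow, hkinv, inv_pow]
  have hui : ((x' * s) ^ m)⁻¹ = (x' * s) ^ m := inv_eq_of_mul_eq_one_left hu2
  have hcomm : (x' * s) ^ m * x' = x' * (x' * s) ^ m := by
    have e : (x' * s) ^ m * x' = (x' * (x' * s) ^ m * x'⁻¹) * x' := by rw [hconj, hui]
    rw [e]; group
  rcases hV _ (H.pow_mem hk m) hcomm with h | h
  · exact hu1 h
  · apply hnc
    rw [← h, ← pow_succ', ← pow_succ]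

theorem iv_half {z : G} (H : Subgroup G) [hHn : H.Normal] (hz1 : z ≠ 1) (hzH : z ∈ H)
    {y : G} (hy2 : y * y = 1)
    (hV : ∀ u ∈ H, u * y = y * u → u = 1 ∨ u = z) (hyz : y * z = z * y)
    [DecidableEq G] (W : Finset G) (hW : ∀ h, h ∈ W ↔ h ∈ H ∧ h * z ≠ z * h) :
    (∀ h ∈ W, y * h * y⁻¹ * h⁻¹ ∈ W) ∧
    W.card ≤ 2 * (W.image (fun h => y * h * y⁻¹ * h⁻¹)).card ∧
    (∀ k ∈ W.image (fun h => y * h * y⁻¹ * h⁻¹), ¬ 2 ∣ orderOf k ∧ y * k * y⁻¹ = k⁻¹) := by
  have hyi : y⁻¹ = y := inv_eq_of_mul_eq_one_left hy2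
  have hA : ∀ h ∈ W, y * h * y⁻¹ * h⁻¹ ∈ W := by
    intro h hh
    obtain ⟨hhH, hhz⟩ := (hW h).mp hh
    rw [hW]
    refine ⟨H.mul_mem (hHn.conj_mem h hhH y) (H.inv_mem hhH), ?_⟩
    intro hc
    have hs : (h * y⁻¹ * h⁻¹) * z = z * (h * y⁻¹ * h⁻¹) := by
      have e1 : (h * y⁻¹ * h⁻¹) * z = y⁻¹ * ((y * h * y⁻¹ * h⁻¹) * z) := by group
      have e2 : z * (h * y⁻¹ * h⁻¹) = y⁻¹ * ((y * z) * y⁻¹ * y * (h * y⁻¹ * h⁻¹)) := by group
      rw [e1, hc, e2, hyz]; group
    have hu : (h⁻¹ * z * h) * y⁻¹ = y⁻¹ * (h⁻¹ * z * h) := by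
      have e1 : (h⁻¹ * z * h) * y⁻¹ = h⁻¹ * (z * (h * y⁻¹ * h⁻¹)) * h := by group
      have e2 : y⁻¹ * (h⁻¹ * z * h) = h⁻¹ * ((h * y⁻¹ * h⁻¹) * z) * h := by group
      rw [e1, e2, hs]
    rw [hyi] at hu
    have hmem : h⁻¹ * z * h ∈ H := by
      have h1 := hHn.conj_mem z hzH h⁻¹
      rwa [inv_inv] at h1
    rcases hV _ hmem hu with h1 | h1
    · apply hz1
      have e : z = h * (h⁻¹ * z * h) * h⁻¹ := by group
      rw [e, h1]; group
    · apply hhz
      have e : z * h = h * (h⁻¹ * z * h) := by group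
      rw [e, h1]
  refine ⟨hA, ?_, ?_⟩
  · apply Finset.card_le_mul_card_image
    intro b hb
    obtain ⟨h₀, hh₀, rfl⟩ := Finset.mem_image.mp hb
    obtain ⟨hh₀H, -⟩ := (hW h₀).mp hh₀
    have hsub : (W.filter (fun h => y * h * y⁻¹ * h⁻¹ = y * h₀ * y⁻¹ * h₀⁻¹)) ⊆ {h₀, h₀ * z} := by
      intro h hh
      rw [Finset.mem_filter] at hh
      obtain ⟨hhW, heq⟩ := hh
      obtain ⟨hhH, -⟩ := (hW h).mp hhW
      have hu : (h₀⁻¹ * h) * y = y * (h₀⁻¹ * h) := by
        have e0 : h * y⁻¹ * h⁻¹ = h₀ * y⁻¹ * h₀⁻¹ := by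
          have e1 : h * y⁻¹ * h⁻¹ = y⁻¹ * (y * h * y⁻¹ * h⁻¹) := by group
          rw [e1, heq]; group
        have e1 : (h₀⁻¹ * h) * y⁻¹ = h₀⁻¹ * (h * y⁻¹ * h⁻¹) * h := by group
        have e2 : y⁻¹ * (h₀⁻¹ * h) = h₀⁻¹ * (h₀ * y⁻¹ * h₀⁻¹) * h := by group
        have e3 : (h₀⁻¹ * h) * y⁻¹ = y⁻¹ * (h₀⁻¹ * h) := by rw [e1, e2, e0]
        rw [hyi] at e3; exact e3
      rw [Finset.mem_insert, Finset.mem_singleton]
      rcases hV _ (H.mul_mem (H.inv_mem hh₀H) hhH) hu with h1 | h1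
      · left
        have e : h = h₀ * (h₀⁻¹ * h) := by group
        rw [e, h1, mul_one]
      · right
        have e : h = h₀ * (h₀⁻¹ * h) := by group
        rw [e, h1]
    exact (Finset.card_le_card hsub).trans Finset.card_le_two
  · intro k hk
    obtain ⟨h, hh, rfl⟩ := Finset.mem_image.mp hk
    have hkW := hA h hh
    obtain ⟨hkH, hkz⟩ := (hW _).mp hkW
    constructor
    · have e : y * h * y⁻¹ * h⁻¹ = y * (h * y⁻¹ * h⁻¹) := by group
      rw [e] at hkH hkz ⊢
      apply iv_odd_of_prod H hy2 hV _ hkH hkz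
      have e2 : (h * y⁻¹ * h⁻¹) * (h * y⁻¹ * h⁻¹) = h * (y⁻¹ * y⁻¹) * h⁻¹ := by group
      rw [e2, hyi, hy2]; group
    · have e1 : h * y⁻¹ = h * y := by rw [hyi]
      calc y * (y * h * y⁻¹ * h⁻¹) * y⁻¹ = (y * y) * (h * y⁻¹) * h⁻¹ * y⁻¹ := by group
        _ = (h * y) * h⁻¹ * y⁻¹ := by rw [hy2, one_mul, e1]
        _ = (y * h * y⁻¹ * h⁻¹)⁻¹ := by group

theorem iv_index_two {x : G} (hx : IV4 x) (H : Subgroup G) [hHn : H.Normal] (hxH : x ∉ H)
    {z : G} (hzH : z ∈ H) (hzV : z ∈ centralizer ({x} : Set G)) (hz1 : z ≠ 1)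
    (hconj : ∃ m : G, m * x * m⁻¹ = x * z) :
    ∃ E : Subgroup G, E.Normal ∧ (∀ a ∈ E, ∀ b ∈ E, a * b = b * a) ∧ (∀ a ∈ E, a * a = 1) ∧
      (Nat.card E = 2 ∨ Nat.card E = 4) := by
  classical
  have := Fintype.ofFinite G
  have hxi := hx.inv_eq
  have hzx : z ≠ x := fun h => hxH (h ▸ hzH)
  have hzz := hx.exp z hzV
  have hzi : z⁻¹ = z := inv_eq_of_mul_eq_one_left hzz
  have hzc : z * x = x * z := by
    rw [mem_centralizer_singleton_iff] at hzV; exact hzV
  have hxzH : x * z ∉ H := fun h => hxH (by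
    have h1 := H.mul_mem h (H.inv_mem hzH)
    rwa [mul_inv_cancel_right] at h1)
  have hVH : ∀ u ∈ H, u * x = x * u → u = 1 ∨ u = z := by
    intro u hu huc
    have huV : u ∈ centralizer ({x} : Set G) := by
      rw [mem_centralizer_singleton_iff]; exact huc
    rcases iv_cent_elems hx hzV hz1 hzx u huV with h | h | h | h
    · left; exact h
    · exact absurd (h ▸ hu) hxH
    · right; exact h
    · exact absurd (h ▸ hu) hxzH
  obtain ⟨m₀, hm₀⟩ := hconj
  have hx' : IV4 (x * z) := hm₀ ▸ hx.conj m₀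
  have hzV' : z ∈ centralizer ({x * z} : Set G) := by
    rw [mem_centralizer_singleton_iff, ← mul_assoc, hzc]
  have hzx' : z ≠ x * z := fun h => hxzH (h ▸ hzH)
  have hVH' : ∀ u ∈ H, u * (x * z) = (x * z) * u → u = 1 ∨ u = z := by
    intro u hu huc
    have huV : u ∈ centralizer ({x * z} : Set G) := by
      rw [mem_centralizer_singleton_iff]; exact huc
    rcases iv_cent_elems hx' hzV' hz1 hzx' u huV with h | h | h | h
    · left; exact h
    · exact absurd (h ▸ hu) hxzH
    · right; exact h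
    · exfalso
      rw [mul_assoc, hzz, mul_one] at h
      exact hxH (h ▸ hu)
  -- elements of H not commuting with z have odd order
  have key : ∀ h ∈ H, h * z ≠ z * h → ¬ 2 ∣ orderOf h := by
    obtain ⟨W, hWdef⟩ : ∃ W : Finset G, W = Finset.univ.filter (fun h => h ∈ H ∧ h * z ≠ z * h) :=
      ⟨_, rfl⟩
    have hW : ∀ h, h ∈ W ↔ h ∈ H ∧ h * z ≠ z * h := by
      intro h; rw [hWdef]; simp
    obtain ⟨a1, c1, d1⟩ := iv_half H hz1 hzH hx.sq hVH hzc.symm W hW
    have hyz' : (x * z) * z = z * (x * z) := by rw [← mul_assoc, hzc]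
    obtain ⟨a2, c2, d2⟩ := iv_half H hz1 hzH hx'.sq hVH' hyz' W hW
    have hdisj : Disjoint (W.image (fun h => x * h * x⁻¹ * h⁻¹))
        (W.image (fun h => (x * z) * h * (x * z)⁻¹ * h⁻¹)) := by
      rw [Finset.disjoint_left]
      intro k hk1 hk2
      have h1 := (d1 k hk1).2
      have h2 := (d2 k hk2).2
      obtain ⟨h, hh, rfl⟩ := Finset.mem_image.mp hk1
      have hkW := a1 h hh
      obtain ⟨-, hkz⟩ := (hW _).mp hkW
      apply hkz
      obtain ⟨k, hk⟩ : ∃ k : G, k = x * h * x⁻¹ * h⁻¹ := ⟨_, rfl⟩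
      rw [← hk] at h1 h2 ⊢
      have e : (x * z) * k * (x * z)⁻¹ = x * (z * k * z⁻¹) * x⁻¹ := by group
      rw [e, ← h1] at h2
      have h3 : z * k * z⁻¹ = k := by
        have e2 : z * k * z⁻¹ = x⁻¹ * (x * (z * k * z⁻¹) * x⁻¹) * x := by group
        rw [e2, h2]; group
      have e3 : k * z = (z * k * z⁻¹) * z := by rw [h3]
      rw [e3]; group
    have hsub : (W.image (fun h => x * h * x⁻¹ * h⁻¹))
        ∪ (W.image (fun h => (x * z) * h * (x * z)⁻¹ * h⁻¹)) ⊆ W := by
      intro k hk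
      rcases Finset.mem_union.mp hk with hk | hk
      · obtain ⟨h, hh, rfl⟩ := Finset.mem_image.mp hk
        exact a1 h hh
      · obtain ⟨h, hh, rfl⟩ := Finset.mem_image.mp hk
        exact a2 h hh
    have hcard := Finset.card_union_of_disjoint hdisj
    have hle := Finset.card_le_card hsub
    have heq := Finset.eq_of_subset_of_card_le hsub (by omega)
    intro h hh hhz
    have hhW : h ∈ W := (hW h).mpr ⟨hh, hhz⟩
    rw [← heq] at hhW
    rcases Finset.mem_union.mp hhW with hk | hk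
    · exact (d1 h hk).1
    · exact (d2 h hk).1
  -- conjugates of z commute
  have hcc : ∀ m m' : G,
      (m * z * m⁻¹) * (m' * z * m'⁻¹) = (m' * z * m'⁻¹) * (m * z * m⁻¹) := by
    intro m m'
    by_contra hne
    have hh : m'⁻¹ * (m * z * m⁻¹) * m' ∈ H := by
      have h1 : m * z * m⁻¹ ∈ H := hHn.conj_mem z hzH m
      have h2 := hHn.conj_mem _ h1 m'⁻¹
      rwa [inv_inv] at h2
    have hnc : (m'⁻¹ * (m * z * m⁻¹) * m') * z ≠ z * (m'⁻¹ * (m * z * m⁻¹) * m') := by
      intro hc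
      apply hne
      have e1 : (m * z * m⁻¹) * (m' * z * m'⁻¹)
          = m' * ((m'⁻¹ * (m * z * m⁻¹) * m') * z) * m'⁻¹ := by group
      have e2 : (m' * z * m'⁻¹) * (m * z * m⁻¹)
          = m' * (z * (m'⁻¹ * (m * z * m⁻¹) * m')) * m'⁻¹ := by group
      rw [e1, e2, hc]
    apply key _ hh hnc
    have h2 : (m'⁻¹ * (m * z * m⁻¹) * m') ^ 2 = 1 := by
      rw [pow_two]
      have e : (m'⁻¹ * (m * z * m⁻¹) * m') * (m'⁻¹ * (m * z * m⁻¹) * m')
          = m'⁻¹ * (m * (z * z) * m⁻¹) * m' := by group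
      rw [e, hzz]; group
    have h1 : m'⁻¹ * (m * z * m⁻¹) * m' ≠ 1 := by
      intro e
      apply hz1
      have e2 : z = m⁻¹ * (m' * (m'⁻¹ * (m * z * m⁻¹) * m') * m'⁻¹) * m := by group
      rw [e2, e]; group
    rw [orderOf_eq_prime h2 h1]
  -- the normal closure of z
  have hgen : ∀ y ∈ Group.conjugatesOfSet ({z} : Set G), ∃ m : G, y = m * z * m⁻¹ := by
    intro y hy
    rw [Group.mem_conjugatesOfSet_iff] at hy
    obtain ⟨b, hb, hconj⟩ := hy
    rw [Set.mem_singleton_iff] at hb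
    rw [hb, isConj_iff] at hconj
    obtain ⟨c, hc⟩ := hconj
    exact ⟨c, hc.symm⟩
  have hScomm : ∀ a ∈ Group.conjugatesOfSet ({z} : Set G),
      ∀ b ∈ Group.conjugatesOfSet ({z} : Set G), a * b = b * a := by
    intro a ha b hb
    obtain ⟨m, rfl⟩ := hgen a ha
    obtain ⟨m', rfl⟩ := hgen b hb
    exact hcc m m'
  have hEdef : Subgroup.normalClosure ({z} : Set G)
      = Subgroup.closure (Group.conjugatesOfSet ({z} : Set G)) := rfl
  have hEn : (Subgroup.normalClosure ({z} : Set G)).Normal := Subgroup.normalClosure_normal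
  have h1 : Subgroup.closure (Group.conjugatesOfSet ({z} : Set G))
      ≤ centralizer (Group.conjugatesOfSet ({z} : Set G)) := by
    rw [Subgroup.closure_le]
    intro a ha
    rw [SetLike.mem_coe, Subgroup.mem_centralizer_iff]
    intro b hb
    exact hScomm b hb a ha
  have h2 : Subgroup.closure (Group.conjugatesOfSet ({z} : Set G))
      ≤ centralizer (Subgroup.closure (Group.conjugatesOfSet ({z} : Set G)) : Set G) := by
    rw [Subgroup.closure_le]
    intro a ha
    rw [SetLike.mem_coe, Subgroup.mem_centralizer_iff]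
    intro b hb
    have h3 := h1 hb
    rw [Subgroup.mem_centralizer_iff] at h3
    exact (h3 a ha).symm
  have hEcomm : ∀ a ∈ Subgroup.normalClosure ({z} : Set G),
      ∀ b ∈ Subgroup.normalClosure ({z} : Set G), a * b = b * a := by
    intro a ha b hb
    rw [hEdef] at ha hb
    have h3 := h2 hb
    rw [Subgroup.mem_centralizer_iff] at h3
    exact h3 a ha
  have hEexp : ∀ a ∈ Subgroup.normalClosure ({z} : Set G), a * a = 1 := by
    intro a ha
    have ha' := ha
    rw [hEdef] at ha'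
    refine Subgroup.closure_induction (p := fun a _ => a * a = 1) ?_ ?_ ?_ ?_ ha'
    · intro y hy
      obtain ⟨m, rfl⟩ := hgen y hy
      have e : (m * z * m⁻¹) * (m * z * m⁻¹) = m * (z * z) * m⁻¹ := by group
      rw [e, hzz]; group
    · exact one_mul 1
    · intro a b ha hb ha2 hb2
      have hab := hEcomm a (by rw [hEdef]; exact ha) b (by rw [hEdef]; exact hb)
      calc a * b * (a * b) = a * (b * a) * b := by group
        _ = a * (a * b) * b := by rw [hab]
        _ = (a * a) * (b * b) := by group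
        _ = 1 := by rw [ha2, hb2, one_mul]
    · intro a ha ha2
      have e : a⁻¹ * a⁻¹ = (a * a)⁻¹ := by group
      rw [e, ha2, inv_one]
  have hEH : Subgroup.normalClosure ({z} : Set G) ≤ H :=
    Subgroup.normalClosure_le_normal (by
      intro y hy
      rw [Set.mem_singleton_iff] at hy
      rw [hy]; exact hzH)
  have hzE : z ∈ Subgroup.normalClosure ({z} : Set G) :=
    Subgroup.subset_normalClosure (Set.mem_singleton z)
  have hψ : ∀ e ∈ Subgroup.normalClosure ({z} : Set G),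
      e * (x * e * x⁻¹) = 1 ∨ e * (x * e * x⁻¹) = z := by
    intro e he
    have he' : x * e * x⁻¹ ∈ Subgroup.normalClosure ({z} : Set G) := hEn.conj_mem e he x
    apply hVH _ (hEH (mul_mem he he'))
    have hcomm := hEcomm e he _ he'
    have e1 : x * (e * (x * e * x⁻¹)) = (x * e * x⁻¹) * ((x * x) * e * (x * x)⁻¹) * x := by group
    rw [e1, hx.sq, one_mul, inv_one, mul_one, hcomm]
  have hfix : ∀ e ∈ Subgroup.normalClosure ({z} : Set G),
      e * (x * e * x⁻¹) = 1 → e = 1 ∨ e = z := by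
    intro e he h1
    apply hVH e (hEH he)
    have h2 : x * e * x⁻¹ = e⁻¹ := eq_inv_of_mul_eq_one_right h1
    have h3 : e⁻¹ = e := inv_eq_of_mul_eq_one_left (hEexp e he)
    rw [h3] at h2
    have e2 : e * x = (x * e * x⁻¹) * x := by rw [h2]
    rw [e2]; group
  have hcardle : Nat.card (Subgroup.normalClosure ({z} : Set G)) ≤ 4 := by
    have h3 : Nat.card (Subgroup.normalClosure ({z} : Set G))
        = ((Subgroup.normalClosure ({z} : Set G) : Subgroup G) : Set G).ncard :=
      Nat.card_coe_set_eq _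
    by_cases hex : ∃ e₀ ∈ Subgroup.normalClosure ({z} : Set G), e₀ * (x * e₀ * x⁻¹) = z
    · obtain ⟨e₀, he₀, hψ₀⟩ := hex
      have hsub : ((Subgroup.normalClosure ({z} : Set G) : Subgroup G) : Set G)
          ⊆ (({1, z, e₀, e₀ * z} : Finset G) : Set G) := by
        intro e he
        simp only [Finset.coe_insert, Finset.coe_singleton, Set.mem_insert_iff,
          Set.mem_singleton_iff]
        rcases hψ e he with h | h
        · rcases hfix e he h with h' | h'
          · left; exact h'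
          · right; left; exact h'
        · have hd : e₀ * e ∈ Subgroup.normalClosure ({z} : Set G) := mul_mem he₀ he
          have hψd : (e₀ * e) * (x * (e₀ * e) * x⁻¹) = 1 := by
            have e1 : (e₀ * e) * (x * (e₀ * e) * x⁻¹)
                = e₀ * (e * (x * e₀ * x⁻¹)) * (x * e * x⁻¹) := by group
            rw [e1, hEcomm e he _ (hEn.conj_mem e₀ he₀ x)]
            have e2 : e₀ * ((x * e₀ * x⁻¹) * e) * (x * e * x⁻¹)
                = (e₀ * (x * e₀ * x⁻¹)) * (e * (x * e * x⁻¹)) := by group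
            rw [e2, hψ₀, h, hzz]
          have he₀i : e₀⁻¹ = e₀ := inv_eq_of_mul_eq_one_left (hEexp e₀ he₀)
          rcases hfix _ hd hψd with h' | h'
          · right; right; left
            have e3 : e = e₀⁻¹ := eq_inv_of_mul_eq_one_right h'
            rw [e3, he₀i]
          · right; right; right
            have e3 : e = e₀⁻¹ * z := by rw [← h']; group
            rw [e3, he₀i]
      have h1 := Set.ncard_le_ncard hsub (Finset.finite_toSet _)
      rw [Set.ncard_coe_finset] at h1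
      have h2 : ({1, z, e₀, e₀ * z} : Finset G).card ≤ 4 := Finset.card_le_four
      omega
    · push Not at hex
      have hsub : ((Subgroup.normalClosure ({z} : Set G) : Subgroup G) : Set G)
          ⊆ (({1, z} : Finset G) : Set G) := by
        intro e he
        simp only [Finset.coe_insert, Finset.coe_singleton, Set.mem_insert_iff,
          Set.mem_singleton_iff]
        rcases hψ e he with h | h
        · exact hfix e he h
        · exact absurd h (hex e he)
      have h1 := Set.ncard_le_ncard hsub (Finset.finite_toSet _)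
      rw [Set.ncard_coe_finset] at h1
      have h2 : ({1, z} : Finset G).card ≤ 2 := Finset.card_le_two
      omega
  have h2dvd : 2 ∣ Nat.card (Subgroup.normalClosure ({z} : Set G)) := by
    have ho : orderOf (⟨z, hzE⟩ : Subgroup.normalClosure ({z} : Set G)) = 2 := by
      apply orderOf_eq_prime
      · apply Subtype.ext
        simp [pow_two, hzz]
      · intro h; exact hz1 (congrArg Subtype.val h)
    rw [← ho]; exact orderOf_dvd_natCard _
  refine ⟨Subgroup.normalClosure ({z} : Set G), hEn, hEcomm, hEexp, ?_⟩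
  have hpos : 0 < Nat.card (Subgroup.normalClosure ({z} : Set G)) := Nat.card_pos
  obtain ⟨k, hk⟩ := h2dvd
  omega

end part2

end Cfsg.Agent.Lib.Helper23
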