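import Mathlib
import Cfsg.Agent.S4127

/-!
Groups with exactly two conjugacy class sizes (conjugate type `(n, 1)`): helper lemmas (helper23).
-/

namespace Cfsg.Agent.Lib.Helper23

/-- Conjugate type `(n, 1)`: every centralizer has index `1` or `n`, and `n > 1` occurs. -/
def TwoCl (G : Type*) [Group G] (n : ℕ) : Prop :=
  1 < n ∧ (∀ x : G, (Subgroup.centralizer ({x} : Set G)).index = 1 ∨
    (Subgroup.centralizer ({x} : Set G)).index = n) ∧
    ∃ x : G, (Subgroup.centralizer ({x} : Set G)).index = n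

section

variable {G : Type*} [Group G] [Finite G]

theorem ito_mem_center_iff (x : G) :
    x ∈ Subgroup.center G ↔ (Subgroup.centralizer ({x} : Set G)).index = 1 := by
  rw [Subgroup.index_eq_one, Subgroup.centralizer_eq_top_iff_subset, Set.singleton_subset_iff]
  rfl

theorem ito_index (n : ℕ) (h : TwoCl G n) (x : G) (hx : x ∉ Subgroup.center G) :
    (Subgroup.centralizer ({x} : Set G)).index = n := by
  rcases h.2.1 x with h1 | h1
  · exact absurd ((ito_mem_center_iff x).mpr h1) hx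
  · exact h1

theorem ito_card_eq (n : ℕ) (h : TwoCl G n) (x y : G) (hx : x ∉ Subgroup.center G)
    (hy : y ∉ Subgroup.center G) :
    Nat.card (Subgroup.centralizer ({x} : Set G)) =
      Nat.card (Subgroup.centralizer ({y} : Set G)) := by
  have h1 := Subgroup.card_mul_index (Subgroup.centralizer ({x} : Set G))
  have h2 := Subgroup.card_mul_index (Subgroup.centralizer ({y} : Set G))
  rw [ito_index n h x hx] at h1
  rw [ito_index n h y hy] at h2
  have hn : 0 < n := by have := h.1; omega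
  exact Nat.eq_of_mul_eq_mul_right hn (h1.trans h2.symm)

theorem ito_eq_of_le (n : ℕ) (h : TwoCl G n) (x y : G) (hx : x ∉ Subgroup.center G)
    (hy : y ∉ Subgroup.center G)
    (hle : Subgroup.centralizer ({x} : Set G) ≤ Subgroup.centralizer ({y} : Set G)) :
    Subgroup.centralizer ({x} : Set G) = Subgroup.centralizer ({y} : Set G) :=
  Subgroup.eq_of_le_of_card_ge hle (le_of_eq (ito_card_eq n h y x hy hx))

theorem ito_cent_le_of_mem_zpowers (w v : G) (hv : v ∈ Subgroup.zpowers w) :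
    Subgroup.centralizer ({w} : Set G) ≤ Subgroup.centralizer ({v} : Set G) := by
  intro g hg
  rw [Subgroup.mem_centralizer_singleton_iff] at hg ⊢
  obtain ⟨k, rfl⟩ := Subgroup.mem_zpowers_iff.mp hv
  exact (Commute.zpow_right (show Commute g w from hg) k).eq

theorem ito_mem_zpowers_mul (x y : G) (hc : x * y = y * x)
    (hcop : (orderOf x).Coprime (orderOf y)) :
    x ∈ Subgroup.zpowers (x * y) ∧ y ∈ Subgroup.zpowers (x * y) := by
  have hc' : Commute x y := hc
  constructor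
  · apply Cfsg.Agent.S4127.mem_of_pow_mem_of_coprime _ x (orderOf x) (orderOf y) hcop
    · rw [pow_orderOf_eq_one]; exact Subgroup.one_mem _
    · have : x ^ orderOf y = (x * y) ^ orderOf y := by
        rw [hc'.mul_pow, pow_orderOf_eq_one, mul_one]
      rw [this]; exact Subgroup.pow_mem _ (Subgroup.mem_zpowers _) _
  · apply Cfsg.Agent.S4127.mem_of_pow_mem_of_coprime _ y (orderOf y) (orderOf x) hcop.symm
    · rw [pow_orderOf_eq_one]; exact Subgroup.one_mem _
    · have : y ^ orderOf x = (x * y) ^ orderOf x := by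
        rw [hc'.mul_pow, pow_orderOf_eq_one, one_mul]
      rw [this]; exact Subgroup.pow_mem _ (Subgroup.mem_zpowers _) _

theorem ito_cent_le (n : ℕ) (h : TwoCl G n) (q : ℕ) (hq : q.Prime) (x : G)
    (hx : x ∉ Subgroup.center G) (k : ℕ) (hxk : orderOf x = q ^ k) (y : G) (hxy : x * y = y * x)
    (hy : ¬ q ∣ orderOf y) :
    Subgroup.centralizer ({x} : Set G) ≤ Subgroup.centralizer ({y} : Set G) := by
  have hcop : (orderOf x).Coprime (orderOf y) := by
    rw [hxk]
    exact Nat.Coprime.pow_left k ((Nat.Prime.coprime_iff_not_dvd hq).mpr hy)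
  obtain ⟨h1, h2⟩ := ito_mem_zpowers_mul x y hxy hcop
  have hxyZ : x * y ∉ Subgroup.center G := by
    intro hZ
    exact hx ((Subgroup.zpowers_le.mpr hZ) h1)
  have e := ito_eq_of_le n h (x * y) x hxyZ hx (ito_cent_le_of_mem_zpowers _ _ h1)
  rw [← e]
  exact ito_cent_le_of_mem_zpowers _ _ h2

theorem ito_prime_parts (q : ℕ) (hq : q.Prime) (g : G) :
    ∃ a b : G, a ∈ Subgroup.zpowers g ∧ b ∈ Subgroup.zpowers g ∧ g = a * b ∧
      (∃ k : ℕ, orderOf a = q ^ k) ∧ ¬ q ∣ orderOf b := by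
  have ho : orderOf g ≠ 0 := (orderOf_pos g).ne'
  obtain ⟨e, m, hm, hom⟩ := Nat.exists_eq_pow_mul_and_not_dvd ho q hq.ne_one
  have hcop : (q ^ e).Coprime m :=
    Nat.Coprime.pow_left e ((Nat.Prime.coprime_iff_not_dvd hq).mpr hm)
  have h1 : ((q ^ e : ℕ) : ℤ) * Nat.gcdA (q ^ e) m + (m : ℤ) * Nat.gcdB (q ^ e) m = 1 := by
    have := Nat.gcd_eq_gcd_ab (q ^ e) m
    rw [Nat.Coprime.gcd_eq_one hcop] at this
    exact_mod_cast this.symm
  refine ⟨(g ^ m) ^ (Nat.gcdB (q ^ e) m), (g ^ (q ^ e)) ^ (Nat.gcdA (q ^ e) m), ?_, ?_, ?_, ?_, ?_⟩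
  · exact Subgroup.zpow_mem _ (Subgroup.pow_mem _ (Subgroup.mem_zpowers g) _) _
  · exact Subgroup.zpow_mem _ (Subgroup.pow_mem _ (Subgroup.mem_zpowers g) _) _
  · rw [← zpow_natCast, ← zpow_natCast, ← zpow_mul, ← zpow_mul, ← zpow_add, add_comm, h1,
      zpow_one]
  · have h2 : ((g ^ m) ^ (Nat.gcdB (q ^ e) m)) ^ (q ^ e) = 1 := by
      rw [← zpow_natCast, ← zpow_mul, mul_comm, zpow_mul, zpow_natCast, ← pow_mul, mul_comm,
        ← hom, pow_orderOf_eq_one, one_zpow]
    obtain ⟨k, -, hk⟩ := (Nat.dvd_prime_pow hq).mp (orderOf_dvd_of_pow_eq_one h2)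
    exact ⟨k, hk⟩
  · have h3 : ((g ^ (q ^ e)) ^ (Nat.gcdA (q ^ e) m)) ^ m = 1 := by
      rw [← zpow_natCast, ← zpow_mul, mul_comm, zpow_mul, zpow_natCast, ← pow_mul,
        ← hom, pow_orderOf_eq_one, one_zpow]
    intro hqd
    exact hm (hqd.trans (orderOf_dvd_of_pow_eq_one h3))

theorem ito_exists_prime_power (w : G) (hw : w ∉ Subgroup.center G) :
    ∃ (q : ℕ) (v : G) (k : ℕ), q.Prime ∧ v ∈ Subgroup.zpowers w ∧ v ∉ Subgroup.center G ∧
      orderOf v = q ^ k := by
  suffices H : ∀ N : ℕ, ∀ w : G, orderOf w = N → w ∉ Subgroup.center G →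
      ∃ (q : ℕ) (v : G) (k : ℕ), q.Prime ∧ v ∈ Subgroup.zpowers w ∧ v ∉ Subgroup.center G ∧
        orderOf v = q ^ k from H _ w rfl hw
  intro N
  induction N using Nat.strong_induction_on with
  | _ N ih =>
    intro w hN hw
    have hw1 : w ≠ 1 := fun h1 => hw (h1 ▸ Subgroup.one_mem _)
    have ho1 : orderOf w ≠ 1 := fun h1 => hw1 (orderOf_eq_one_iff.mp h1)
    obtain ⟨q, hq, hqd⟩ := Nat.exists_prime_and_dvd ho1
    obtain ⟨a, b, ha, hb, hab, ⟨k, hk⟩, hbq⟩ := ito_prime_parts q hq w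
    by_cases haZ : a ∈ Subgroup.center G
    · have hbZ : b ∉ Subgroup.center G := by
        intro hbZ
        exact hw (hab ▸ Subgroup.mul_mem _ haZ hbZ)
      have hdvd : orderOf b ∣ orderOf w := orderOf_dvd_of_mem_zpowers hb
      have hlt : orderOf b < N := by
        rw [← hN]
        refine lt_of_le_of_ne (Nat.le_of_dvd (orderOf_pos w) hdvd) ?_
        intro he
        exact hbq (he ▸ hqd)
      obtain ⟨q', v, k', hq', hv, hvZ, hvk⟩ := ih _ hlt b rfl hbZ
      exact ⟨q', v, k', hq', (Subgroup.zpowers_le.mpr hb) hv, hvZ, hvk⟩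
    · exact ⟨q, a, k, hq, ha, haZ, hk⟩

theorem ito_sylow_le_center (n : ℕ) (h : TwoCl G n) (r : ℕ) [Fact r.Prime] (hr : ¬ r ∣ n)
    (R : Sylow r G) : (R : Subgroup G) ≤ Subgroup.center G := by
  have htop : Subgroup.centralizer ((R : Subgroup G) : Set G) = ⊤ := by
    apply Cfsg.Agent.S4127.eq_top_of_forall_conj_mem
    intro g
    have hidx : ¬ r ∣ (Subgroup.centralizer ({g} : Set G)).index := by
      rcases h.2.1 g with h1 | h1
      · rw [h1]
        exact (Fact.out : r.Prime).one_lt.ne' ∘ Nat.dvd_one.mp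
      · rw [h1]; exact hr
    obtain ⟨Q, hQ⟩ := Cfsg.Agent.S4127.exists_sylow_le_of_not_dvd_index r _ hidx
    obtain ⟨c, hc⟩ := MulAction.exists_smul_eq G R Q
    refine ⟨c, ?_⟩
    rw [Subgroup.mem_centralizer_iff]
    intro u hu
    have hcu : c * u * c⁻¹ ∈ (Q : Subgroup G) := by
      rw [← hc, Sylow.coe_subgroup_smul, Subgroup.mem_pointwise_smul_iff_inv_smul_mem,
        MulAut.smul_def, MulAut.conj_inv_apply]
      have e : c⁻¹ * (c * u * c⁻¹) * c = u := by group
      rw [e]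
      exact hu
    have h2 := Subgroup.mem_centralizer_singleton_iff.mp (hQ hcu)
    calc u * (c⁻¹ * g * c) = c⁻¹ * (c * u * c⁻¹ * g) * c := by group
      _ = c⁻¹ * (g * (c * u * c⁻¹)) * c := by rw [h2]
      _ = c⁻¹ * g * c * u := by group
  intro u hu
  rw [Subgroup.mem_center_iff]
  intro g
  have hg : g ∈ Subgroup.centralizer ((R : Subgroup G) : Set G) := htop ▸ Subgroup.mem_top g
  exact (Subgroup.mem_centralizer_iff.mp hg u hu).symm

theorem ito_center_sylow (n : ℕ) (h : TwoCl G n) (q : ℕ) [Fact q.Prime] (hq : q ∣ n)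
    (Q : Sylow q G) (u : G) (hcen : ∀ v ∈ (Q : Subgroup G), v * u = u * v) :
    u ∈ Subgroup.center G := by
  by_contra hu
  have hidx := ito_index n h u hu
  have hle : (Q : Subgroup G) ≤ Subgroup.centralizer ({u} : Set G) := by
    intro v hv
    rw [Subgroup.mem_centralizer_singleton_iff]
    exact hcen v hv
  have h1 : (Q : Subgroup G).relIndex (Subgroup.centralizer ({u} : Set G)) *
      (Subgroup.centralizer ({u} : Set G)).index = (Q : Subgroup G).index :=
    Subgroup.relIndex_mul_index hle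
  have h2 : ¬ q ∣ (Q : Subgroup G).index := Q.not_dvd_index
  apply h2
  rw [← h1, hidx]
  exact Dvd.dvd.mul_left hq _

theorem ito_exists_noncentral (n : ℕ) (h : TwoCl G n) (q : ℕ) [Fact q.Prime] (hq : q ∣ n)
    (Q : Sylow q G) : ∃ u ∈ (Q : Subgroup G), u ∉ Subgroup.center G := by
  by_contra hcon
  push Not at hcon
  obtain ⟨x, hx⟩ := h.2.2
  have hle : (Q : Subgroup G) ≤ Subgroup.centralizer ({x} : Set G) := by
    intro v hv
    rw [Subgroup.mem_centralizer_singleton_iff]
    exact (Subgroup.mem_center_iff.mp (hcon v hv) x).symm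
  have h1 := Subgroup.relIndex_mul_index hle
  have h2 : ¬ q ∣ (Q : Subgroup G).index := Q.not_dvd_index
  apply h2
  rw [← h1, hx]
  exact Dvd.dvd.mul_left hq _

theorem ito_exists_noncentral_comm (n : ℕ) (h : TwoCl G n) (s : ℕ) [Fact s.Prime] (hs : s ∣ n)
    (v : G) (hv : v ∉ Subgroup.center G) :
    ∃ y : G, y * v = v * y ∧ y ∉ Subgroup.center G ∧ ∃ k : ℕ, orderOf y = s ^ k := by
  have hsp : s.Prime := Fact.out
  obtain ⟨S⟩ : Nonempty (Sylow s G) := inferInstance
  obtain ⟨u, huS, huZ⟩ := ito_exists_noncentral n h s hs S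
  obtain ⟨TZ⟩ : Nonempty (Sylow s (Subgroup.center G)) := inferInstance
  obtain ⟨TZ', hTZ'⟩ : ∃ TZ' : Subgroup G,
      TZ' = (TZ : Subgroup (Subgroup.center G)).map (Subgroup.center G).subtype := ⟨_, rfl⟩
  have hTZ'le : TZ' ≤ Subgroup.center G := by
    rw [hTZ']; exact Subgroup.map_subtype_le _
  have hTZ'card : Nat.card TZ' = s ^ (Nat.card (Subgroup.center G)).factorization s := by
    rw [hTZ', Subgroup.card_map_of_injective (Subgroup.subtype_injective _),
      Sylow.card_eq_multiplicity]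
  have hTZ'p : IsPGroup s TZ' := IsPGroup.of_card hTZ'card
  haveI hTZ'n : TZ'.Normal := by
    constructor
    intro a ha g
    have h1 := Subgroup.mem_center_iff.mp (hTZ'le ha) g
    rw [h1, mul_inv_cancel_right]
    exact ha
  obtain ⟨K, hK⟩ : ∃ K : Subgroup G, K = Subgroup.zpowers u ⊔ TZ' := ⟨_, rfl⟩
  have hup : IsPGroup s (Subgroup.zpowers u) := S.isPGroup'.to_le (Subgroup.zpowers_le.mpr huS)
  have hKp : IsPGroup s K := by
    rw [hK]; exact IsPGroup.to_sup_of_normal_right hup hTZ'p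
  have hKle : K ≤ Subgroup.centralizer ({u} : Set G) := by
    rw [hK, sup_le_iff]
    constructor
    · rw [Subgroup.zpowers_le, Subgroup.mem_centralizer_singleton_iff]
    · intro a ha
      rw [Subgroup.mem_centralizer_singleton_iff]
      exact (Subgroup.mem_center_iff.mp (hTZ'le ha) u).symm
  obtain ⟨j, hj⟩ := hKp.exists_card_eq
  have hjlt : (Nat.card (Subgroup.center G)).factorization s < j := by
    by_contra hle
    push Not at hle
    have h1 : Nat.card K ≤ Nat.card TZ' := by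
      rw [hj, hTZ'card]; exact Nat.pow_le_pow_right hsp.pos hle
    have he : TZ' = K := Subgroup.eq_of_le_of_card_ge (by rw [hK]; exact le_sup_right) h1
    apply huZ
    apply hTZ'le
    rw [he, hK]
    exact Subgroup.mem_sup_left (Subgroup.mem_zpowers u)
  have hcu : s ^ ((Nat.card (Subgroup.center G)).factorization s + 1) ∣
      Nat.card (Subgroup.centralizer ({u} : Set G)) := by
    refine dvd_trans ?_ (Subgroup.card_dvd_of_le hKle)
    rw [hj]
    exact pow_dvd_pow s hjlt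
  rw [ito_card_eq n h u v huZ hv] at hcu
  obtain ⟨T⟩ : Nonempty (Sylow s (Subgroup.centralizer ({v} : Set G))) := inferInstance
  by_contra hcon
  push Not at hcon
  have hTle : (T : Subgroup (Subgroup.centralizer ({v} : Set G))).map
      (Subgroup.centralizer ({v} : Set G)).subtype ≤ Subgroup.center G := by
    intro x hx
    obtain ⟨t, ht, rfl⟩ := Subgroup.mem_map.mp hx
    change (t : G) ∈ Subgroup.center G
    by_contra htZ
    obtain ⟨k, hk⟩ := T.isPGroup' ⟨t, ht⟩
    have hk' : (t : G) ^ (s ^ k) = 1 := by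
      have h1 := congrArg (fun z : ↥(T : Subgroup (Subgroup.centralizer ({v} : Set G))) =>
        ((z : ↥(Subgroup.centralizer ({v} : Set G))) : G)) hk
      simpa using h1
    obtain ⟨j', -, hj'⟩ := (Nat.dvd_prime_pow hsp).mp (orderOf_dvd_of_pow_eq_one hk')
    exact hcon (t : G) (Subgroup.mem_centralizer_singleton_iff.mp t.2) htZ j' hj'
  have hdvd : s ^ ((Nat.card (Subgroup.center G)).factorization s + 1) ∣
      Nat.card (Subgroup.center G) := by
    refine dvd_trans ?_ (Subgroup.card_dvd_of_le hTle)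
    rw [Subgroup.card_map_of_injective (Subgroup.subtype_injective _), Sylow.card_eq_multiplicity]
    exact pow_dvd_pow s ((Nat.Prime.pow_dvd_iff_le_factorization hsp Nat.card_pos.ne').mp hcu)
  exact Nat.pow_succ_factorization_not_dvd Nat.card_pos.ne' hsp hdvd

theorem ito_abelian (n : ℕ) (h : TwoCl G n) (p r : ℕ) [Fact p.Prime] [Fact r.Prime]
    (hpr : p ≠ r) (hp : p ∣ n) (hr : r ∣ n) (w : G) (hw : w ∉ Subgroup.center G) :
    ∀ a ∈ Subgroup.centralizer ({w} : Set G), ∀ b ∈ Subgroup.centralizer ({w} : Set G),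
      a * b = b * a := by
  obtain ⟨q, v, k, hq, hvw, hvZ, hvk⟩ := ito_exists_prime_power w hw
  have hCw : Subgroup.centralizer ({w} : Set G) = Subgroup.centralizer ({v} : Set G) :=
    ito_eq_of_le n h w v hw hvZ (ito_cent_le_of_mem_zpowers w v hvw)
  rw [hCw]
  obtain ⟨s, hsF, hsn, hsq⟩ : ∃ s : ℕ, Fact s.Prime ∧ s ∣ n ∧ s ≠ q := by
    by_cases hpq : p = q
    · exact ⟨r, inferInstance, hr, fun hrq => hpr (hpq.trans hrq.symm)⟩
    · exact ⟨p, inferInstance, hp, hpq⟩
  haveI := hsF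
  have hsp : s.Prime := Fact.out
  obtain ⟨y, hyv, hyZ, j, hyj⟩ := ito_exists_noncentral_comm n h s hsn v hvZ
  have hqs : ∀ i : ℕ, ¬ q ∣ s ^ i := by
    intro i hd
    exact hsq ((Nat.prime_dvd_prime_iff_eq hq hsp).mp (hq.dvd_of_dvd_pow hd)).symm
  have hqy : ¬ q ∣ orderOf y := by
    rw [hyj]; exact hqs j
  have hCvy : Subgroup.centralizer ({v} : Set G) = Subgroup.centralizer ({y} : Set G) :=
    ito_eq_of_le n h v y hvZ hyZ (ito_cent_le n h q hq v hvZ k hvk y hyv.symm hqy)
  intro a ha b hb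
  obtain ⟨a₁, a₂, ha₁, ha₂, haa, ⟨i, hi⟩, ha₂s⟩ := ito_prime_parts s hsp a
  have hzp : Subgroup.zpowers a ≤ Subgroup.centralizer ({v} : Set G) :=
    Subgroup.zpowers_le.mpr ha
  have ha₁C := hzp ha₁
  have ha₂C := hzp ha₂
  have h2 : Subgroup.centralizer ({y} : Set G) ≤ Subgroup.centralizer ({a₂} : Set G) := by
    refine ito_cent_le n h s hsp y hyZ j hyj a₂ ?_ ha₂s
    rw [hCvy] at ha₂C
    exact (Subgroup.mem_centralizer_singleton_iff.mp ha₂C).symm
  have h1 : Subgroup.centralizer ({v} : Set G) ≤ Subgroup.centralizer ({a₁} : Set G) := by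
    refine ito_cent_le n h q hq v hvZ k hvk a₁ ?_ ?_
    · exact (Subgroup.mem_centralizer_singleton_iff.mp ha₁C).symm
    · rw [hi]; exact hqs i
  have hb1 : b * a₁ = a₁ * b := Subgroup.mem_centralizer_singleton_iff.mp (h1 hb)
  have hb2 : b * a₂ = a₂ * b := Subgroup.mem_centralizer_singleton_iff.mp (h2 (hCvy ▸ hb))
  calc a * b = a₁ * (a₂ * b) := by rw [haa, mul_assoc]
    _ = a₁ * (b * a₂) := by rw [hb2]
    _ = (a₁ * b) * a₂ := by rw [mul_assoc]
    _ = (b * a₁) * a₂ := by rw [hb1]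
    _ = b * a := by rw [mul_assoc, ← haa]

theorem ito_cent_eq_of_comm (n : ℕ) (h : TwoCl G n) (p r : ℕ) [Fact p.Prime] [Fact r.Prime]
    (hpr : p ≠ r) (hp : p ∣ n) (hr : r ∣ n) (w g : G) (hw : w ∉ Subgroup.center G)
    (hg : g ∉ Subgroup.center G) (hgw : g * w = w * g) :
    Subgroup.centralizer ({g} : Set G) = Subgroup.centralizer ({w} : Set G) := by
  symm
  apply ito_eq_of_le n h w g hw hg
  intro a ha
  rw [Subgroup.mem_centralizer_singleton_iff]
  exact ito_abelian n h p r hpr hp hr w hw a ha g (Subgroup.mem_centralizer_singleton_iff.mpr hgw)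

theorem ito_exists_special (n : ℕ) (h : TwoCl G n) (q : ℕ) [Fact q.Prime] (hq : q ∣ n)
    (Q : Sylow q G) :
    ∃ u ∈ (Q : Subgroup G), u ∉ Subgroup.center G ∧
      (∀ y ∈ (Q : Subgroup G), u⁻¹ * y⁻¹ * u * y ∈ Subgroup.center G) ∧
      u ^ q ∈ Subgroup.center G := by
  have hqp : q.Prime := Fact.out
  have hQp : IsPGroup q ↥(Q : Subgroup G) := Q.isPGroup'
  have hZQ : ∀ z : ↥(Q : Subgroup G), z ∈ Subgroup.center ↥(Q : Subgroup G) →
      (z : G) ∈ Subgroup.center G := by
    intro z hz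
    apply ito_center_sylow n h q hq Q
    intro v hv
    have h1 := Subgroup.mem_center_iff.mp hz ⟨v, hv⟩
    exact congrArg Subtype.val h1
  obtain ⟨u₁, hu₁Q, hu₁Z⟩ := ito_exists_noncentral n h q hq Q
  haveI hnt : Nontrivial (↥(Q : Subgroup G) ⧸ Subgroup.center ↥(Q : Subgroup G)) :=
    ⟨⟨QuotientGroup.mk ⟨u₁, hu₁Q⟩, 1, fun he =>
      hu₁Z (hZQ _ ((QuotientGroup.eq_one_iff _).mp he))⟩⟩
  have hQq : IsPGroup q (↥(Q : Subgroup G) ⧸ Subgroup.center ↥(Q : Subgroup G)) :=
    hQp.to_quotient _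
  haveI := hQq.center_nontrivial
  have hcard : q ∣ Nat.card (Subgroup.center
      (↥(Q : Subgroup G) ⧸ Subgroup.center ↥(Q : Subgroup G))) := by
    obtain ⟨k, hk⟩ := (hQq.to_subgroup (Subgroup.center _)).exists_card_eq
    have h1 : 1 < Nat.card (Subgroup.center
        (↥(Q : Subgroup G) ⧸ Subgroup.center ↥(Q : Subgroup G))) := Finite.one_lt_card
    rw [hk] at h1 ⊢
    have hk0 : k ≠ 0 := by
      rintro rfl
      simp at h1
    exact dvd_pow_self q hk0
  obtain ⟨z, hz⟩ := exists_prime_orderOf_dvd_card' q hcard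
  obtain ⟨u', hu'⟩ := QuotientGroup.mk_surjective
    (z : ↥(Q : Subgroup G) ⧸ Subgroup.center ↥(Q : Subgroup G))
  have hz1 : (z : ↥(Q : Subgroup G) ⧸ Subgroup.center ↥(Q : Subgroup G)) ≠ 1 := by
    intro h1
    have h2 : z = 1 := Subtype.ext h1
    rw [h2, orderOf_one] at hz
    exact hqp.one_lt.ne hz
  have hzq : (z : ↥(Q : Subgroup G) ⧸ Subgroup.center ↥(Q : Subgroup G)) ^ q = 1 := by
    have h1 : z ^ q = 1 := by
      have h0 := pow_orderOf_eq_one z
      rw [hz] at h0
      exact h0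
    have h2 := congrArg Subtype.val h1
    simpa using h2
  refine ⟨(u' : G), u'.2, ?_, ?_, ?_⟩
  · intro hc
    apply hz1
    rw [← hu', QuotientGroup.eq_one_iff, Subgroup.mem_center_iff]
    intro g
    exact Subtype.ext (Subgroup.mem_center_iff.mp hc (g : G))
  · intro y hy
    have h1 : ((u'⁻¹ * (⟨y, hy⟩ : ↥(Q : Subgroup G))⁻¹ * u' * ⟨y, hy⟩ : ↥(Q : Subgroup G)) :
        ↥(Q : Subgroup G) ⧸ Subgroup.center ↥(Q : Subgroup G)) = 1 := by
      rw [QuotientGroup.mk_mul, QuotientGroup.mk_mul, QuotientGroup.mk_mul, QuotientGroup.mk_inv,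
        QuotientGroup.mk_inv, hu']
      have hc := Subgroup.mem_center_iff.mp z.2
        (QuotientGroup.mk (⟨y, hy⟩ : ↥(Q : Subgroup G)))
      have e : ∀ a b : ↥(Q : Subgroup G) ⧸ Subgroup.center ↥(Q : Subgroup G), b * a = a * b →
          a⁻¹ * b⁻¹ * a * b = 1 := by
        intro a b hab
        have e1 : a⁻¹ * b⁻¹ * a * b = a⁻¹ * b⁻¹ * (a * b) := by group
        rw [e1, ← hab]
        group
      exact e _ _ hc
    exact hZQ _ ((QuotientGroup.eq_one_iff _).mp h1)
  · have h1 : ((u' ^ q : ↥(Q : Subgroup G)) :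
        ↥(Q : Subgroup G) ⧸ Subgroup.center ↥(Q : Subgroup G)) = 1 := by
      rw [QuotientGroup.mk_pow, hu', hzq]
    exact hZQ _ ((QuotientGroup.eq_one_iff _).mp h1)

theorem ito_three (n : ℕ) (h : TwoCl G n) (q : ℕ) (u : G) (huZ : u ∉ Subgroup.center G)
    (huq : u ^ q ∈ Subgroup.center G) (y : G)
    (hcomm : u⁻¹ * y⁻¹ * u * y ∈ Subgroup.center G) :
    y ^ q ∈ Subgroup.center G ∨
      Subgroup.centralizer ({y} : Set G) = Subgroup.centralizer ({u} : Set G) := by
  by_cases hyq : y ^ q ∈ Subgroup.center G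
  · exact Or.inl hyq
  right
  have hyZ : y ∉ Subgroup.center G := fun hy => hyq (Subgroup.pow_mem _ hy q)
  obtain ⟨z, hz⟩ : ∃ z, z = u⁻¹ * y⁻¹ * u * y := ⟨_, rfl⟩
  rw [← hz] at hcomm
  have hzc : ∀ g : G, g * z = z * g := fun g => Subgroup.mem_center_iff.mp hcomm g
  have hconj : y⁻¹ * u * y = u * z := by rw [hz]; group
  have hconj2 : u⁻¹ * y * u = y * z⁻¹ := by rw [hz]; group
  have hk : ∀ k : ℕ, y⁻¹ * u ^ k * y = u ^ k * z ^ k := by
    intro k
    have e1 : y⁻¹ * u ^ k * y = (y⁻¹ * u * y) ^ k := by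
      have h1 := conj_pow (a := y⁻¹) (b := u) (i := k)
      rw [inv_inv] at h1
      exact h1.symm
    rw [e1, hconj, (show Commute u z from hzc u).mul_pow]
  have hzq : z ^ q = 1 := by
    have h2 := hk q
    have h3 : y⁻¹ * u ^ q * y = u ^ q := by
      have h4 := Subgroup.mem_center_iff.mp huq y
      rw [mul_assoc, ← h4]
      group
    rw [h3] at h2
    exact left_eq_mul.mp h2
  have hk2 : u⁻¹ * y ^ q * u = y ^ q := by
    have e1 : u⁻¹ * y ^ q * u = (u⁻¹ * y * u) ^ q := by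
      have h1 := conj_pow (a := u⁻¹) (b := y) (i := q)
      rw [inv_inv] at h1
      exact h1.symm
    have hc2 : Commute y z⁻¹ := (show Commute y z from hzc y).inv_right
    rw [e1, hconj2, hc2.mul_pow, inv_pow, hzq, inv_one, mul_one]
  have huyq : u * y ^ q = y ^ q * u := by
    calc u * y ^ q = u * (u⁻¹ * y ^ q * u) := by rw [hk2]
      _ = y ^ q * u := by group
  have hCy : Subgroup.centralizer ({y} : Set G) = Subgroup.centralizer ({y ^ q} : Set G) :=
    ito_eq_of_le n h y (y ^ q) hyZ hyq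
      (ito_cent_le_of_mem_zpowers y (y ^ q) (Subgroup.pow_mem _ (Subgroup.mem_zpowers y) q))
  have huC : u ∈ Subgroup.centralizer ({y} : Set G) := by
    rw [hCy, Subgroup.mem_centralizer_singleton_iff]; exact huyq
  have huy' : u * y = y * u := Subgroup.mem_centralizer_singleton_iff.mp huC
  have hpow : (u * y) ^ q = u ^ q * y ^ q := (show Commute u y from huy').mul_pow q
  have huyZ : (u * y) ^ q ∉ Subgroup.center G := by
    intro hc
    apply hyq
    have e : y ^ q = (u ^ q)⁻¹ * (u * y) ^ q := by rw [hpow]; group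
    rw [e]
    exact Subgroup.mul_mem _ (Subgroup.inv_mem _ huq) hc
  have huyZ' : u * y ∉ Subgroup.center G := fun hc => huyZ (Subgroup.pow_mem _ hc q)
  have hle : Subgroup.centralizer ({u * y} : Set G) ≤ Subgroup.centralizer ({y} : Set G) := by
    intro g hg
    have hg' := ito_cent_le_of_mem_zpowers (u * y) ((u * y) ^ q)
      (Subgroup.pow_mem _ (Subgroup.mem_zpowers _) q) hg
    rw [hCy]
    rw [Subgroup.mem_centralizer_singleton_iff] at hg' ⊢
    rw [hpow] at hg'
    have hc := Subgroup.mem_center_iff.mp huq g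
    apply mul_left_cancel (a := u ^ q)
    calc u ^ q * (g * y ^ q) = g * (u ^ q * y ^ q) := by rw [← mul_assoc, ← hc, mul_assoc]
      _ = u ^ q * y ^ q * g := hg'
      _ = u ^ q * (y ^ q * g) := by rw [mul_assoc]
  have heq := ito_eq_of_le n h (u * y) y huyZ' hyZ hle
  apply ito_eq_of_le n h y u hyZ huZ
  intro g hg
  have hg1 : g ∈ Subgroup.centralizer ({u * y} : Set G) := heq ▸ hg
  rw [Subgroup.mem_centralizer_singleton_iff] at hg hg1 ⊢
  apply mul_right_cancel (b := y)
  calc g * u * y = g * (u * y) := by rw [mul_assoc]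
    _ = u * y * g := hg1
    _ = u * (y * g) := by rw [mul_assoc]
    _ = u * (g * y) := by rw [hg]
    _ = u * g * y := by rw [mul_assoc]

theorem ito_dvd_ncard_of_free_conj (P P₁ : Subgroup G) (S : Set G)
    (hinv : ∀ h ∈ P, ∀ w ∈ S, h * w * h⁻¹ ∈ S)
    (hstab : ∀ w ∈ S, ∀ h ∈ P, (h * w * h⁻¹ = w ↔ h ∈ P₁)) :
    P₁.relIndex P ∣ S.ncard := by
  classical
  letI act : MulAction ↥P ↥S :=
    { smul := fun h w => ⟨(h : G) * w * (h : G)⁻¹, hinv h h.2 w w.2⟩
      one_smul := fun w => Subtype.ext (by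
        show ((1 : ↥P) : G) * w * ((1 : ↥P) : G)⁻¹ = w
        rw [Subgroup.coe_one]
        group)
      mul_smul := fun a b w => Subtype.ext (by
        show ((a * b : ↥P) : G) * w * ((a * b : ↥P) : G)⁻¹ =
          (a : G) * ((b : G) * w * (b : G)⁻¹) * (a : G)⁻¹
        rw [Subgroup.coe_mul]
        group) }
  have hstab' : ∀ w : ↥S, MulAction.stabilizer ↥P w = P₁.subgroupOf P := by
    intro w
    ext h
    rw [MulAction.mem_stabilizer_iff, Subgroup.mem_subgroupOf, ← hstab w w.2 h h.2]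
    constructor
    · intro he
      exact congrArg Subtype.val he
    · intro he
      exact Subtype.ext he
  have horb : ∀ w : ↥S, Nat.card (MulAction.orbit ↥P w) = P₁.relIndex P := by
    intro w
    rw [Nat.card_coe_set_eq, ← MulAction.index_stabilizer, hstab' w]
    rfl
  haveI : Fintype (MulAction.orbitRel.Quotient ↥P ↥S) := Fintype.ofFinite _
  have hcard : Nat.card ↥S = ∑ ω : MulAction.orbitRel.Quotient ↥P ↥S,
      Nat.card (MulAction.orbit ↥P ω.out) := by
    rw [Nat.card_congr (MulAction.selfEquivSigmaOrbits ↥P ↥S), Nat.card_sigma]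
  rw [← Nat.card_coe_set_eq, hcard]
  apply Finset.dvd_sum
  intro ω _
  rw [horb]

theorem ito_rpart_card (H : Subgroup G) (hab : ∀ a ∈ H, ∀ b ∈ H, a * b = b * a) (r : ℕ)
    [Fact r.Prime] (N : ℕ) (hN : (Nat.card H).factorization r ≤ N) :
    Set.ncard {w : G | w ∈ H ∧ w ^ (r ^ N) = 1} = r ^ (Nat.card H).factorization r := by
  have hr : r.Prime := Fact.out
  let Hr : Subgroup G :=
    { carrier := {w : G | w ∈ H ∧ w ^ (r ^ N) = 1}
      mul_mem' := by
        rintro a b ⟨ha, ha1⟩ ⟨hb, hb1⟩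
        refine ⟨H.mul_mem ha hb, ?_⟩
        rw [(show Commute a b from hab a ha b hb).mul_pow, ha1, hb1, mul_one]
      one_mem' := ⟨H.one_mem, one_pow _⟩
      inv_mem' := by
        rintro a ⟨ha, ha1⟩
        exact ⟨H.inv_mem ha, by rw [inv_pow, ha1, inv_one]⟩ }
  have hHr : (Hr : Set G) = {w : G | w ∈ H ∧ w ^ (r ^ N) = 1} := rfl
  have hHrmem : ∀ w, w ∈ Hr ↔ (w ∈ H ∧ w ^ (r ^ N) = 1) := fun w => Iff.rfl
  rw [← hHr, ← Nat.card_coe_set_eq]
  change Nat.card ↥Hr = _
  have hle : Hr ≤ H := fun w hw => ((hHrmem w).mp hw).1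
  have hHrp : IsPGroup r Hr := by
    intro w
    refine ⟨N, Subtype.ext ?_⟩
    have h1 := ((hHrmem w.1).mp w.2).2
    simpa using h1
  obtain ⟨j, hj⟩ := hHrp.exists_card_eq
  have hj1 : j ≤ (Nat.card H).factorization r := by
    have h1 : r ^ j ∣ Nat.card H := hj ▸ Subgroup.card_dvd_of_le hle
    exact (Nat.Prime.pow_dvd_iff_le_factorization hr Nat.card_pos.ne').mp h1
  obtain ⟨T⟩ : Nonempty (Sylow r H) := inferInstance
  have hTle : (T : Subgroup H).map H.subtype ≤ Hr := by
    intro x hx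
    obtain ⟨t, ht, rfl⟩ := Subgroup.mem_map.mp hx
    rw [hHrmem]
    refine ⟨t.2, ?_⟩
    have h1 : (⟨t, ht⟩ : ↥(T : Subgroup H)) ^ (Nat.card (T : Subgroup H)) = 1 := pow_card_eq_one'
    rw [Sylow.card_eq_multiplicity] at h1
    have h2 : (t : G) ^ (r ^ (Nat.card H).factorization r) = 1 := by
      have h3 := congrArg (fun z : ↥(T : Subgroup H) => ((z : ↥H) : G)) h1
      simpa using h3
    obtain ⟨d, hd⟩ := Nat.exists_eq_add_of_le hN
    show (t : G) ^ (r ^ N) = 1
    rw [hd, pow_add, pow_mul, h2, one_pow]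
  have hj2 : (Nat.card H).factorization r ≤ j := by
    have h1 : r ^ (Nat.card H).factorization r ∣ r ^ j := by
      have h2 := Subgroup.card_dvd_of_le hTle
      rw [Subgroup.card_map_of_injective (Subgroup.subtype_injective H),
        Sylow.card_eq_multiplicity, hj] at h2
      exact h2
    exact (Nat.pow_dvd_pow_iff_le_right hr.one_lt).mp h1
  rw [hj, le_antisymm hj1 hj2]

theorem ito_key (n : ℕ) (h : TwoCl G n) (p r : ℕ) [Fact p.Prime] [Fact r.Prime]
    (hpr : p ≠ r) (hp : p ∣ n) (hr : r ∣ n) (c : ℕ)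
    (hc : ∀ x : G, x ∉ Subgroup.center G → Nat.card (Subgroup.centralizer ({x} : Set G)) = c) :
    ∃ a : ℕ, p ^ c.factorization p ≤ p ^ (Nat.card (Subgroup.center G)).factorization p * a ∧
      a * r ^ (Nat.card (Subgroup.center G)).factorization r < r ^ c.factorization r := by
  have hpp : p.Prime := Fact.out
  have hrp : r.Prime := Fact.out
  obtain ⟨P⟩ : Nonempty (Sylow p G) := inferInstance
  obtain ⟨u, huP, huZ, hucomm, hup⟩ := ito_exists_special n h p hp P
  obtain ⟨D, hD⟩ : ∃ D : Subgroup G, D = Subgroup.centralizer ({u} : Set G) := ⟨_, rfl⟩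
  have hDmem : ∀ g, g ∈ D ↔ g * u = u * g := by
    intro g
    rw [hD]
    exact Subgroup.mem_centralizer_singleton_iff
  have hDcard : Nat.card D = c := by
    rw [hD]; exact hc u huZ
  have hZD : Subgroup.center G ≤ D := by
    intro g hg
    rw [hDmem]
    exact (Subgroup.mem_center_iff.mp hg u).symm
  have hDab : ∀ a ∈ D, ∀ b ∈ D, a * b = b * a := by
    rw [hD]; exact ito_abelian n h p r hpr hp hr u huZ
  have hDw : ∀ w ∈ D, w ∉ Subgroup.center G → Subgroup.centralizer ({w} : Set G) = D := by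
    intro w hw hwZ
    rw [hD]
    exact ito_cent_eq_of_comm n h p r hpr hp hr u w huZ hwZ ((hDmem w).mp hw)
  have hPD : ∀ x ∈ (P : Subgroup G), ∀ d ∈ D, x * d * x⁻¹ ∈ D := by
    intro x hx d hd
    rw [hDmem] at hd ⊢
    have hz := hucomm x hx
    obtain ⟨z, hzdef⟩ : ∃ z, z = u⁻¹ * x⁻¹ * u * x := ⟨_, rfl⟩
    rw [← hzdef] at hz
    have hzc : d * z = z * d := Subgroup.mem_center_iff.mp hz d
    have e1 : x⁻¹ * u * x = u * z := by rw [hzdef]; group
    have e2 : d * (x⁻¹ * u * x) = (x⁻¹ * u * x) * d := by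
      rw [e1]
      calc d * (u * z) = (d * u) * z := by rw [mul_assoc]
        _ = (u * d) * z := by rw [hd]
        _ = u * (d * z) := by rw [mul_assoc]
        _ = u * (z * d) := by rw [hzc]
        _ = u * z * d := by rw [mul_assoc]
    calc x * d * x⁻¹ * u = x * (d * (x⁻¹ * u * x)) * x⁻¹ := by group
      _ = x * ((x⁻¹ * u * x) * d) * x⁻¹ := by rw [e2]
      _ = u * (x * d * x⁻¹) := by group
  obtain ⟨P₁, hP₁⟩ : ∃ P₁ : Subgroup G, P₁ = (P : Subgroup G) ⊓ D := ⟨_, rfl⟩
  refine ⟨P₁.relIndex (P : Subgroup G), ?_, ?_⟩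
  · have hex : ∃ w : G, ∀ k : G, k⁻¹ * w * k ∉ D := by
      by_contra hcon
      push Not at hcon
      have htop : D = ⊤ := Cfsg.Agent.S4127.eq_top_of_forall_conj_mem D hcon
      apply huZ
      rw [Subgroup.mem_center_iff]
      intro g
      have hg : g ∈ D := htop ▸ Subgroup.mem_top g
      exact (hDmem g).mp hg
    obtain ⟨w, hw⟩ := hex
    have hwZ : w ∉ Subgroup.center G := by
      intro hwZ
      apply hw 1
      rw [inv_one, one_mul, mul_one]
      exact hZD hwZ
    obtain ⟨T⟩ : Nonempty (Sylow p (Subgroup.centralizer ({w} : Set G))) := inferInstance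
    obtain ⟨T', hT'⟩ : ∃ T' : Subgroup G,
        T' = (T : Subgroup (Subgroup.centralizer ({w} : Set G))).map
          (Subgroup.centralizer ({w} : Set G)).subtype := ⟨_, rfl⟩
    have hT'card : Nat.card T' = p ^ c.factorization p := by
      rw [hT', Subgroup.card_map_of_injective (Subgroup.subtype_injective _),
        Sylow.card_eq_multiplicity, hc w hwZ]
    have hT'le : T' ≤ Subgroup.centralizer ({w} : Set G) := by
      rw [hT']; exact Subgroup.map_subtype_le _
    have hT'p : IsPGroup p T' := IsPGroup.of_card hT'card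
    obtain ⟨P', hP'⟩ := hT'p.exists_le_sylow
    obtain ⟨k, hk⟩ := MulAction.exists_smul_eq G P' P
    obtain ⟨T'', hT''⟩ : ∃ T'' : Subgroup G, T'' = T'.map (MulAut.conj k).toMonoidHom :=
      ⟨_, rfl⟩
    have hT''mem : ∀ x, x ∈ T'' ↔ ∃ t ∈ T', k * t * k⁻¹ = x := by
      intro x
      rw [hT'', Subgroup.mem_map]
      rfl
    have hT''card : Nat.card T'' = p ^ c.factorization p := by
      rw [hT'', Subgroup.card_map_of_injective (MulAut.conj k).injective, hT'card]
    have hT''P : T'' ≤ (P : Subgroup G) := by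
      intro x hx
      obtain ⟨t, ht, rfl⟩ := (hT''mem x).mp hx
      rw [← hk, Sylow.coe_subgroup_smul, Subgroup.mem_pointwise_smul_iff_inv_smul_mem,
        MulAut.smul_def, MulAut.conj_inv_apply]
      have e : k⁻¹ * (k * t * k⁻¹) * k = t := by group
      rw [e]
      exact hP' ht
    obtain ⟨w'', hw''⟩ : ∃ w'' : G, w'' = k * w * k⁻¹ := ⟨_, rfl⟩
    have hT''w : ∀ x ∈ T'', x * w'' = w'' * x := by
      intro x hx
      obtain ⟨t, ht, rfl⟩ := (hT''mem x).mp hx
      have h1 := Subgroup.mem_centralizer_singleton_iff.mp (hT'le ht)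
      rw [hw'']
      calc k * t * k⁻¹ * (k * w * k⁻¹) = k * (t * w) * k⁻¹ := by group
        _ = k * (w * t) * k⁻¹ := by rw [h1]
        _ = k * w * k⁻¹ * (k * t * k⁻¹) := by group
    have hw''D : w'' ∉ D := by
      rw [hw'']
      have h1 := hw k⁻¹
      rwa [inv_inv] at h1
    have hw''Z : w'' ∉ Subgroup.center G := fun hz => hw''D (hZD hz)
    have hTD : T'' ⊓ P₁ ≤ Subgroup.center G := by
      intro g hg
      by_contra hgZ
      have hg1 : g ∈ T'' := hg.1
      have hg2 : g ∈ D := by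
        have h0 := hg.2
        rw [hP₁] at h0
        exact h0.2
      have h1 := ito_cent_eq_of_comm n h p r hpr hp hr w'' g hw''Z hgZ (hT''w g hg1)
      have h2 := hDw g hg2 hgZ
      apply hw''D
      rw [← h2, h1, Subgroup.mem_centralizer_singleton_iff]
    have hTDp : IsPGroup p ↥(T'' ⊓ P₁) := (IsPGroup.of_card hT''card).to_le inf_le_left
    obtain ⟨j, hj⟩ := hTDp.exists_card_eq
    have hj1 : j ≤ (Nat.card (Subgroup.center G)).factorization p := by
      have h1 : p ^ j ∣ Nat.card (Subgroup.center G) := hj ▸ Subgroup.card_dvd_of_le hTD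
      exact (Nat.Prime.pow_dvd_iff_le_factorization hpp Nat.card_pos.ne').mp h1
    have h3 : Nat.card ↥(T'' ⊓ P₁) * P₁.relIndex T'' = Nat.card T'' := by
      have h4 := Subgroup.card_mul_index (P₁.subgroupOf T'')
      have h5 : Nat.card ↥(P₁.subgroupOf T'') = Nat.card ↥(T'' ⊓ P₁) := by
        rw [← Subgroup.inf_subgroupOf_left P₁ T'']
        exact Nat.card_congr (Subgroup.subgroupOfEquivOfLe inf_le_left).toEquiv
      rw [h5] at h4
      exact h4
    have h6 : P₁.relIndex T'' ≤ P₁.relIndex (P : Subgroup G) :=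
      Subgroup.relIndex_le_of_le_right hT''P
        (Subgroup.index_ne_zero_of_finite : (P₁.subgroupOf (P : Subgroup G)).index ≠ 0)
    rw [← hT''card, ← h3, hj]
    exact Nat.mul_le_mul (Nat.pow_le_pow_right hpp.pos hj1) h6
  · obtain ⟨N, hNdef⟩ : ∃ N, N = (Nat.card G).factorization r := ⟨_, rfl⟩
    have hfac : ∀ H : Subgroup G, (Nat.card H).factorization r ≤ N := by
      intro H
      rw [hNdef]
      exact (Nat.factorization_le_iff_dvd Nat.card_pos.ne' Nat.card_pos.ne').mpr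
        (Subgroup.card_subgroup_dvd_card H) r
    obtain ⟨A, hA⟩ : ∃ A : Set G, A = {w : G | w ∈ D ∧ w ^ (r ^ N) = 1} := ⟨_, rfl⟩
    obtain ⟨B, hB⟩ : ∃ B : Set G, B = {w : G | w ∈ Subgroup.center G ∧ w ^ (r ^ N) = 1} :=
      ⟨_, rfl⟩
    have hAcard : A.ncard = r ^ c.factorization r := by
      rw [hA, ito_rpart_card D hDab r N (hfac D), hDcard]
    have hBcard : B.ncard = r ^ (Nat.card (Subgroup.center G)).factorization r := by
      rw [hB]
      exact ito_rpart_card (Subgroup.center G)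
        (fun a ha b _ => (Subgroup.mem_center_iff.mp ha b).symm) r N (hfac _)
    have hBA : B ⊆ A := by
      rw [hA, hB]
      rintro w ⟨hw1, hw2⟩
      exact ⟨hZD hw1, hw2⟩
    have hSmem : ∀ w, w ∈ A \ B ↔ (w ∈ D ∧ w ^ (r ^ N) = 1 ∧ w ∉ Subgroup.center G) := by
      intro w
      rw [hA, hB]
      constructor
      · rintro ⟨⟨h1, h2⟩, h3⟩
        exact ⟨h1, h2, fun hz => h3 ⟨hz, h2⟩⟩
      · rintro ⟨h1, h2, h3⟩
        exact ⟨⟨h1, h2⟩, fun hz => h3 hz.1⟩
    have hScard : (A \ B).ncard + B.ncard = A.ncard := Set.ncard_sdiff_add_ncard_of_subset hBA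
    have hdvd1 : P₁.relIndex (P : Subgroup G) ∣ (A \ B).ncard := by
      apply ito_dvd_ncard_of_free_conj
      · intro x hx w hw
        rw [hSmem] at hw ⊢
        obtain ⟨h1, h2, h3⟩ := hw
        refine ⟨hPD x hx w h1, ?_, ?_⟩
        · rw [conj_pow, h2, mul_one, mul_inv_cancel]
        · intro hz
          apply h3
          have e : w = x⁻¹ * (x * w * x⁻¹) * x := by group
          rw [e]
          have h4 := Subgroup.mem_center_iff.mp hz x⁻¹
          rw [h4, inv_mul_cancel_right]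
          exact hz
      · intro w hw x hx
        rw [hSmem] at hw
        obtain ⟨h1, h2, h3⟩ := hw
        rw [hP₁, Subgroup.mem_inf]
        constructor
        · intro he
          refine ⟨hx, ?_⟩
          rw [← hDw w h1 h3, Subgroup.mem_centralizer_singleton_iff]
          calc x * w = (x * w * x⁻¹) * x := by group
            _ = w * x := by rw [he]
        · rintro ⟨-, hxD⟩
          rw [← hDw w h1 h3, Subgroup.mem_centralizer_singleton_iff] at hxD
          rw [hxD, mul_inv_cancel_right]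
    obtain ⟨y, hyu, hyZ, ky, hyk⟩ := ito_exists_noncentral_comm n h r hr u huZ
    have hyS : y ∈ A \ B := by
      rw [hSmem]
      refine ⟨(hDmem y).mpr hyu, ?_, hyZ⟩
      have h1 : r ^ ky ∣ Nat.card G := hyk ▸ orderOf_dvd_natCard y
      have h2 : ky ≤ N := by
        rw [hNdef]
        exact (Nat.Prime.pow_dvd_iff_le_factorization hrp Nat.card_pos.ne').mp h1
      rw [← orderOf_dvd_iff_pow_eq_one, hyk]
      exact pow_dvd_pow r h2
    have hSpos : 0 < (A \ B).ncard := (Set.ncard_pos).mpr ⟨y, hyS⟩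
    obtain ⟨i, hi⟩ : ∃ i, P₁.relIndex (P : Subgroup G) = p ^ i := by
      have h1 : P₁.relIndex (P : Subgroup G) ∣ Nat.card (P : Subgroup G) :=
        Subgroup.relIndex_dvd_card P₁ P
      rw [Sylow.card_eq_multiplicity] at h1
      obtain ⟨i, -, hi⟩ := (Nat.dvd_prime_pow hpp).mp h1
      exact ⟨i, hi⟩
    have hZc : (Nat.card (Subgroup.center G)).factorization r ≤ c.factorization r := by
      have h1 : Nat.card (Subgroup.center G) ∣ c := hDcard ▸ Subgroup.card_dvd_of_le hZD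
      have hc0 : c ≠ 0 := hDcard ▸ Nat.card_pos.ne'
      exact (Nat.factorization_le_iff_dvd Nat.card_pos.ne' hc0).mpr h1 r
    have hdvd2 : r ^ (Nat.card (Subgroup.center G)).factorization r ∣ (A \ B).ncard := by
      have h1 : (A \ B).ncard = A.ncard - B.ncard := by omega
      rw [h1, hAcard, hBcard]
      exact Nat.dvd_sub (pow_dvd_pow r hZc) dvd_rfl
    have hcop : (P₁.relIndex (P : Subgroup G)).Coprime
        (r ^ (Nat.card (Subgroup.center G)).factorization r) := by
      rw [hi]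
      exact Nat.Coprime.pow _ _ ((Nat.coprime_primes hpp hrp).mpr hpr)
    have hdvd3 := Nat.Coprime.mul_dvd_of_dvd_of_dvd hcop hdvd1 hdvd2
    have hle := Nat.le_of_dvd hSpos hdvd3
    have hBpos : 0 < B.ncard := by
      rw [hBcard]; exact pow_pos hrp.pos _
    rw [← hAcard]
    exact lt_of_le_of_lt hle (by omega)

theorem ito_prime_power (n : ℕ) (h : TwoCl G n) : ∃ (p : ℕ) (k : ℕ), p.Prime ∧ n = p ^ k := by
  have hn1 : n ≠ 1 := by have := h.1; omega
  obtain ⟨p, hp, hpn⟩ := Nat.exists_prime_and_dvd hn1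
  refine ⟨p, n.primeFactorsList.length, hp, ?_⟩
  apply Nat.eq_prime_pow_of_unique_prime_dvd (by have := h.1; omega)
  intro r hr hrn
  by_contra hrp
  haveI : Fact p.Prime := ⟨hp⟩
  haveI : Fact r.Prime := ⟨hr⟩
  obtain ⟨x₀, hx₀⟩ := h.2.2
  have hx₀Z : x₀ ∉ Subgroup.center G := by
    intro hz
    rw [(ito_mem_center_iff x₀).mp hz] at hx₀
    have := h.1
    omega
  have hc : ∀ x : G, x ∉ Subgroup.center G →
      Nat.card (Subgroup.centralizer ({x} : Set G)) =
        Nat.card (Subgroup.centralizer ({x₀} : Set G)) :=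
    fun x hx => ito_card_eq n h x x₀ hx hx₀Z
  obtain ⟨a, ha1, ha2⟩ := ito_key n h p r (fun e => hrp e.symm) hpn hrn _ hc
  obtain ⟨b, hb1, hb2⟩ := ito_key n h r p hrp hrn hpn _ hc
  obtain ⟨cp, hcp⟩ : ∃ cp, cp = p ^ (Nat.card (Subgroup.centralizer ({x₀} : Set G))).factorization p :=
    ⟨_, rfl⟩
  obtain ⟨cr, hcr⟩ : ∃ cr, cr = r ^ (Nat.card (Subgroup.centralizer ({x₀} : Set G))).factorization r :=
    ⟨_, rfl⟩
  obtain ⟨zp, hzp⟩ : ∃ zp, zp = p ^ (Nat.card (Subgroup.center G)).factorization p := ⟨_, rfl⟩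
  obtain ⟨zr, hzr⟩ : ∃ zr, zr = r ^ (Nat.card (Subgroup.center G)).factorization r := ⟨_, rfl⟩
  rw [← hcp, ← hzp] at ha1 hb2
  rw [← hcr, ← hzr] at ha2 hb1
  have hzp0 : 0 < zp := by rw [hzp]; exact pow_pos hp.pos _
  have hzr0 : 0 < zr := by rw [hzr]; exact pow_pos hr.pos _
  have h1 : cp * zr ≤ zp * a * zr := Nat.mul_le_mul_right zr ha1
  have h2 : zp * (a * zr) < zp * cr := Nat.mul_lt_mul_of_pos_left ha2 hzp0
  have h3 : zp * cr ≤ zp * (zr * b) := Nat.mul_le_mul_left zp hb1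
  have h4 : zr * (b * zp) < zr * cp := Nat.mul_lt_mul_of_pos_left hb2 hzr0
  have e1 : zp * a * zr = zp * (a * zr) := by ring
  have e2 : zp * (zr * b) = zr * (b * zp) := by ring
  have e3 : zr * cp = cp * zr := by ring
  omega

omit [Finite G] in
theorem ito_conj_comm (u x d : G) (hz : u⁻¹ * x⁻¹ * u * x ∈ Subgroup.center G)
    (hd : d * u = u * d) : (x * d * x⁻¹) * u = u * (x * d * x⁻¹) := by
  obtain ⟨z, hzdef⟩ : ∃ z, z = u⁻¹ * x⁻¹ * u * x := ⟨_, rfl⟩
  rw [← hzdef] at hz
  have hzc : d * z = z * d := Subgroup.mem_center_iff.mp hz d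
  have e1 : x⁻¹ * u * x = u * z := by rw [hzdef]; group
  have e2 : d * (x⁻¹ * u * x) = (x⁻¹ * u * x) * d := by
    rw [e1]
    calc d * (u * z) = (d * u) * z := by rw [mul_assoc]
      _ = (u * d) * z := by rw [hd]
      _ = u * (d * z) := by rw [mul_assoc]
      _ = u * (z * d) := by rw [hzc]
      _ = u * z * d := by rw [mul_assoc]
  calc x * d * x⁻¹ * u = x * (d * (x⁻¹ * u * x)) * x⁻¹ := by group
    _ = x * ((x⁻¹ * u * x) * d) * x⁻¹ := by rw [e2]
    _ = u * (x * d * x⁻¹) := by group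

end

end Cfsg.Agent.Lib.Helper23
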