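import Mathlib
import Cfsg.Prelude.Def_Local
import Cfsg.Prelude.Def_CaseTheorems
import Cfsg.Agent.Lib.Helper23.PLen
import Cfsg.Agent.Lib.Helper1.SZ
import Cfsg.Agent.Lib.Helper1.ThompsonAux
import Cfsg.Agent.Lib.Helper6.PSolv

set_option autoImplicit false
set_option linter.style.haveILetI false
open Pointwise

/-!
Groups all of whose maximal subgroups are `p`-nilpotent or of prime index have `p`-length at
most two (the upper `p`-series reaches the group at its fourth term).
-/

namespace Cfsg.Agent.Lib.Helper23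

open Cfsg
open Cfsg.Agent.Lib.Helper6 Cfsg.Agent.Lib.Helper14

universe u

section general

variable {G : Type u} [Group G] {p : ℕ}

theorem ups_comap_le [Finite G] [hp : Fact p.Prime] (N : Subgroup G) [hN : N.Normal] (a : ℕ)
    (hN1 : N ≤ (upperPSeries p G (2 * a + 1)).1) (j : ℕ) :
    (upperPSeries p (G ⧸ N) (j + 1)).1.comap (QuotientGroup.mk' N) ≤
      (upperPSeries p G (2 * a + j + 1)).1 := by
  induction j with
  | zero =>
    apply ups_step_merge (A := N) inferInstance (m := 2 * a) (by simp) hN1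
    rw [relIndex_comap_mk]
    have h2 := ups_relIndex_even (p := p) (G := G ⧸ N) (m := 0) (by decide)
    rw [upperPSeries_zero, Subgroup.relIndex_bot_left] at h2
    exact h2
  | succ j ih =>
    have hrel : ((upperPSeries p (G ⧸ N) (j + 1)).1.comap (QuotientGroup.mk' N)).relIndex
        ((upperPSeries p (G ⧸ N) (j + 1 + 1)).1.comap (QuotientGroup.mk' N)) =
        (upperPSeries p (G ⧸ N) (j + 1)).1.relIndex (upperPSeries p (G ⧸ N) (j + 1 + 1)).1 := by
      rw [Subgroup.relIndex_comap,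
        Subgroup.map_comap_eq_self_of_surjective (QuotientGroup.mk'_surjective _)]
    have e : 2 * a + (j + 1) + 1 = (2 * a + j + 1) + 1 := by omega
    rw [e]
    by_cases hj : Even (j + 1)
    · have hj' : Even (2 * a + j + 1) := by
        have : 2 * a + j + 1 = 2 * a + (j + 1) := by omega
        rw [this]
        exact (even_two_mul a).add hj
      apply ups_step_even inferInstance hj' ih
      rw [hrel]
      exact ups_relIndex_even hj
    · have hj' : ¬ Even (2 * a + j + 1) := by
        intro h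
        apply hj
        have : 2 * a + j + 1 = 2 * a + (j + 1) := by omega
        rw [this] at h
        exact (Nat.even_add.mp h).mp (even_two_mul a)
      apply ups_step_odd inferInstance hj' ih
      rw [hrel]
      exact ups_relIndex_odd hj

/-- `X` has a normal subgroup of order prime to `p` and index a power of `p`. -/
def PNil (p : ℕ) (X : Type u) [Group X] : Prop :=
  ∃ K : Subgroup X, K.Normal ∧ ¬ p ∣ Nat.card K ∧ ∃ k : ℕ, K.index = p ^ k

theorem PNil.of_surjective {X Y : Type u} [Group X] [Group Y] [Finite X] (hp : p.Prime)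
    (f : X →* Y) (hf : Function.Surjective f) (h : PNil p X) : PNil p Y := by
  obtain ⟨K, hK, hKp, k, hk⟩ := h
  refine ⟨K.map f, hK.map f hf, fun hdvd => hKp (hdvd.trans (Subgroup.card_map_dvd K f)), ?_⟩
  have h1 : (K.map f).index ∣ p ^ k := hk ▸ Subgroup.index_map_dvd K hf
  obtain ⟨j, -, hj⟩ := (Nat.dvd_prime_pow hp).mp h1
  exact ⟨j, hj⟩

/-- Every maximal subgroup is `p`-nilpotent or has prime index. -/
def MaxHyp (p : ℕ) (G : Type u) [Group G] : Prop :=
  ∀ M : Subgroup G, IsCoatom M → PNil p ↥M ∨ M.index.Prime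

theorem isCoatom_comap_mk (N : Subgroup G) [N.Normal] (M : Subgroup (G ⧸ N)) (hM : IsCoatom M) :
    IsCoatom (M.comap (QuotientGroup.mk' N)) := by
  have hs := QuotientGroup.mk'_surjective N
  constructor
  · intro h
    apply hM.1
    rw [← Subgroup.map_comap_eq_self_of_surjective hs M, h, ← MonoidHom.range_eq_map,
      MonoidHom.range_eq_top.mpr hs]
  · intro L hL
    have hker : (QuotientGroup.mk' N).ker ≤ L := by
      refine le_trans ?_ hL.le
      intro x hx
      rw [Subgroup.mem_comap, MonoidHom.mem_ker.mp hx]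
      exact M.one_mem
    have h1 : M ≤ L.map (QuotientGroup.mk' N) := by
      rw [← Subgroup.map_comap_eq_self_of_surjective hs M]
      exact Subgroup.map_mono hL.le
    have h2 : M ≠ L.map (QuotientGroup.mk' N) := by
      intro h
      apply hL.not_ge
      rw [h]
      exact Subgroup.le_comap_map _ _
    have h3 := hM.2 _ (lt_of_le_of_ne h1 h2)
    rw [← Subgroup.comap_map_eq_self hker, h3, Subgroup.comap_top]

theorem MaxHyp.quotient [Finite G] (hp : p.Prime) (N : Subgroup G) [N.Normal]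
    (h : MaxHyp p G) : MaxHyp p (G ⧸ N) := by
  intro M hM
  rcases h _ (isCoatom_comap_mk N M hM) with h1 | h1
  · left
    exact PNil.of_surjective hp ((QuotientGroup.mk' N).subgroupComap M)
      ((QuotientGroup.mk' N).subgroupComap_surjective_of_surjective M
        (QuotientGroup.mk'_surjective N)) h1
  · right
    rwa [Subgroup.index_comap_of_surjective M (QuotientGroup.mk'_surjective N)] at h1

/-- A `p`-element centralizes a normal section of order `p`. -/
theorem comm_mem_of_relIndex_prime [Finite G] [hp : Fact p.Prime] (D F : Subgroup G)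
    [hD : D.Normal] [hF : F.Normal] (hDF : D.relIndex F = p) (x : G) (e : ℕ)
    (hx : x ^ p ^ e = 1) (f : G) (hf : f ∈ F) : x * f * x⁻¹ * f⁻¹ ∈ D := by
  haveI hFn : (F.map (QuotientGroup.mk' D)).Normal := hF.map _ (QuotientGroup.mk'_surjective D)
  have hcard : Nat.card ↥(F.map (QuotientGroup.mk' D)) = p := by
    rw [← Subgroup.relIndex_ker, QuotientGroup.ker_mk', hDF]
  haveI : IsCyclic ↥(F.map (QuotientGroup.mk' D)) := isCyclic_of_prime_card hcard
  have hA : Nat.card (MulAut ↥(F.map (QuotientGroup.mk' D))) = p - 1 := by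
    rw [IsCyclic.card_mulAut, hcard, Nat.totient_prime hp.out]
  have h1 : orderOf (MulAut.conjNormal (H := F.map (QuotientGroup.mk' D))
      (QuotientGroup.mk' D x)) ∣ p ^ e := by
    apply orderOf_dvd_of_pow_eq_one
    rw [← map_pow, ← map_pow, hx, map_one, map_one]
  have h2 : orderOf (MulAut.conjNormal (H := F.map (QuotientGroup.mk' D))
      (QuotientGroup.mk' D x)) ∣ p - 1 := hA ▸ orderOf_dvd_natCard _
  have hcop : (p ^ e).Coprime (p - 1) := by
    apply Nat.Coprime.pow_left
    have h1p : 1 ≤ p := hp.out.one_lt.le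
    have h3 : Nat.gcd p (p - 1) ∣ 1 := by
      have ha := Nat.gcd_dvd_left p (p - 1)
      have hb := Nat.gcd_dvd_right p (p - 1)
      have h4 := Nat.dvd_sub ha hb
      rwa [Nat.sub_sub_self h1p] at h4
    exact Nat.dvd_one.mp h3
  have h3 : orderOf (MulAut.conjNormal (H := F.map (QuotientGroup.mk' D))
      (QuotientGroup.mk' D x)) = 1 := by
    have h4 := Nat.dvd_gcd h1 h2
    rw [hcop.gcd_eq_one] at h4
    exact Nat.dvd_one.mp h4
  rw [orderOf_eq_one_iff] at h3
  have h5 : MulAut.conjNormal (H := F.map (QuotientGroup.mk' D)) (QuotientGroup.mk' D x)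
      ⟨QuotientGroup.mk' D f, Subgroup.mem_map_of_mem _ hf⟩ =
      ⟨QuotientGroup.mk' D f, Subgroup.mem_map_of_mem _ hf⟩ := by
    rw [h3]
    rfl
  have h6 := congrArg Subtype.val h5
  rw [MulAut.conjNormal_apply] at h6
  have h7 : QuotientGroup.mk' D (x * f * x⁻¹ * f⁻¹) = 1 := by
    rw [map_mul, map_mul, map_mul, map_inv, map_inv]
    have h8 : QuotientGroup.mk' D x * QuotientGroup.mk' D f * (QuotientGroup.mk' D x)⁻¹ =
        QuotientGroup.mk' D f := h6
    rw [h8, mul_inv_cancel]
  exact (QuotientGroup.eq_one_iff _).mp h7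

/-- Factoring out a normal `p`-subgroup inside the Frattini subgroup keeps `O_{p'}` trivial. -/
theorem pPrimeCore_quotient_eq_bot_of_le_frattini [Finite G] [hp : Fact p.Prime]
    (Φ₀ : Subgroup G) [hΦ : Φ₀.Normal] (hΦF : Φ₀ ≤ frattini G) (hΦp : IsPGroup p Φ₀)
    (hO : pPrimeCore p G = ⊥) : pPrimeCore p (G ⧸ Φ₀) = ⊥ := by
  obtain ⟨R, hRdef⟩ : ∃ R : Subgroup G,
      R = (pPrimeCore p (G ⧸ Φ₀)).comap (QuotientGroup.mk' Φ₀) := ⟨_, rfl⟩
  haveI hRn : R.Normal := by rw [hRdef]; infer_instance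
  have hΦR : Φ₀ ≤ R := by
    rw [hRdef]
    intro x hx
    rw [Subgroup.mem_comap]
    have h1 : QuotientGroup.mk' Φ₀ x = 1 := (QuotientGroup.eq_one_iff x).mpr hx
    rw [h1]
    exact Subgroup.one_mem _
  have hrel : (Φ₀.relIndex R).Coprime p := by
    rw [hRdef, relIndex_comap_mk]
    exact pPrimeCore_coprime p
  obtain ⟨k, hk⟩ := IsPGroup.iff_card.mp hΦp
  have hcop : (Nat.card ↥(Φ₀.subgroupOf R)).Coprime (Φ₀.subgroupOf R).index := by
    rw [Nat.card_congr (Subgroup.subgroupOfEquivOfLe hΦR).toEquiv, hk]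
    exact Nat.Coprime.pow_left k hrel.symm
  obtain ⟨Q, hQ⟩ := Subgroup.exists_right_complement'_of_coprime hcop
  obtain ⟨Q₀, hQ₀def⟩ : ∃ Q₀ : Subgroup G, Q₀ = Q.map R.subtype := ⟨_, rfl⟩
  have hQ₀card : Nat.card Q₀ = Φ₀.relIndex R := by
    rw [hQ₀def, Subgroup.card_map_of_injective R.subtype_injective]
    exact hQ.symm.index_eq_card.symm
  have hsup : Φ₀ ⊔ Q₀ = R := by
    have h1 := congrArg (Subgroup.map R.subtype) hQ.sup_eq_top
    rw [Subgroup.map_sup, Subgroup.map_subgroupOf_eq_of_le hΦR, ← hQ₀def,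
      ← MonoidHom.range_eq_map, Subgroup.range_subtype] at h1
    exact h1
  have hQ₀cop : (Nat.card Q₀).Coprime (Nat.card Φ₀) := by
    rw [hQ₀card, hk]
    exact Nat.Coprime.pow_right k hrel
  haveI : Group.IsNilpotent ↥Φ₀ := hΦp.isNilpotent
  have hnorm : Subgroup.normalizer (Q₀ : Set G) = ⊤ := by
    apply frattini_nongenerating
    rw [eq_top_iff]
    intro g _
    have hB : MulAut.conj g • Q₀ ≤ Φ₀ ⊔ Q₀ := by
      rw [hsup]
      intro y hy
      rw [Cfsg.Agent.Lib.Helper1.mem_conj_smul_iff] at hy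
      have hy2 : g⁻¹ * y * g ∈ R := hsup ▸ (le_sup_right : Q₀ ≤ Φ₀ ⊔ Q₀) hy
      have h3 := hRn.conj_mem _ hy2 g
      have e : g * (g⁻¹ * y * g) * g⁻¹ = y := by group
      rwa [e] at h3
    have hAK : Q₀ ≤ Subgroup.normalizer (Φ₀ : Set G) := by
      rw [Subgroup.normalizer_eq_top_iff.mpr hΦ]
      exact le_top
    obtain ⟨c, hc, hconj⟩ := Cfsg.Agent.Lib.Helper1.sz_conj_rel Q₀ Φ₀ hAK hQ₀cop
      (Or.inr inferInstance) (MulAut.conj g • Q₀) hB
      (Cfsg.Agent.Lib.Helper1.card_conj_smul g Q₀)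
    have h4 : c⁻¹ * g ∈ Subgroup.normalizer (Q₀ : Set G) := by
      apply Cfsg.Agent.Lib.Helper1.mem_normalizer_of_conj_smul_eq
      rw [Cfsg.Agent.Lib.Helper1.conj_mul_smul, ← hconj,
        ← Cfsg.Agent.Lib.Helper1.conj_mul_smul, inv_mul_cancel, map_one, one_smul]
    have e : g = (c⁻¹ * g) * (g⁻¹ * c * g) := by group
    rw [e]
    apply Subgroup.mul_mem_sup h4
    apply hΦF
    have h5 := hΦ.conj_mem c hc g⁻¹
    rwa [inv_inv] at h5
  have hQ₀n : Q₀.Normal := Subgroup.normalizer_eq_top_iff.mp hnorm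
  have hQ₀bot : Q₀ = ⊥ := by
    have h1 := le_pPrimeCore p hQ₀n (hQ₀card ▸ hrel)
    rw [hO] at h1
    exact le_bot_iff.mp h1
  rw [hQ₀bot, sup_bot_eq] at hsup
  rw [← Subgroup.map_comap_eq_self_of_surjective (QuotientGroup.mk'_surjective Φ₀)
    (pPrimeCore p (G ⧸ Φ₀)), ← hRdef, ← hsup, QuotientGroup.map_mk'_self]

/-- The preimage of `O_p` of a quotient by a normal `p`-subgroup lies in `O_p`. -/
theorem comap_pCore_le_pCore [Finite G] [hp : Fact p.Prime] (Φ₀ : Subgroup G) [hΦ : Φ₀.Normal]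
    (hΦp : IsPGroup p Φ₀) : (pCore p (G ⧸ Φ₀)).comap (QuotientGroup.mk' Φ₀) ≤ pCore p G := by
  apply le_pCore p inferInstance
  rw [IsPGroup.iff_card]
  obtain ⟨a, ha⟩ := IsPGroup.iff_card.mp hΦp
  obtain ⟨b, hb⟩ := IsPGroup.iff_card.mp (pCore_isPGroup p (G := G ⧸ Φ₀))
  refine ⟨a + b, ?_⟩
  have hle : Φ₀ ≤ (pCore p (G ⧸ Φ₀)).comap (QuotientGroup.mk' Φ₀) := by
    intro x hx
    rw [Subgroup.mem_comap]
    have h1 : QuotientGroup.mk' Φ₀ x = 1 := (QuotientGroup.eq_one_iff x).mpr hx
    rw [h1]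
    exact Subgroup.one_mem _
  have h1 := relIndex_comap_mk Φ₀ (pCore p (G ⧸ Φ₀))
  have h2 := Subgroup.relIndex_mul_relIndex ⊥ Φ₀
    ((pCore p (G ⧸ Φ₀)).comap (QuotientGroup.mk' Φ₀)) bot_le hle
  rw [Subgroup.relIndex_bot_left, Subgroup.relIndex_bot_left, h1, ha, hb] at h2
  rw [← h2, pow_add]

/-- If `F` is normal and `M` supplements it, then `|M : F ⊓ M| = |G : F|` and so
`|F : F ⊓ M| = |G : M|`. -/
theorem relIndex_eq_index_of_sup_eq_top [Finite G] (F M : Subgroup G) [hF : F.Normal]
    (hFM : F ⊔ M = ⊤) : M.relIndex F = M.index := by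
  have h1 : F.index = F.relIndex M := by
    rw [← Subgroup.relIndex_top_right, ← hFM, Subgroup.relIndex_sup_left]
  have h2 : (F ⊓ M).relIndex M = F.relIndex M := Subgroup.inf_relIndex_right F M
  have h3 : (F ⊓ M).relIndex F = M.relIndex F := Subgroup.inf_relIndex_left F M
  have h4 := Subgroup.relIndex_mul_relIndex ⊥ (F ⊓ M) M bot_le inf_le_right
  have h5 := Subgroup.relIndex_mul_relIndex ⊥ (F ⊓ M) F bot_le inf_le_left
  rw [Subgroup.relIndex_bot_left, Subgroup.relIndex_bot_left] at h4 h5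
  have h6 := Subgroup.card_mul_index F
  have h7 := Subgroup.card_mul_index M
  have hpos : 0 < Nat.card ↥M := Nat.card_pos
  have h8 : Nat.card ↥M * M.relIndex F = Nat.card ↥M * M.index := by
    rw [h7, ← h6, ← h5, ← h4, h1, h2, h3]
    ring
  exact Nat.eq_of_mul_eq_mul_left hpos h8

end general

section main

variable {G : Type u} [Group G] [Finite G] {p : ℕ} [hp : Fact p.Prime]

/-- In a `p`-solvable group with `O_{p'} = 1` in which every maximal subgroup not containing
`O_p` has prime index, `O_p` is a Sylow `p`-subgroup. -/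
theorem index_pCore_coprime (hsol : IsPSolvable p G) (hO : pPrimeCore p G = ⊥)
    (hM : ∀ M : Subgroup G, IsCoatom M → ¬ pCore p G ≤ M → M.index.Prime) :
    ((pCore p G).index).Coprime p := by
  obtain ⟨F, hFdef⟩ : ∃ F : Subgroup G, F = pCore p G := ⟨_, rfl⟩
  haveI hFn : F.Normal := hFdef ▸ inferInstance
  have hFp : IsPGroup p F := hFdef ▸ pCore_isPGroup p
  obtain ⟨Φ₀, hΦdef⟩ : ∃ Φ₀ : Subgroup G, Φ₀ = frattini G ⊓ F := ⟨_, rfl⟩
  haveI hfn : (frattini G).Normal := inferInstance
  haveI hΦn : Φ₀.Normal := by rw [hΦdef]; infer_instance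
  have hΦF : Φ₀ ≤ frattini G := hΦdef ▸ inf_le_left
  have hΦp : IsPGroup p Φ₀ := hFp.to_le (hΦdef ▸ inf_le_right)
  have key : ∀ x : G, ∀ e : ℕ, x ^ p ^ e = 1 → ∀ f ∈ F, x * f * x⁻¹ * f⁻¹ ∈ Φ₀ := by
    intro x e hx f hf
    have hcF : x * f * x⁻¹ * f⁻¹ ∈ F := F.mul_mem (hFn.conj_mem f hf x) (F.inv_mem hf)
    rw [hΦdef]
    refine Subgroup.mem_inf.mpr ⟨?_, hcF⟩
    unfold frattini Order.radical
    simp only [Subgroup.mem_iInf]
    intro M hMc
    by_cases hFM : F ≤ M
    · exact hFM hcF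
    · have hpr := hM M hMc (hFdef ▸ hFM)
      have hsup : F ⊔ M = ⊤ := by
        apply hMc.2
        apply lt_of_le_of_ne le_sup_right
        intro h
        apply hFM
        rw [h]
        exact le_sup_left
      have hrel := relIndex_eq_index_of_sup_eq_top F M hsup
      obtain ⟨a, ha⟩ := IsPGroup.iff_card.mp hFp
      have hdvd : M.index ∣ p ^ a := by
        rw [← hrel, ← ha]
        exact Subgroup.relIndex_dvd_card M F
      have hidx : M.index = p := (Nat.prime_dvd_prime_iff_eq hpr hp.out).mp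
        (hpr.dvd_of_dvd_pow hdvd)
      have ha0 : a ≠ 0 := by
        rintro rfl
        rw [pow_zero] at hdvd
        exact hpr.one_lt.ne' (Nat.dvd_one.mp hdvd)
      obtain ⟨D, hDdef⟩ : ∃ D : Subgroup G, D = F ⊓ M := ⟨_, rfl⟩
      have hDF : D.relIndex F = p := by
        rw [hDdef, Subgroup.inf_relIndex_left, hrel, hidx]
      have hDnF : (D.subgroupOf F).Normal := by
        apply Subgroup.normal_of_index_eq_minFac_card
        rw [ha, Nat.Prime.pow_minFac hp.out ha0]
        exact hDF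
      haveI hDn : D.Normal := by
        apply Subgroup.normalizer_eq_top_iff.mp
        rw [eq_top_iff, ← hsup]
        apply sup_le
        · intro y hy
          apply Cfsg.Agent.Lib.Helper1.mem_normalizer_of_conj_mem
          intro d hd
          have hdF : d ∈ F := (hDdef ▸ hd : d ∈ F ⊓ M).1
          have h1 := hDnF.conj_mem ⟨d, hdF⟩ (Subgroup.mem_subgroupOf.mpr hd) ⟨y, hy⟩
          exact Subgroup.mem_subgroupOf.mp h1
        · intro y hy
          apply Cfsg.Agent.Lib.Helper1.mem_normalizer_of_conj_mem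
          intro d hd
          have hd' : d ∈ F ⊓ M := hDdef ▸ hd
          rw [hDdef]
          exact ⟨hFn.conj_mem d hd'.1 y, M.mul_mem (M.mul_mem hy hd'.2) (M.inv_mem hy)⟩
      have h9 := comm_mem_of_relIndex_prime D F hDF x e hx f hf
      exact (hDdef ▸ h9 : x * f * x⁻¹ * f⁻¹ ∈ F ⊓ M).2
  have hO' : pPrimeCore p (G ⧸ Φ₀) = ⊥ :=
    pPrimeCore_quotient_eq_bot_of_le_frattini Φ₀ hΦF hΦp hO
  have hsol' : IsPSolvable p (G ⧸ Φ₀) := isPSolvable_quotient hp.out Φ₀ hsol
  have hcent := centralizer_pCore_le_of_isPSolvable hsol' hO'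
  obtain ⟨P⟩ : Nonempty (Sylow p G) := inferInstance
  have hPF : (P : Subgroup G) ≤ F := by
    intro x hxP
    obtain ⟨e, he⟩ := P.isPGroup' ⟨x, hxP⟩
    have hx : x ^ p ^ e = 1 := by
      have := congrArg Subtype.val he
      simpa using this
    have h1 : QuotientGroup.mk' Φ₀ x ∈ Subgroup.centralizer (pCore p (G ⧸ Φ₀) : Set (G ⧸ Φ₀)) := by
      rw [Subgroup.mem_centralizer_iff]
      intro z hz
      obtain ⟨f, rfl⟩ := QuotientGroup.mk'_surjective Φ₀ z
      have hfF : f ∈ F := by
        rw [hFdef]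
        exact comap_pCore_le_pCore Φ₀ hΦp (Subgroup.mem_comap.mpr hz)
      have h2 := key x e hx f hfF
      have h3 : QuotientGroup.mk' Φ₀ (x * f * x⁻¹ * f⁻¹) = 1 := (QuotientGroup.eq_one_iff _).mpr h2
      rw [map_mul, map_mul, map_mul, map_inv, map_inv] at h3
      have h4 := mul_inv_eq_one.mp h3
      have h5 := mul_inv_eq_iff_eq_mul.mp h4
      exact h5.symm
    have h2 := hcent h1
    rw [hFdef]
    exact comap_pCore_le_pCore Φ₀ hΦp (Subgroup.mem_comap.mpr h2)
  rw [← hFdef]
  have h1 : F.index ∣ (P : Subgroup G).index := Subgroup.index_dvd_of_le hPF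
  have h2 : ¬ p ∣ F.index := fun h => P.not_dvd_index (h.trans h1)
  exact ((Nat.Prime.coprime_iff_not_dvd hp.out).mpr h2).symm

/-- A `p`-nilpotent supplement of a normal subgroup `F` gives a normal subgroup above `F` of
`p`-power index and of index prime to `p` over `F`. -/
theorem exists_normal_of_pnil_supplement (F M : Subgroup G) [hF : F.Normal]
    (hFM : F ⊔ M = ⊤) (hM : PNil p ↥M) :
    ∃ L : Subgroup G, L.Normal ∧ F ≤ L ∧ (F.relIndex L).Coprime p ∧ ∃ j : ℕ, L.index = p ^ j := by
  obtain ⟨K, hKn, hKp, k, hk⟩ := hM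
  obtain ⟨K₀, hK₀def⟩ : ∃ K₀ : Subgroup G, K₀ = K.map M.subtype := ⟨_, rfl⟩
  have hK₀card : Nat.card K₀ = Nat.card K := by
    rw [hK₀def, Subgroup.card_map_of_injective M.subtype_injective]
  have hLn : (F ⊔ K₀).Normal := by
    apply Subgroup.normalizer_eq_top_iff.mp
    rw [eq_top_iff, ← hFM]
    apply sup_le
    · exact le_sup_left.trans Subgroup.le_normalizer
    · intro m hm
      apply Cfsg.Agent.Lib.Helper1.mem_normalizer_of_conj_mem
      intro x hx
      have h1 : (F ⊔ K₀).map (MulAut.conj m).toMonoidHom ≤ F ⊔ K₀ := by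
        rw [Subgroup.map_sup]
        apply sup_le_sup
        · rintro y ⟨f, hf, rfl⟩
          exact hF.conj_mem f hf m
        · rintro y ⟨c, hc, rfl⟩
          rw [hK₀def] at hc ⊢
          obtain ⟨c', hc', rfl⟩ := hc
          exact ⟨⟨m, hm⟩ * c' * ⟨m, hm⟩⁻¹, hKn.conj_mem c' hc' ⟨m, hm⟩, rfl⟩
      exact h1 ⟨x, hx, rfl⟩
  refine ⟨F ⊔ K₀, hLn, le_sup_left, ?_, ?_⟩
  · rw [Subgroup.relIndex_sup_left]
    have h1 : F.relIndex K₀ ∣ Nat.card K := hK₀card ▸ Subgroup.relIndex_dvd_card F K₀
    exact Nat.Coprime.coprime_dvd_left h1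
      ((Nat.Prime.coprime_iff_not_dvd hp.out).mpr hKp).symm
  · have h1 : (F ⊔ K₀) ⊔ M = ⊤ := by
      rw [eq_top_iff, ← hFM]
      exact sup_le_sup_right le_sup_left M
    have h2 : (F ⊔ K₀).index = (F ⊔ K₀).relIndex M := by
      rw [← Subgroup.relIndex_top_right, ← h1, Subgroup.relIndex_sup_left]
    have h3 : (F ⊔ K₀).relIndex M ∣ K₀.relIndex M :=
      Subgroup.relIndex_dvd_of_le_left M le_sup_right
    have h4 : K₀.relIndex M = K.index := by
      have : K₀.subgroupOf M = K := by
        rw [hK₀def]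
        exact Subgroup.comap_map_eq_self_of_injective M.subtype_injective K
      unfold Subgroup.relIndex
      rw [this]
    rw [h4, hk, ← h2] at h3
    obtain ⟨j, -, hj⟩ := (Nat.dvd_prime_pow hp.out).mp h3
    exact ⟨j, hj⟩

omit [Finite G] in
/-- **Main theorem**: a finite `p`-solvable group all of whose maximal subgroups are
`p`-nilpotent or of prime index has `O_{p',p,p',p}(G) = G`. -/
theorem ups_four_eq_top_aux : ∀ (n : ℕ) (G : Type u) [Group G] [Finite G], Nat.card G = n →
    IsPSolvable p G → MaxHyp p G → (upperPSeries p G 4).1 = ⊤ := by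
  intro n
  induction n using Nat.strong_induction_on with
  | _ n ih =>
    intro G _ _ hcard hsol hmax
    by_cases hO : pPrimeCore p G = ⊥
    · obtain ⟨F, hFdef⟩ : ∃ F : Subgroup G, F = pCore p G := ⟨_, rfl⟩
      haveI hFn : F.Normal := hFdef ▸ inferInstance
      have hFp : IsPGroup p F := hFdef ▸ pCore_isPGroup p
      have hF2 : F ≤ (upperPSeries p G 2).1 := by
        apply ups_step_odd (A := ⊥) hFn (m := 1) (by decide) bot_le
        rw [Subgroup.relIndex_bot_left]
        exact IsPGroup.iff_card.mp hFp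
      by_cases hex : ∃ M : Subgroup G, IsCoatom M ∧ ¬ F ≤ M ∧ PNil p ↥M
      · obtain ⟨M, hMc, hFM, hMnil⟩ := hex
        have hsup : F ⊔ M = ⊤ := by
          apply hMc.2
          apply lt_of_le_of_ne le_sup_right
          intro h
          apply hFM
          rw [h]
          exact le_sup_left
        obtain ⟨L, hLn, hFL, hcop, j, hj⟩ := exists_normal_of_pnil_supplement F M hsup hMnil
        have hL3 : L ≤ (upperPSeries p G 3).1 :=
          ups_step_even (A := F) hLn (m := 2) (by decide) hF2 hcop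
        apply top_le_iff.mp
        apply ups_step_odd (A := L) (inferInstance : (⊤ : Subgroup G).Normal) (m := 3)
          (by decide) hL3
        exact ⟨j, by rw [Subgroup.relIndex_top_right]; exact hj⟩
      · have hM' : ∀ M : Subgroup G, IsCoatom M → ¬ pCore p G ≤ M → M.index.Prime := by
          intro M hMc hFM
          rcases hmax M hMc with h | h
          · exact absurd ⟨M, hMc, hFdef ▸ hFM, h⟩ hex
          · exact h
        have hcop := index_pCore_coprime hsol hO hM'
        rw [← hFdef] at hcop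
        apply top_le_iff.mp
        refine le_trans ?_ (ups_mono 3)
        apply ups_step_even (A := F) (inferInstance : (⊤ : Subgroup G).Normal) (m := 2)
          (by decide) hF2
        rw [Subgroup.relIndex_top_right]
        exact hcop
    · obtain ⟨N, hNdef⟩ : ∃ N : Subgroup G, N = pPrimeCore p G := ⟨_, rfl⟩
      haveI hNn : N.Normal := hNdef ▸ inferInstance
      have hN1 : N ≤ (upperPSeries p G (2 * 0 + 1)).1 := by
        apply ups_step_even (A := ⊥) hNn (m := 0) (by decide) bot_le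
        rw [Subgroup.relIndex_bot_left, hNdef]
        exact pPrimeCore_coprime p
      have hlt : Nat.card (G ⧸ N) < n := by
        rw [← hcard, Subgroup.card_eq_card_quotient_mul_card_subgroup N]
        have h1 : 1 < Nat.card ↥N := (Subgroup.one_lt_card_iff_ne_bot N).mpr (hNdef ▸ hO)
        have h2 : 0 < Nat.card (G ⧸ N) := Nat.card_pos
        nlinarith
      have h1 := ih _ hlt (G ⧸ N) rfl (isPSolvable_quotient hp.out N hsol)
        (MaxHyp.quotient hp.out N hmax)
      have h2 := ups_comap_le (p := p) N 0 hN1 3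
      rw [h1, Subgroup.comap_top] at h2
      exact top_le_iff.mp h2

theorem ups_four_eq_top (hsol : IsPSolvable p G) (hmax : MaxHyp p G) :
    (upperPSeries p G 4).1 = ⊤ :=
  ups_four_eq_top_aux (Nat.card G) G rfl hsol hmax

end main

end Cfsg.Agent.Lib.Helper23
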