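import Mathlib
import Cfsg.Agent.Lib.Lead.Frobenius
import Cfsg.Agent.Lib.Helper2.CharCover

set_option autoImplicit false

/-!
Wielandt's generalization of Frobenius' theorem: if `H₀` is a normal subgroup of `H ≤ G` and
`H ∩ g H g⁻¹ ≤ H₀` for all `g ∉ H`, then there is a normal subgroup `M` of `G` with
`M ∩ H = H₀` and `|G| |H₀| ≤ |M| |H|` (so `G = M H`).
Proof by exceptional characters, reusing the extension `frobExt` of the Frobenius file.
-/

namespace Cfsg.Agent.Lib.Helper23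

open Cfsg.Agent.Lib.Helper2 Cfsg.Agent.Lib.Helper21 Cfsg.Agent.Lib.Lead
open scoped ComplexConjugate Pointwise

universe u

section wie

variable {G : Type u} [Group G]

theorem wie_conj_mem {H H₀ : Subgroup G}
    (hW : ∀ g : G, g ∉ H → ∀ x ∈ H, g⁻¹ * x * g ∈ H → x ∈ H₀) {h x : G}
    (hh : h ∈ H) (h0 : h ∉ H₀) (hx : x⁻¹ * h * x ∈ H) : x ∈ H := by
  by_contra hxH
  exact h0 (hW x hxH h hh hx)

theorem wie_conj_mem0 {H H₀ : Subgroup G}
    (hnorm : ∀ h ∈ H, ∀ x ∈ H₀, h * x * h⁻¹ ∈ H₀)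
    (hW : ∀ g : G, g ∉ H → ∀ x ∈ H, g⁻¹ * x * g ∈ H → x ∈ H₀) {h x : G}
    (hh : h ∈ H) (h0 : h ∈ H₀) (hx : x⁻¹ * h * x ∈ H) : x⁻¹ * h * x ∈ H₀ := by
  by_cases hxH : x ∈ H
  · have := hnorm x⁻¹ (H.inv_mem hxH) h h0
    rwa [inv_inv] at this
  · have hxi : x⁻¹ ∉ H := fun hc => hxH (by simpa using H.inv_mem hc)
    apply hW x⁻¹ hxi (x⁻¹ * h * x) hx
    have e : (x⁻¹)⁻¹ * (x⁻¹ * h * x) * x⁻¹ = h := by group
    rw [e]; exact hh

variable [Fintype G]

theorem indFun_wie (H H₀ : Subgroup G) [Fintype H]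
    (hW : ∀ g : G, g ∉ H → ∀ x ∈ H, g⁻¹ * x * g ∈ H → x ∈ H₀) (θ : H → ℂ)
    (hθ : Cfsg.IsClassFunction H θ) {h : G} (hh : h ∈ H) (h0 : h ∉ H₀) :
    Cfsg.indFun H θ h = θ ⟨h, hh⟩ := by
  rw [indFun_apply]
  have key : ∀ x : G, Cfsg.extendByZero H θ (x⁻¹ * h * x)
      = Cfsg.extendByZero H (fun _ : H => θ ⟨h, hh⟩) x := by
    intro x
    by_cases hx : x ∈ H
    · have hx' : x⁻¹ * h * x ∈ H := H.mul_mem (H.mul_mem (H.inv_mem hx) hh) hx
      rw [extendByZero_of_mem H θ hx', extendByZero_of_mem H _ hx]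
      have h2 := hθ ⟨h, hh⟩ (⟨x, hx⟩⁻¹ : H)
      rw [← h2]
      congr 1
      ext
      simp
    · have hx' : x⁻¹ * h * x ∉ H := fun hc => hx (wie_conj_mem hW hh h0 hc)
      rw [extendByZero_of_not_mem H θ hx', extendByZero_of_not_mem H _ hx]
  simp only [key]
  rw [sum_extendByZero, Finset.sum_const, Finset.card_univ, nsmul_eq_mul,
    ← Nat.card_eq_fintype_card (α := H)]
  have hH0 : (Nat.card H : ℂ) ≠ 0 := card_ne_zero_complex H
  field_simp

theorem indFun_wie_zero (H H₀ : Subgroup G) (θ : H → ℂ)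
    (hθ0 : ∀ h : H, (h : G) ∈ H₀ → θ h = 0) {g : G}
    (hg : ∀ x : G, x⁻¹ * g * x ∈ H → x⁻¹ * g * x ∈ H₀) : Cfsg.indFun H θ g = 0 := by
  rw [indFun_apply]
  have key : ∀ x : G, Cfsg.extendByZero H θ (x⁻¹ * g * x) = 0 := by
    intro x
    by_cases hx : x⁻¹ * g * x ∈ H
    · rw [extendByZero_of_mem H θ hx]
      exact hθ0 ⟨_, hx⟩ (hg x hx)
    · exact extendByZero_of_not_mem H θ hx
  simp [key]

theorem wieExt_coe (H H₀ : Subgroup G) [Fintype H]
    (hnorm : ∀ h ∈ H, ∀ x ∈ H₀, h * x * h⁻¹ ∈ H₀)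
    (hW : ∀ g : G, g ∉ H → ∀ x ∈ H, g⁻¹ * x * g ∈ H → x ∈ H₀) {φ : H → ℂ}
    (hφ : Cfsg.IsClassFunction H φ) (hφ0 : ∀ h : H, (h : G) ∈ H₀ → φ h = φ 1) (h : H) :
    frobExt H φ (h : G) = φ h := by
  rw [frobExt_apply]
  by_cases h0 : (h : G) ∈ H₀
  · have hz : ∀ a : H, (a : G) ∈ H₀ → (φ - (φ 1) • (fun _ : H => (1 : ℂ))) a = 0 := by
      intro a ha
      simp only [Pi.sub_apply, Pi.smul_apply, smul_eq_mul, mul_one]
      rw [hφ0 a ha, sub_self]
    rw [indFun_wie_zero H H₀ _ hz (fun x hx => wie_conj_mem0 hnorm hW h.2 h0 hx), zero_add,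
      hφ0 h h0]
  · have hcf : Cfsg.IsClassFunction H (φ - (φ 1) • (fun _ : H => (1 : ℂ))) := by
      intro a b
      simp only [Pi.sub_apply, Pi.smul_apply, smul_eq_mul, mul_one]
      rw [hφ a b]
    rw [indFun_wie H H₀ hW _ hcf h.2 h0]
    simp

theorem wieExt_one (H H₀ : Subgroup G) [Fintype H]
    (hnorm : ∀ h ∈ H, ∀ x ∈ H₀, h * x * h⁻¹ ∈ H₀)
    (hW : ∀ g : G, g ∉ H → ∀ x ∈ H, g⁻¹ * x * g ∈ H → x ∈ H₀) {φ : H → ℂ}
    (hφ : Cfsg.IsClassFunction H φ) (hφ0 : ∀ h : H, (h : G) ∈ H₀ → φ h = φ 1) :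
    frobExt H φ 1 = φ 1 := by
  have := wieExt_coe H H₀ hnorm hW hφ hφ0 1
  simpa using this

theorem wieExt_of_not_conj (H H₀ : Subgroup G) {φ : H → ℂ}
    (hφ0 : ∀ h : H, (h : G) ∈ H₀ → φ h = φ 1) {g : G}
    (hg : ∀ x : G, x⁻¹ * g * x ∈ H → x⁻¹ * g * x ∈ H₀) : frobExt H φ g = φ 1 := by
  have hz : ∀ a : H, (a : G) ∈ H₀ → (φ - (φ 1) • (fun _ : H => (1 : ℂ))) a = 0 := by
    intro a ha
    simp only [Pi.sub_apply, Pi.smul_apply, smul_eq_mul, mul_one]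
    rw [hφ0 a ha, sub_self]
  rw [frobExt_apply, indFun_wie_zero H H₀ _ hz hg, zero_add]

/-- The exceptional extension of an irreducible character of `H` trivial on `H₀` is an
irreducible character of the whole group. -/
theorem wieExt_irr (H H₀ : Subgroup G) [Fintype H]
    (hnorm : ∀ h ∈ H, ∀ x ∈ H₀, h * x * h⁻¹ ∈ H₀)
    (hW : ∀ g : G, g ∉ H → ∀ x ∈ H, g⁻¹ * x * g ∈ H → x ∈ H₀) {φ : H → ℂ}
    (hφ : Cfsg.IsIrrCharacter H φ) (hφ0 : ∀ h : H, (h : G) ∈ H₀ → φ h = φ 1) :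
    Cfsg.IsIrrCharacter G (frobExt H φ) := by
  have hφc := isClassFunction_of_isIrrCharacter hφ
  have hcf := frobExt_isClassFunction H φ
  obtain ⟨n, hn, hn1⟩ := irr_apply_one hφ
  have hres : (fun h : H => frobExt H φ h) = φ :=
    funext (fun h => wieExt_coe H H₀ hnorm hW hφc hφ0 h)
  have hone : Cfsg.IsIrrCharacter H (fun _ : H => (1 : ℂ)) := isIrrCharacter_one
  have honeG : Cfsg.IsIrrCharacter G (fun _ : G => (1 : ℂ)) := isIrrCharacter_one
  apply irr_of_int_norm_one hcf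
  · intro ψ hψ
    rw [classInner_frobExt H φ ψ (isClassFunction_of_isIrrCharacter hψ)]
    have hψH : Cfsg.IsCharacter H (fun h : H => ψ h) :=
      IsCharacter.restrict (isCharacter_of_isIrrCharacter hψ) H
    obtain ⟨a, ha⟩ := classInner_isCharacter_nat (isCharacter_of_isIrrCharacter hφ) hψH
    obtain ⟨b, hb⟩ := classInner_isCharacter_nat (isCharacter_of_isIrrCharacter hone) hψH
    obtain ⟨c, hc⟩ := classInner_isCharacter_nat (isCharacter_of_isIrrCharacter honeG)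
      (isCharacter_of_isIrrCharacter hψ)
    refine ⟨(a : ℤ) - n * b + n * c, ?_⟩
    rw [ha, hb, hc, hn1]
    push_cast
    ring
  · have e0 : Cfsg.classInner (frobExt H φ) (fun _ : G => (1 : ℂ))
        = Cfsg.classInner φ (fun _ : H => (1 : ℂ)) := by
      rw [classInner_frobExt H φ _ (isClassFunction_of_isIrrCharacter honeG)]
      change Cfsg.classInner φ (fun _ : H => (1 : ℂ))
        - φ 1 * Cfsg.classInner (fun _ : H => (1 : ℂ)) (fun _ : H => (1 : ℂ))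
        + φ 1 * Cfsg.classInner (fun _ : G => (1 : ℂ)) (fun _ : G => (1 : ℂ)) = _
      rw [classInner_irr_self hone, classInner_irr_self honeG]
      ring
    have e1 : Cfsg.classInner (fun _ : G => (1 : ℂ)) (frobExt H φ)
        = Cfsg.classInner (fun _ : H => (1 : ℂ)) φ := by
      rw [← classInner_conj_symm, e0, classInner_conj_symm]
    rw [classInner_frobExt H φ _ hcf, hres, e1, classInner_irr_self hφ]
    ring
  · exact ⟨n, hn, by rw [wieExt_one H H₀ hnorm hW hφc hφ0]; exact hn1⟩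

end wie

/-- An element on which every irreducible character takes its degree is trivial. -/
theorem wie_eq_one_of_irr {Q : Type u} [Group Q] [Finite Q] (q : Q)
    (hq : ∀ ψ : Cfsg.IrrCharacter Q, (ψ : Q → ℂ) q = (ψ : Q → ℂ) 1) : q = 1 := by
  classical
  have := Fintype.ofFinite Q
  have := Fintype.ofFinite (Cfsg.IrrCharacter Q)
  by_contra hne
  let δ : Q → ℂ := fun h => if h = 1 then 1 else 0
  have hδ : Cfsg.IsClassFunction Q δ := by
    intro a b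
    have hiff : (b * a * b⁻¹ = 1) ↔ a = 1 := by
      constructor
      · intro h
        have e : a = b⁻¹ * (b * a * b⁻¹) * b := by group
        rw [e, h]; group
      · intro h; rw [h]; group
    simp only [δ, hiff]
  have hexp := class_fun_expand δ hδ
  have e1 := congrFun hexp q
  have e2 := congrFun hexp 1
  simp only [Finset.sum_apply, Pi.smul_apply, smul_eq_mul, hq] at e1
  simp only [Finset.sum_apply, Pi.smul_apply, smul_eq_mul] at e2
  rw [← e2] at e1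
  simp [δ, hne] at e1

theorem wielandt_aux {G : Type u} [Group G] [Fintype G] (H H₀ : Subgroup G) [Fintype H]
    (hle : H₀ ≤ H) (hnorm : ∀ h ∈ H, ∀ x ∈ H₀, h * x * h⁻¹ ∈ H₀)
    (hW : ∀ g : G, g ∉ H → ∀ x ∈ H, g⁻¹ * x * g ∈ H → x ∈ H₀) :
    ∃ M : Subgroup G, M.Normal ∧ M ⊓ H ≤ H₀ ∧ H₀ ≤ M ∧
      ∀ g : G, (∀ x : G, x⁻¹ * g * x ∈ H → x⁻¹ * g * x ∈ H₀) → g ∈ M := by
  classical
  have hker : ∀ φ : {φ : Cfsg.IrrCharacter H //
        ∀ h : H, (h : G) ∈ H₀ → (φ : H → ℂ) h = (φ : H → ℂ) 1},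
      ∃ K : Subgroup G, K.Normal ∧
      ∀ g : G, g ∈ K ↔ frobExt H (φ.1 : H → ℂ) g = frobExt H (φ.1 : H → ℂ) 1 :=
    fun φ => exists_kernel (isCharacter_of_isIrrCharacter (wieExt_irr H H₀ hnorm hW φ.1.2 φ.2))
  choose K hKn hK using hker
  refine ⟨⨅ φ, K φ, Subgroup.normal_iInf_normal hKn, ?_, ?_, ?_⟩
  · rintro x ⟨hxM, hxH⟩
    have hxM' := Subgroup.mem_iInf.mp hxM
    have hval : ∀ φ : {φ : Cfsg.IrrCharacter H //
        ∀ h : H, (h : G) ∈ H₀ → (φ : H → ℂ) h = (φ : H → ℂ) 1},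
        (φ.1 : H → ℂ) ⟨x, hxH⟩ = (φ.1 : H → ℂ) 1 := by
      intro φ
      have hφc := isClassFunction_of_isIrrCharacter φ.1.2
      have h1 := wieExt_coe H H₀ hnorm hW hφc φ.2 ⟨x, hxH⟩
      have h2 := wieExt_one H H₀ hnorm hW hφc φ.2
      rw [← h1, ← h2]
      exact (hK φ x).mp (hxM' φ)
    have hN : (H₀.subgroupOf H).Normal := by
      constructor
      intro n hn g
      rw [Subgroup.mem_subgroupOf] at hn ⊢
      exact hnorm g g.2 n hn
    by_contra hx0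
    have hq : ((⟨x, hxH⟩ : H) : H ⧸ H₀.subgroupOf H) ≠ 1 := by
      intro h
      rw [QuotientGroup.eq_one_iff, Subgroup.mem_subgroupOf] at h
      exact hx0 h
    apply hq
    apply wie_eq_one_of_irr
    intro ψ
    have hinf : Cfsg.IsIrrCharacter H
        ((ψ : H ⧸ H₀.subgroupOf H → ℂ) ∘ (QuotientGroup.mk' (H₀.subgroupOf H))) :=
      isIrrCharacter_comp_of_surjective ψ.2 _ (QuotientGroup.mk'_surjective _)
    have hin : ∀ h : H, (h : G) ∈ H₀ →
        ((ψ : H ⧸ H₀.subgroupOf H → ℂ) ∘ (QuotientGroup.mk' (H₀.subgroupOf H))) h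
          = ((ψ : H ⧸ H₀.subgroupOf H → ℂ) ∘ (QuotientGroup.mk' (H₀.subgroupOf H))) 1 := by
      intro h hh
      have e : (QuotientGroup.mk' (H₀.subgroupOf H)) h = 1 := by
        rw [QuotientGroup.mk'_apply, QuotientGroup.eq_one_iff, Subgroup.mem_subgroupOf]
        exact hh
      simp only [Function.comp_apply, e, map_one]
    have h3 := hval ⟨⟨_, hinf⟩, hin⟩
    simpa using h3
  · intro x hx
    rw [Subgroup.mem_iInf]
    intro φ
    rw [hK φ x]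
    have hφc := isClassFunction_of_isIrrCharacter φ.1.2
    have h1 := wieExt_coe H H₀ hnorm hW hφc φ.2 ⟨x, hle hx⟩
    have h2 := wieExt_one H H₀ hnorm hW hφc φ.2
    rw [h2]
    exact h1.trans (φ.2 ⟨x, hle hx⟩ hx)
  · intro g hg
    rw [Subgroup.mem_iInf]
    intro φ
    rw [hK φ g, wieExt_of_not_conj H H₀ φ.2 hg,
      wieExt_one H H₀ hnorm hW (isClassFunction_of_isIrrCharacter φ.1.2) φ.2]

/-- **Wielandt's theorem** (generalizing Frobenius' theorem). -/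
theorem wielandt {G : Type u} [Group G] [Finite G] (H H₀ : Subgroup G)
    (hle : H₀ ≤ H) (hnorm : ∀ h ∈ H, ∀ x ∈ H₀, h * x * h⁻¹ ∈ H₀)
    (hW : ∀ g : G, g ∉ H → ∀ x ∈ H, g⁻¹ * x * g ∈ H → x ∈ H₀) :
    ∃ M : Subgroup G, M.Normal ∧ M ⊓ H ≤ H₀ ∧ H₀ ≤ M ∧
      Nat.card G * Nat.card H₀ ≤ Nat.card M * Nat.card H := by
  classical
  have := Fintype.ofFinite G
  have := Fintype.ofFinite H
  obtain ⟨M, hMn, h1, h2, h3⟩ := wielandt_aux H H₀ hle hnorm hW
  refine ⟨M, hMn, h1, h2, ?_⟩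
  let f : (G ⧸ H) × {h : H // (h : G) ∉ H₀} → G := fun a => a.1.out * (a.2.1 : G) * a.1.out⁻¹
  have hcover : ∀ g : G, g ∈ M ∨ g ∈ Set.range f := by
    intro g
    by_cases hg : ∀ x : G, x⁻¹ * g * x ∈ H → x⁻¹ * g * x ∈ H₀
    · left; exact h3 g hg
    · right
      push Not at hg
      obtain ⟨x, hx1, hx2⟩ := hg
      have hh' : (x : G ⧸ H).out⁻¹ * x ∈ H := by
        rw [← QuotientGroup.eq]; exact QuotientGroup.out_eq' _
      have ht : (x : G ⧸ H).out⁻¹ * g * (x : G ⧸ H).out ∈ H := by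
        have e : (x : G ⧸ H).out⁻¹ * g * (x : G ⧸ H).out
            = ((x : G ⧸ H).out⁻¹ * x) * (x⁻¹ * g * x) * ((x : G ⧸ H).out⁻¹ * x)⁻¹ := by group
        rw [e]; exact H.mul_mem (H.mul_mem hh' hx1) (H.inv_mem hh')
      have ht0 : (x : G ⧸ H).out⁻¹ * g * (x : G ⧸ H).out ∉ H₀ := by
        intro hc
        apply hx2
        have e : x⁻¹ * g * x = ((x : G ⧸ H).out⁻¹ * x)⁻¹
            * ((x : G ⧸ H).out⁻¹ * g * (x : G ⧸ H).out) * (((x : G ⧸ H).out⁻¹ * x)⁻¹)⁻¹ := by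
          group
        rw [e]; exact hnorm _ (H.inv_mem hh') _ hc
      refine ⟨((x : G ⧸ H), ⟨⟨_, ht⟩, ht0⟩), ?_⟩
      change (x : G ⧸ H).out * ((x : G ⧸ H).out⁻¹ * g * (x : G ⧸ H).out) * (x : G ⧸ H).out⁻¹ = g
      group
  have hcard : Nat.card G ≤ Nat.card M + H.index * Nat.card {h : H // (h : G) ∉ H₀} := by
    let F : M ⊕ ((G ⧸ H) × {h : H // (h : G) ∉ H₀}) → G :=
      fun s => Sum.elim (fun m : M => (m : G)) f s
    have hs : Function.Surjective F := by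
      intro g
      rcases hcover g with hg | ⟨a, rfl⟩
      · exact ⟨Sum.inl ⟨g, hg⟩, rfl⟩
      · exact ⟨Sum.inr a, rfl⟩
    have h4 := Nat.card_le_card_of_surjective F hs
    rw [Nat.card_sum, Nat.card_prod] at h4
    exact h4
  have hT : Nat.card {h : H // (h : G) ∉ H₀} + Nat.card H₀ = Nat.card H := by
    have e1 : Nat.card {h : H // (h : G) ∈ H₀} = Nat.card H₀ :=
      Nat.card_congr (Subgroup.subgroupOfEquivOfLe hle).toEquiv
    have e2 := Nat.card_congr (Equiv.sumCompl (fun h : H => (h : G) ∈ H₀))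
    rw [Nat.card_sum, e1] at e2
    omega
  have hidx : H.index * Nat.card H = Nat.card G := H.index_mul_card
  have h5 : Nat.card G * Nat.card H
      ≤ (Nat.card M + H.index * Nat.card {h : H // (h : G) ∉ H₀}) * Nat.card H :=
    Nat.mul_le_mul_right _ hcard
  rw [← hT] at h5 ⊢
  rw [← hT] at hidx
  nlinarith [h5, hidx]

end Cfsg.Agent.Lib.Helper23
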